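import Cfsg.Agent.Pron.Defs

set_option autoImplicit false

namespace Cfsg.Agent.Pron

open Finset MulAction

open scoped Classical Pointwise

variable {G : Type} [Group G] [Finite G] {Ω : Type} [MulAction G Ω]

/-- The translates of the fixed point set containing a point. -/
private def blU (H K : Subgroup G) (a : Ω) : Set G := {g | g ∈ H ∧ IsFx K (g⁻¹ • a)}

omit [Finite G] in
private theorem blU_smul {H K : Subgroup G} {h : G} (hh : h ∈ H) (a : Ω) :
    h • blU H K a = blU H K (h • a) := by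
  ext g
  rw [Set.mem_smul_set_iff_inv_smul_mem, smul_eq_mul]
  simp only [blU, Set.mem_ofPred_eq, mul_inv_rev, inv_inv, mul_smul, H.mul_mem_cancel_left (H.inv_mem hh)]

theorem block {K : Subgroup G} {n : ℕ} (IH : ∀ m < n, Claim G K m) {H : Subgroup G}
    {Δ : Finset Ω} (hn : Δ.card ≤ n) (hp : Pro H K) (ho : Orb H Δ) (hne : (Sp K Δ).Nonempty)
    {α : Ω} (hα : α ∈ Fx K Δ)
    (h2 : 2 ≤ (Δ.filter (fun β => ∀ h ∈ H, h • α = α → IsFx K (h • β))).card) :
    2 * (Fx K Δ).card + (Δ.filter (fun β => ∀ h ∈ H, h • α = α → IsFx K (h • β))).card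
      ≤ Δ.card := by
  obtain ⟨hαΔ, hα⟩ := mem_Fx.1 hα
  have e1 : Δ.filter (fun β => ∀ h ∈ H, h • α = α → IsFx K (h • β)) =
      Δ.filter (fun β => blU H K β = blU H K α) := by
    refine filter_congr fun β hβ => ⟨fun h1 => ?_, fun h1 h hh e => ?_⟩
    · obtain ⟨h, hh, rfl⟩ := ho.tr α hαΔ β hβ
      refine (Set.eq_of_subset_of_ncard_le (fun g hg => ?_)
        (by rw [← blU_smul hh, Set.ncard_smul_set])).symm
      refine ⟨hg.1, ?_⟩
      obtain ⟨c, hc, c1, c2⟩ := hp.witt hg.1 hg.2 (by rwa [smul_inv_smul])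
      rw [← c2, ← mul_smul]
      exact h1 _ (H.mul_mem hc (H.inv_mem hg.1)) (by rw [mul_smul, c1, smul_inv_smul])
    · have : h⁻¹ ∈ blU H K α := ⟨H.inv_mem hh, by rwa [inv_inv, e]⟩
      rw [← h1] at this
      simpa using this.2
  rw [e1] at h2 ⊢
  set φ := (Δ.filter (fun β => blU H K β = blU H K α)).card
  have fib : ∀ X ∈ Δ.image (blU H K), (Δ.filter (fun β => blU H K β = X)).card = φ := by
    intro X hX
    obtain ⟨a, ha, rfl⟩ := mem_image.1 hX
    obtain ⟨h, hh, rfl⟩ := ho.tr α hαΔ a ha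
    refine (card_bij (fun b _ => h • b) (fun b hb => ?_) (fun _ _ _ _ e => smul_left_cancel h e) fun b hb => ?_).symm
    · rw [mem_filter] at hb ⊢
      exact ⟨ho.inv h hh b hb.1, by rw [← blU_smul hh, hb.2, blU_smul hh]⟩
    · rw [mem_filter] at hb
      exact ⟨h⁻¹ • b, mem_filter.2 ⟨ho.inv _ (H.inv_mem hh) b hb.1, by
        rw [← blU_smul (H.inv_mem hh), hb.2, blU_smul (H.inv_mem hh), inv_smul_smul]⟩, smul_inv_smul h b⟩
  have e2 : Δ.card = (Δ.image (blU H K)).card * φ := by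
    rw [card_eq_sum_card_image (blU H K), sum_congr rfl fib, sum_const, smul_eq_mul]
  have e3 : (Fx K Δ).card ≤ φ * (Fx K (Δ.image (blU H K))).card :=
    card_le_mul_card_image_of_maps_to (f := blU H K) (fun a ha => mem_Fx.2 ⟨mem_image_of_mem _ (mem_Fx.1 ha).1,
      fun k hk => by rw [blU_smul (hp.1 hk), (mem_Fx.1 ha).2 k hk]⟩) φ fun X hX =>
        (card_le_card (filter_subset_filter _ (filter_subset _ _))).trans (fib X (mem_Fx.1 hX).1).le
  have oS : Orb H (Δ.image (blU H K)) := by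
    refine ⟨fun h hh X hX => ?_, fun X hX Y hY => ?_⟩
    · obtain ⟨a, ha, rfl⟩ := mem_image.1 hX
      exact blU_smul (K := K) hh a ▸ mem_image_of_mem _ (ho.inv h hh a ha)
    · obtain ⟨a, ha, rfl⟩ := mem_image.1 hX
      obtain ⟨b, hb, rfl⟩ := mem_image.1 hY
      obtain ⟨h, hh, rfl⟩ := ho.tr a ha b hb
      exact ⟨h, hh, blU_smul hh a⟩
  have hS : (Sp K (Δ.image (blU H K))).Nonempty := by
    obtain ⟨s, hs⟩ := hne
    obtain ⟨hs, hs'⟩ := mem_Sp.1 hs
    refine ⟨blU H K s, mem_Sp.2 ⟨mem_image_of_mem _ hs, fun hc => hs' ?_⟩⟩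
    obtain ⟨h, hh, rfl⟩ := ho.tr α hαΔ s hs
    obtain ⟨w, hw, hwH, hN⟩ := hp.ex hh (stabilizer G (blU H K (h • α))) hc fun k hk => by
      rw [mem_stabilizer_iff, blU_smul (H.mul_mem (H.mul_mem hh (hp.1 hk)) (H.inv_mem hh)), mul_smul,
        inv_smul_smul, mul_smul, hα k hk]
    have h1 : (1 : G) ∈ blU H K ((w⁻¹ * h) • α) := ⟨H.one_mem, by
      rw [inv_one, one_smul]; exact (isFx_smul hN α).2 hα⟩
    rw [mul_smul, ← blU_smul (H.inv_mem hwH), mem_stabilizer_iff.1 (inv_mem hw)] at h1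
    simpa using h1.2
  have pos := card_pos.2 (⟨_, mem_image_of_mem (blU H K) hαΔ⟩ : (Δ.image (blU H K)).Nonempty)
  have := (IH _ (by nlinarith) _ H _ rfl hp oS hS).1
  nlinarith

end Cfsg.Agent.Pron
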