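import Cfsg.Agent.Pron.Clique

set_option autoImplicit false

namespace Cfsg.Agent.Pron

open Finset MulAction

open scoped Classical

variable {G : Type} [Group G] [Finite G] {Ω : Type} [MulAction G Ω]

/-- The order of the stabiliser of four points. -/
private noncomputable def n4 (H : Subgroup G) (a b c d : Ω) : ℕ :=
  Set.ncard {h : G | h ∈ H ∧ h • a = a ∧ h • b = b ∧ h • c = c ∧ h • d = d}

private theorem n4_smul {H : Subgroup G} {x : G} (hx : x ∈ H) (a b c d : Ω) :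
    n4 H (x • a) (x • b) (x • c) (x • d) = n4 H a b c d := by
  have k : ∀ (h : G) (y : Ω), (x * h * x⁻¹) • x • y = x • y ↔ h • y = y := fun h y => by
    rw [mul_smul, inv_smul_smul, mul_smul, smul_left_cancel_iff]
  refine (Set.ncard_congr (fun h _ => x * h * x⁻¹) (fun h hh => ?_)
    (fun _ _ _ _ e => mul_left_cancel (mul_right_cancel e)) fun h hh => ⟨x⁻¹ * h * x, ?_, by group⟩).symm
  · simpa only [Set.mem_ofPred_eq, k] using ⟨H.mul_mem (H.mul_mem hx hh.1) (H.inv_mem hx), hh.2⟩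
  · simp only [Set.mem_ofPred_eq, mul_smul, inv_smul_eq_iff]
    exact ⟨H.mul_mem (H.mul_mem (H.inv_mem hx) hh.1) hx, hh.2⟩

private theorem orb_stab {M : Subgroup G} {Γ : Finset Ω} (o : Orb M Γ) {d : Ω} (hd : d ∈ Γ) :
    Set.ncard {h : G | h ∈ M ∧ h • d = d} * Γ.card = Nat.card M := by
  have h1 : orbit M d = Γ := Set.ext fun b =>
    ⟨fun ⟨h, e⟩ => e ▸ o.inv h h.2 d hd, fun hb => (o.tr d hd b hb).elim fun h hh => ⟨⟨h, hh.1⟩, hh.2⟩⟩
  rw [← (stabilizer M d).card_mul_index, index_stabilizer, h1, Set.ncard_coe_finset, ← Nat.card_coe_set_eq]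
  congr 1
  exact Nat.card_congr ⟨fun h => ⟨⟨h.1, h.2.1⟩, h.2.2⟩, fun h => ⟨h.1.1, h.1.2, h.2⟩, fun _ => rfl, fun _ => rfl⟩

/-- Four distinct points of `Δ`. -/
private def D4 (Δ : Finset Ω) (a b c d : Ω) : Prop :=
  (a ∈ Δ ∧ b ∈ Δ ∧ c ∈ Δ ∧ d ∈ Δ) ∧ a ≠ b ∧ a ≠ c ∧ a ≠ d ∧ b ≠ c ∧ b ≠ d ∧ c ≠ d

/-- An invariant symmetric relation on quadruples. -/
private structure SR (H : Subgroup G) (Δ : Finset Ω) (R : Ω → Ω → Ω → Ω → Prop) : Prop where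
  smul : ∀ h ∈ H, ∀ {a b c d}, R a b c d → R (h • a) (h • b) (h • c) (h • d)
  d4 : ∀ {a b c d}, R a b c d → D4 Δ a b c d
  s1 : ∀ {a b c d}, R a b c d → R b a c d
  s2 : ∀ {a b c d}, R a b c d → R a c b d
  s3 : ∀ {a b c d}, R a b c d → R a b d c

private theorem exists_SR {H : Subgroup G} {Δ : Finset Ω} (hi : Inv H Δ) (P : ℕ → Prop) :
    SR H Δ fun a b c d => D4 Δ a b c d ∧ P (n4 H a b c d) := by
  refine ⟨fun h hh a b c d r => ⟨⟨⟨hi h hh _ r.1.1.1, hi h hh _ r.1.1.2.1, hi h hh _ r.1.1.2.2.1,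
    hi h hh _ r.1.1.2.2.2⟩, by simpa using r.1.2⟩, by rw [n4_smul hh]; exact r.2⟩, fun r => r.1, ?_, ?_, ?_⟩ <;>
    rintro a b c d ⟨⟨⟨a1, a2, a3, a4⟩, b1, b2, b3, b4, b5, b6⟩, r⟩
  · exact ⟨⟨⟨a2, a1, a3, a4⟩, b1.symm, b4, b5, b2, b3, b6⟩, by
      convert r using 1; exact congrArg Set.ncard (Set.ext fun h => by simp only [Set.mem_ofPred_eq]; tauto)⟩
  · exact ⟨⟨⟨a1, a3, a2, a4⟩, b2, b1, b3, b4.symm, b6, b5⟩, by
      convert r using 1; exact congrArg Set.ncard (Set.ext fun h => by simp only [Set.mem_ofPred_eq]; tauto)⟩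
  · exact ⟨⟨⟨a1, a2, a4, a3⟩, b1, b3, b2, b5, b4, b6.symm⟩, by
      convert r using 1; exact congrArg Set.ncard (Set.ext fun h => by simp only [Set.mem_ofPred_eq]; tauto)⟩

omit [Finite G] in
private theorem SR.iff {H : Subgroup G} {Δ : Finset Ω} {R : Ω → Ω → Ω → Ω → Prop} (S : SR H Δ R) {h : G}
    (hh : h ∈ H) {a b c d : Ω} : R (h • a) (h • b) (h • c) (h • d) ↔ R a b c d :=
  ⟨fun r => by simpa using S.smul _ (H.inv_mem hh) r, S.smul h hh⟩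

omit [Finite G] in
private theorem card_smul {H : Subgroup G} {Δ : Finset Ω} (hi : Inv H Δ) {h : G} (hh : h ∈ H) {p q : Ω → Prop}
    [DecidablePred p] [DecidablePred q] (e : ∀ a, q (h • a) ↔ p a) : (Δ.filter q).card = (Δ.filter p).card :=
  (card_bij (fun a _ => h • a) (fun a ha => mem_filter.2 ⟨hi h hh a (mem_filter.1 ha).1,
    (e a).2 (mem_filter.1 ha).2⟩) (fun _ _ _ _ => smul_left_cancel h) fun b hb =>
      ⟨h⁻¹ • b, mem_filter.2 ⟨hi _ (H.inv_mem hh) b (mem_filter.1 hb).1, (e _).1 (by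
        rw [smul_inv_smul]; exact (mem_filter.1 hb).2)⟩, smul_inv_smul h b⟩).symm

theorem c2 {H K : Subgroup G} {Δ Γ₁ Γ₂ : Finset Ω} (hp : Pro H K) (hi : Inv H Δ) (h3 : Tr3 H Δ)
    (hs : (Sp K Δ).card = (Fx K Δ).card) {α β γ : Ω} (hα : α ∈ Fx K Δ) (hβ : β ∈ Fx K Δ)
    (hγ : γ ∈ Fx K Δ) (d1 : α ≠ β) (d2 : α ≠ γ) (d3 : β ≠ γ)
    (hu : ((Δ.erase α).erase β).erase γ = Γ₁ ∪ Γ₂) (hd : Disjoint Γ₁ Γ₂)
    (o1 : Orb (St (St (St H α) β) γ) Γ₁) (o2 : Orb (St (St (St H α) β) γ) Γ₂)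
    (t1 : Tr2 (St (St (St H α) β) γ) Γ₁)
    (c1 : Γ₁.card = 2 * (Fx K Γ₁).card + 1) (l1 : 3 ≤ Γ₁.card) (e2 : Even Γ₂.card)
    (ne2 : Γ₂.Nonempty) : False := by
  obtain ⟨a0, a1⟩ := mem_Fx.1 hα
  obtain ⟨b0, b1⟩ := mem_Fx.1 hβ
  obtain ⟨g0, g1⟩ := mem_Fx.1 hγ
  have mu : ∀ d, D4 Δ α β γ d ↔ d ∈ Γ₁ ∨ d ∈ Γ₂ := fun d => by
    rw [← mem_union, ← hu]
    simp only [D4, mem_erase]
    tauto
  obtain ⟨R, S, hR⟩ : ∃ R, SR H Δ R ∧ ∀ d, R α β γ d ↔ d ∈ Γ₁ := by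
    refine ⟨_, exists_SR hi fun n => n * Γ₁.card = Nat.card (St (St (St H α) β) γ), fun d => ?_⟩
    have k : n4 H α β γ d = Set.ncard {h : G | h ∈ St (St (St H α) β) γ ∧ h • d = d} :=
      congrArg Set.ncard (Set.ext fun h => by simp only [Set.mem_ofPred_eq, mem_St, and_assoc])
    refine ⟨fun r => ((mu d).1 r.1).resolve_right fun h2 => ?_, fun h1 => ⟨(mu d).2 (.inl h1), k ▸ orb_stab o1 h1⟩⟩
    have k1 := orb_stab o2 h2
    have k2 := r.2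
    have k3 := Nat.card_pos (α := St (St (St H α) β) γ)
    rw [← k] at k1
    have := Nat.eq_of_mul_eq_mul_left (Nat.pos_of_mul_pos_right (k1 ▸ k3)) (k2.trans k1.symm)
    obtain ⟨i, hi⟩ := e2
    omega
  have tb : ∀ {a b c d}, D4 Δ a b c d → ∃ h ∈ H, ∃ e, D4 Δ α β γ e ∧ h • α = a ∧ h • β = b ∧ h • γ = c ∧ h • e = d := by
    rintro a b c d ⟨⟨k1, k2, k3, k4⟩, k5, k6, k7, k8, k9, k10⟩
    obtain ⟨h, hh, rfl, rfl, rfl⟩ := h3 α a0 β b0 γ g0 a k1 b k2 c k3 d1 d2 d3 k5 k6 k8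
    exact ⟨h, hh, h⁻¹ • d, ⟨⟨a0, b0, g0, hi _ (H.inv_mem hh) d k4⟩, d1, d2, by rwa [Ne, eq_inv_smul_iff], d3,
      by rwa [Ne, eq_inv_smul_iff], by rwa [Ne, eq_inv_smul_iff]⟩, rfl, rfl, rfl, smul_inv_smul h d⟩
  have fl : Δ.filter (R α β γ) = Γ₁ := Finset.ext fun d => by
    rw [mem_filter, hR]
    exact and_iff_right_of_imp fun h1 => ((mu d).2 (.inl h1)).1.2.2.2
  have p2 : Pro (St (St H α) β) K := (hp.st a1).st b1
  have o' : Orb (St (St H α) β) ((Δ.erase α).erase β) := ⟨(hi.erase α).erase β, fun a ha b hb => by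
    simp only [mem_erase] at ha hb
    obtain ⟨h, hh, k1, k2, k3⟩ := h3 α a0 β b0 a ha.2.2 α a0 β b0 b hb.2.2 d1 ha.2.1.symm ha.1.symm d1
      hb.2.1.symm hb.1.symm
    exact ⟨h, ⟨⟨hh, k1⟩, k2⟩, k3⟩⟩
  have g2 : γ ∈ (Δ.erase α).erase β := mem_erase.2 ⟨d3.symm, mem_erase.2 ⟨d2.symm, g0⟩⟩
  have st : ∀ h ∈ St (St H α) β, ∀ {c d}, R α β c d → R α β (h • c) (h • d) := fun h hh c d r => by
    have := S.smul h hh.1.1 r
    rwa [show h • α = α from hh.1.2, show h • β = β from hh.2] at this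
  have f1 : Fx K ((Δ.erase α).erase β) = ((Fx K Δ).erase α).erase β := by
    ext; simp only [mem_Fx, mem_erase, and_assoc]
  have f2 : (((Fx K Δ).erase α).erase β).card + 2 = (Fx K Δ).card := by
    rw [← card_erase_add_one hα, ← card_erase_add_one (mem_erase.2 ⟨d1.symm, hβ⟩)]
  by_cases hT : ∃ a b c d e, R a b c d ∧ R a b c e ∧ R a b d e
  · obtain ⟨a, b, c, d, e, r1, r2, r3⟩ := hT
    obtain ⟨h, hh, d, -, rfl, rfl, rfl, rfl⟩ := tb (S.d4 r1)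
    obtain ⟨e, rfl⟩ := MulAction.surjective h e
    rw [S.iff hh] at r1 r2 r3
    have tr : ∀ {a b c d e}, R a b c d → R a b c e → d ≠ e → R a b d e := fun {a b c d' e'} s1 s2 ne => by
      obtain ⟨h, hh, d', -, rfl, rfl, rfl, rfl⟩ := tb (S.d4 s1)
      obtain ⟨e', rfl⟩ := MulAction.surjective h e'
      rw [S.iff hh] at s1 s2 ⊢
      obtain ⟨x, hx, rfl, rfl⟩ := t1 d ((hR d).1 r1) e ((hR e).1 r2) d' ((hR _).1 s1) e' ((hR _).1 s2)
        (S.d4 r3).2.2.2.2.2.2 fun c => ne (c ▸ rfl)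
      exact st x hx.1 r3
    have g3 : γ ∉ Γ₁ := fun c => ((mu γ).2 (.inl c)).2.2.2.2.2.2 rfl
    have k : ∀ i, @filter _ (fun d => γ = d ∨ R α β γ d) i ((Δ.erase α).erase β) = insert γ Γ₁ :=
      fun _ => Finset.ext fun d => by
      rw [mem_filter, mem_insert, hR, eq_comm]
      refine and_iff_right_of_imp ?_
      rintro (rfl | c)
      · exact g2
      · exact mem_of_mem_erase (hu ▸ mem_union_left _ c)
    refine clique p2 o' (fun c d => c = d ∨ R α β c d) (fun h hh a _ b _ r => r.imp (congrArg _) (st h hh))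
      (fun a _ => .inl rfl) (fun a _ b _ r => r.imp Eq.symm S.s3) ?_ (mem_Fx.2 ⟨g2, g1⟩) ?_ ?_ ?_
    · rintro a - b - c - (rfl | s1) s2
      · exact s2
      rcases s2 with rfl | s2
      · exact .inr s1
      exact (eq_or_ne a c).imp_right (tr (S.s3 s1) s2)
    · rw [k, card_insert_of_notMem g3]; omega
    · rw [k, Fx, filter_insert, if_pos g1, card_insert_of_notMem g3,
        card_insert_of_notMem fun c => g3 (mem_filter.1 c).1, c1, Fx]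
      omega
    · rw [f1, f2, ← hs]
      congr 1
      ext d
      simp only [mem_Sp, mem_erase]
      exact ⟨fun c => ⟨c.1.2.2, c.2⟩, fun c => ⟨⟨fun e => c.2 (e ▸ b1), fun e => c.2 (e ▸ a1), c.1⟩, c.2⟩⟩
  have nt : ∀ {a b c d e}, R a b c d → R a b c e → R a b d e → False := fun r1 r2 r3 => hT ⟨_, _, _, _, _, r1, r2, r3⟩
  obtain ⟨δ, hδ⟩ := ne2
  have cR : ∀ {a b c d}, D4 Δ a b c d → (Δ.filter (R a b c)).card = Γ₁.card := fun r => by
    obtain ⟨h, hh, d, -, rfl, rfl, rfl, -⟩ := tb r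
    rw [← fl]
    exact card_smul hi hh fun _ => S.iff hh
  obtain ⟨μ, cμ⟩ : ∃ μ, ∀ {a b c d}, D4 Δ a b c d → ¬ R a b c d →
      (Δ.filter fun e => R a b c e ∧ R a b d e).card = μ := by
    refine ⟨(Δ.filter fun e => R α β γ e ∧ R α β δ e).card, fun r n => ?_⟩
    obtain ⟨h, hh, d, r', rfl, rfl, rfl, rfl⟩ := tb r
    rw [S.iff hh, hR] at n
    obtain ⟨x, hx, rfl⟩ := o2.tr δ hδ d (((mu d).1 r').resolve_left n)
    rw [card_smul hi hh (p := fun e => R α β γ e ∧ R α β (x • δ) e) fun _ => by rw [S.iff hh, S.iff hh]]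
    refine card_smul hi hx.1.1.1 fun e => ?_
    rw [← S.iff hx.1.1.1 (a := α) (c := γ) (d := e), ← S.iff hx.1.1.1 (a := α) (c := δ) (d := e),
      show x • α = α from hx.1.1.2, show x • β = β from hx.1.2, show x • γ = γ from hx.2]
  have n2 : ∀ d ∈ Γ₂, D4 Δ α β γ d ∧ ¬ R α β γ d := fun d h2 =>
    ⟨(mu d).2 (.inr h2), fun r => disjoint_left.1 hd ((hR d).1 r) h2⟩
  have i1 : 3 * μ ≤ Γ₁.card := by
    obtain ⟨⟨⟨-, -, -, k0⟩, -, -, k1, -, k2, k3⟩, k4⟩ := n2 δ hδ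
    have m1 := cμ (n2 δ hδ).1 k4
    have m2 := cμ (a := α) (b := γ) (c := β) (d := δ) ⟨⟨a0, g0, b0, k0⟩, d2, d1, k1, d3.symm, k3, k2⟩
      fun r => k4 (S.s2 r)
    have m3 := cμ (a := β) (b := γ) (c := α) (d := δ) ⟨⟨b0, g0, a0, k0⟩, d3, d1.symm, k2, d2.symm, k3, k1⟩
      fun r => k4 (S.s1 (S.s2 r))
    have := card_le_card (show (Δ.filter fun e => R α β γ e ∧ R α β δ e) ∪ (Δ.filter fun e => R α γ β e ∧ R α γ δ e) ∪
        (Δ.filter fun e => R β γ α e ∧ R β γ δ e) ⊆ Γ₁ from fun e he => (hR e).1 (by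
      simp only [mem_union, mem_filter] at he
      rcases he with (he | he) | he
      exacts [he.2.1, S.s2 he.2.1, S.s1 (S.s2 he.2.1)]))
    rw [card_union_of_disjoint, card_union_of_disjoint, m1, m2, m3] at this
    · omega
    · exact disjoint_filter.2 fun e _ r1 r2 =>
        nt (S.s2 (S.s3 r1.1)) (S.s2 (S.s3 r1.2)) (S.s2 (S.s3 r2.2))
    · refine disjoint_union_left.2 ⟨disjoint_filter.2 fun e _ r1 r2 => ?_, disjoint_filter.2 fun e _ r1 r2 => ?_⟩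
      · exact nt (S.s2 (S.s3 (S.s1 r1.1))) (S.s2 (S.s3 (S.s1 r1.2))) (S.s2 (S.s3 r2.2))
      · exact nt (S.s2 (S.s3 (S.s1 r1.1))) (S.s2 (S.s3 (S.s1 r1.2))) (S.s2 (S.s3 (S.s1 r2.2)))
  have i2 : Γ₁.card * (Γ₁.card - 1) ≤ Γ₂.card * μ := by
    refine card_mul_le_card_mul (fun e d => R α β d e) (fun e he => ?_) fun d h2 => ?_
    · have r := S.s3 ((hR e).2 he)
      rw [← cR (S.d4 r), ← card_erase_of_mem (mem_filter.2 ⟨g0, r⟩)]
      refine card_le_card fun d k => ?_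
      obtain ⟨k1, k2⟩ := mem_erase.1 k
      have r' := (mem_filter.1 k2).2
      obtain ⟨⟨-, -, -, k3⟩, -, -, k4, -, k5, -⟩ := S.d4 r'
      exact mem_filter.2 ⟨((mu d).1 ⟨⟨a0, b0, g0, k3⟩, d1, d2, k4, d3, k5, k1.symm⟩).resolve_left
        fun c => nt (S.s3 r) ((hR d).2 c) r', S.s3 r'⟩
    · rw [← cμ (n2 d h2).1 (n2 d h2).2]
      refine card_le_card fun e k => ?_
      obtain ⟨k1, k2⟩ := mem_filter.1 k
      exact mem_filter.2 ⟨(S.d4 k2).1.2.2.2, (hR e).2 k1, k2⟩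
  have i3 : (((Fx K Δ).erase α).erase β).card * (Sp K Γ₁).card ≤ (Sp K Δ).card * μ := by
    refine card_mul_le_card_mul (fun c s => R α β c s) (fun c hc => ?_) fun s h2 => ?_
    · rw [← f1] at hc
      obtain ⟨h, hh, rfl⟩ := o'.tr γ g2 c (mem_Fx.1 hc).1
      obtain ⟨x, hx, k1, k2⟩ := p2.witt hh g1 (mem_Fx.1 hc).2
      refine card_le_card_of_injOn (x • ·) (fun s k => ?_) fun _ _ _ _ => smul_left_cancel x
      obtain ⟨k3, k4⟩ := mem_Sp.1 k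
      have r := st x hx ((hR s).2 k3)
      exact mem_coe.2 (mem_filter.2 ⟨mem_Sp.2 ⟨(S.d4 r).1.2.2.2, mt (k2 s).1 k4⟩, k1 ▸ r⟩)
    obtain ⟨x, hx, k1⟩ : ∃ x ∈ K, x • s ≠ s := by simpa [IsFx] using (mem_Sp.1 h2).2
    have k2 : ∀ c ∈ (((Fx K Δ).erase α).erase β).bipartiteBelow (fun c s => R α β c s) s,
        R α β c s ∧ R α β c (x • s) := fun c hc => by
      obtain ⟨k3, k4⟩ := mem_filter.1 hc
      have := st x (p2.le hx) k4
      rw [(mem_Fx.1 (mem_of_mem_erase (mem_of_mem_erase k3))).2 x hx] at this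
      exact ⟨k4, this⟩
    rcases ((((Fx K Δ).erase α).erase β).bipartiteBelow (fun c s => R α β c s) s).eq_empty_or_nonempty with
      e | ⟨c, hc⟩
    · rw [e]; exact Nat.zero_le _
    obtain ⟨r1, r2⟩ := k2 c hc
    obtain ⟨⟨-, -, -, k3⟩, -, -, k4, -, k5, -⟩ := S.d4 r1
    obtain ⟨⟨-, -, -, k6⟩, -, -, k7, -, k8, -⟩ := S.d4 r2
    rw [← cμ (a := α) (b := β) (c := s) (d := x • s) ⟨⟨a0, b0, k3, k6⟩, d1, k4, k7, k5, k8, k1.symm⟩ (nt r1 r2)]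
    exact card_le_card fun e he => mem_filter.2 ⟨(S.d4 (k2 e he).1).1.2.2.1, S.s3 (k2 e he).1, S.s3 (k2 e he).2⟩
  have i4 : Γ₁.card + Γ₂.card + 3 = Δ.card := by
    rw [← card_union_of_disjoint hd, ← hu, ← card_erase_add_one a0,
      ← card_erase_add_one (mem_erase.2 ⟨d1.symm, b0⟩), ← card_erase_add_one g2]
  have i5 := card_Fx_add_Sp K Δ
  have i6 := card_Fx_add_Sp K Γ₁
  rw [hs] at i3 i5
  rw [show (Sp K Γ₁).card = (Fx K Γ₁).card + 1 by omega, ← f2] at i3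
  rw [← f2] at i5
  rw [c1] at i1 i2 i4 l1
  rw [Nat.add_sub_cancel] at i2
  generalize (Fx K Γ₁).card = m at *
  generalize (((Fx K Δ).erase α).erase β).card = f at *
  have j1 : 6 * m ≤ Γ₂.card := by
    refine Nat.le_of_mul_le_mul_left ?_ (show 0 < 2 * m + 1 by omega)
    nlinarith
  have j2 : 4 * m ≤ f := by omega
  have j3 : 1 ≤ m := by omega
  nlinarith

end Cfsg.Agent.Pron
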