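import Cfsg.Agent.Pron.Defs

set_option autoImplicit false
set_option linter.unusedSectionVars false

namespace Cfsg.Agent.Pron

open Finset MulAction

open scoped Classical

variable {G : Type} [Group G] [Finite G] {Ω : Type} [MulAction G Ω]

theorem card_filter_smul {H : Subgroup G} {Δ : Finset Ω} (hi : Inv H Δ) {h : G} (hh : h ∈ H) {p q : Ω → Prop}
    [DecidablePred p] [DecidablePred q] (e : ∀ a ∈ Δ, p a ↔ q (h • a)) : (Δ.filter p).card = (Δ.filter q).card :=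
  card_bij (fun b _ => h • b) (fun b hb => mem_filter.2 ⟨hi h hh b (mem_filter.1 hb).1,
    (e b (mem_filter.1 hb).1).1 (mem_filter.1 hb).2⟩) (fun _ _ _ _ e => smul_left_cancel h e) fun b hb =>
      have := hi _ (H.inv_mem hh) b (mem_filter.1 hb).1
      ⟨h⁻¹ • b, mem_filter.2 ⟨this, (e _ this).2 (by simpa using (mem_filter.1 hb).2)⟩, smul_inv_smul h b⟩

theorem clique {H K : Subgroup G} {Δ : Finset Ω} (hp : Pro H K) (ho : Orb H Δ)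
    (E : Ω → Ω → Prop) (hE : ∀ h ∈ H, ∀ a ∈ Δ, ∀ b ∈ Δ, E a b → E (h • a) (h • b))
    (hr : ∀ a ∈ Δ, E a a) (hsy : ∀ a ∈ Δ, ∀ b ∈ Δ, E a b → E b a)
    (htr : ∀ a ∈ Δ, ∀ b ∈ Δ, ∀ c ∈ Δ, E a b → E b c → E a c)
    {γ : Ω} (hγ : γ ∈ Fx K Δ) (h4 : 4 ≤ (Δ.filter (E γ)).card)
    (hb : 2 * (Fx K (Δ.filter (E γ))).card = (Δ.filter (E γ)).card)
    (hs : (Sp K Δ).card = (Fx K Δ).card + 2) : False := by
  obtain ⟨γ1, γ2⟩ := mem_Fx.1 hγ
  have hE' : ∀ h ∈ H, ∀ b ∈ Δ, E γ b ↔ E (h • γ) (h • b) := fun h hh b hb => ⟨hE h hh γ γ1 b hb, fun e => by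
    simpa using hE _ (H.inv_mem hh) _ (ho.inv h hh γ γ1) _ (ho.inv h hh b hb) e⟩
  have k1 : ∀ a ∈ Δ, (Δ.filter (E a)).card = (Δ.filter (E γ)).card := fun a ha => by
    obtain ⟨h, hh, rfl⟩ := ho.tr γ γ1 a ha
    exact (card_filter_smul ho.inv hh (hE' h hh)).symm
  have k2 : ∀ a ∈ Fx K Δ, (Fx K (Δ.filter (E a))).card = (Fx K (Δ.filter (E γ))).card := fun a ha => by
    obtain ⟨h, hh, rfl⟩ := ho.tr γ γ1 a (mem_Fx.1 ha).1
    obtain ⟨c, hc, c1, c2⟩ := hp.witt hh γ2 (mem_Fx.1 ha).2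
    rw [Fx, Fx, filter_filter, filter_filter, ← c1]
    exact (card_filter_smul ho.inv hc fun b hb => and_congr (hE' c hc b hb) (c2 b).symm).symm
  have k3 : ∀ a ∈ Δ, ∀ b ∈ Δ, E a b → Δ.filter (E a) = Δ.filter (E b) := fun a ha b hb e =>
    filter_congr fun c hc => ⟨htr b hb a ha c hc (hsy a ha b hb e), htr a ha b hb c hc e⟩
  have k4 := card_mul_eq_card_mul (s := Fx K Δ) (t := (Sp K Δ).filter fun s => ∃ a ∈ Fx K Δ, E a s) E
    (m := (Fx K (Δ.filter (E γ))).card) (n := (Fx K (Δ.filter (E γ))).card) (fun a ha => by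
      have e1 := card_Fx_add_Sp K (Δ.filter (E a))
      rw [k1 a (mem_Fx.1 ha).1, k2 a ha] at e1
      rw [show (Fx K (Δ.filter (E γ))).card = (Sp K (Δ.filter (E a))).card by omega]
      congr 1
      ext s
      simp only [mem_bipartiteAbove, mem_filter, mem_Sp]
      exact ⟨fun ⟨⟨⟨s1, s2⟩, _⟩, s3⟩ => ⟨⟨s1, s3⟩, s2⟩, fun ⟨⟨s1, s3⟩, s2⟩ => ⟨⟨⟨s1, s2⟩, a, ha, s3⟩, s3⟩⟩)
    fun s hs => by
      obtain ⟨s1, a, ha, e⟩ := mem_filter.1 hs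
      have s2 := (mem_Sp.1 s1).1
      rw [← k2 a ha, k3 a (mem_Fx.1 ha).1 s s2 e]
      congr 1
      ext b
      simp only [mem_bipartiteBelow, mem_filter, mem_Fx]
      exact ⟨fun ⟨⟨b1, b2⟩, b3⟩ => ⟨⟨b1, hsy b b1 s s2 b3⟩, b2⟩, fun ⟨⟨b1, b3⟩, b2⟩ => ⟨⟨b1, b2⟩, hsy s s2 b b1 b3⟩⟩
  have k5 := Nat.eq_of_mul_eq_mul_right (by omega) k4
  have k6 := card_filter_add_card_filter_not (s := Sp K Δ) fun s => ∃ a ∈ Fx K Δ, E a s
  obtain ⟨s, hs'⟩ := card_pos.1 (show 0 < ((Sp K Δ).filter fun s => ¬ ∃ a ∈ Fx K Δ, E a s).card by omega)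
  obtain ⟨s1, s2⟩ := mem_filter.1 hs'
  have s3 := (mem_Sp.1 s1).1
  have := card_le_card (show Δ.filter (E s) ⊆ (Sp K Δ).filter fun s => ¬ ∃ a ∈ Fx K Δ, E a s from fun b hb => by
    obtain ⟨b1, b2⟩ := mem_filter.1 hb
    exact mem_filter.2 ⟨mem_Sp.2 ⟨b1, fun e => s2 ⟨b, mem_Fx.2 ⟨b1, e⟩, hsy s s3 b b1 b2⟩⟩, fun ⟨a, ha, e⟩ =>
      s2 ⟨a, ha, htr a (mem_Fx.1 ha).1 b b1 s s3 e (hsy s s3 b b1 b2)⟩⟩)
  rw [k1 s s3] at this
  omega

/-- Pairs in the same orbital. -/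
private def cqP (H : Subgroup G) (c d a b : Ω) : Prop := ∃ h ∈ H, h • c = a ∧ h • d = b

section
variable {H : Subgroup G} {Δ : Finset Ω} {a b c d a' b' : Ω} {h : G}

private theorem cqP_smul (hh : h ∈ H) : cqP H c d a b ↔ cqP H c d (h • a) (h • b) := by
  have k : ∀ {h : G} {a b : Ω}, h ∈ H → cqP H c d a b → cqP H c d (h • a) (h • b) := by
    rintro h _ _ hh ⟨k, hk, rfl, rfl⟩
    exact ⟨h * k, H.mul_mem hh hk, mul_smul _ _ _, mul_smul _ _ _⟩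
  exact ⟨k hh, fun e => by simpa using k (H.inv_mem hh) e⟩

private theorem cqP_ne (cd : c ≠ d) (r : cqP H c d a b) : a ≠ b := by
  obtain ⟨k, -, rfl, rfl⟩ := r
  exact fun e => cd (smul_left_cancel k e)

private theorem cqP_congr (r : cqP H c d a b) : cqP H c d a' b' ↔ cqP H a b a' b' := by
  obtain ⟨k, hk, rfl, rfl⟩ := r
  refine ⟨fun ⟨x, hx, e1, e2⟩ => ⟨x * k⁻¹, H.mul_mem hx (H.inv_mem hk), by simp [mul_smul, e1], by simp [mul_smul, e2]⟩,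
    fun ⟨x, hx, e1, e2⟩ => ⟨x * k, H.mul_mem hx hk, by rwa [mul_smul], by rwa [mul_smul]⟩⟩

private theorem cqP_out (ho : Orb H Δ) (ha : a ∈ Δ) (hb : b ∈ Δ) :
    (Δ.filter (cqP H c d a)).card = (Δ.filter (cqP H c d b)).card := by
  obtain ⟨h, hh, rfl⟩ := ho.tr a ha b hb
  exact card_filter_smul ho.inv hh fun _ _ => cqP_smul hh

private theorem cqP_in (ho : Orb H Δ) (ha : a ∈ Δ) (hb : b ∈ Δ) :
    (Δ.filter (cqP H c d · b)).card = (Δ.filter (cqP H c d a)).card := by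
  refine (Nat.eq_of_mul_eq_mul_left (card_pos.2 ⟨a, ha⟩) (card_mul_eq_card_mul (cqP H c d)
    (fun x hx => cqP_out ho hx ha) fun x hx => ?_)).symm
  obtain ⟨h, hh, rfl⟩ := ho.tr x hx b hb
  exact card_filter_smul ho.inv hh fun _ _ => cqP_smul hh

private theorem cqP_orb (cd : c ≠ d) (r : cqP H c d a b) : Δ.filter (cqP H c d a) = orb (St H a) (Δ.erase a) b := by
  ext e
  rw [mem_filter, mem_orb, mem_erase, cqP_congr r]
  exact ⟨fun ⟨e1, h, hh, e2, e3⟩ => ⟨⟨(cqP_ne (cqP_ne cd r) ⟨h, hh, e2, e3⟩).symm, e1⟩, h, ⟨hh, e2⟩, e3⟩,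
    fun ⟨e1, h, hh, e3⟩ => ⟨e1.2, h, hh.1, hh.2, e3⟩⟩

end

theorem c3 {H K : Subgroup G} {Δ : Finset Ω} (hp : Pro H K) (ho : Orb H Δ) {γ : Ω}
    (hγ : γ ∈ Fx K Δ) (hs : (Sp K Δ).card = (Fx K Δ).card + 2)
    (hall : ∀ a ∈ Δ.erase γ,
      (orb (St H γ) (Δ.erase γ) a).card = 2 * (Fx K (orb (St H γ) (Δ.erase γ) a)).card + 1 ∧
      3 ≤ (orb (St H γ) (Δ.erase γ) a).card ∧ Tr2 (St H γ) (orb (St H γ) (Δ.erase γ) a)) :
    False := by
  obtain ⟨γ1, γ2⟩ := mem_Fx.1 hγ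
  have k0 : ∀ c ∈ Δ, ∀ d ∈ Δ, c ≠ d → ∃ a ∈ Δ.erase γ, Δ.filter (cqP H c d γ) = orb (St H γ) (Δ.erase γ) a :=
    fun c hc d hd cd => by
      obtain ⟨h, hh, rfl⟩ := ho.tr c hc γ γ1
      exact ⟨h • d, mem_erase.2 ⟨fun e => cd (smul_left_cancel h e).symm, ho.inv h hh d hd⟩,
        cqP_orb cd ⟨h, hh, rfl, rfl⟩⟩
  obtain ⟨s, hs'⟩ := card_pos.1 (show 0 < (Sp K Δ).card by omega)
  obtain ⟨d, hd, hm⟩ := exists_max_image (Δ.erase γ) (fun a => (orb (St H γ) (Δ.erase γ) a).card)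
    ⟨s, mem_erase.2 ⟨fun e => (mem_Sp.1 hs').2 (e ▸ γ2), (mem_Sp.1 hs').1⟩⟩
  obtain ⟨d1, d2⟩ := mem_erase.1 hd
  have e0 : Δ.filter (cqP H γ d γ) = _ := cqP_orb d1.symm ⟨1, H.one_mem, one_smul _ _, one_smul _ _⟩
  obtain ⟨o1, o2, o3⟩ := hall d hd
  rw [← e0] at o1 o2 o3 hm
  obtain ⟨u, hu, v, hv, uv⟩ := one_lt_card.1 (show 1 < (Δ.filter (cqP H γ d γ)).card by omega)
  have T : ∀ c ∈ Δ, ∀ x ∈ Δ, ∀ y ∈ Δ, cqP H γ d c x → cqP H γ d c y → x ≠ y → cqP H u v x y := by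
    intro c hc x hx y hy r1 r2 xy
    obtain ⟨h, hh, rfl⟩ := ho.tr c hc γ γ1
    obtain ⟨k, hk, e⟩ := o3 u hu v hv _ (mem_filter.2 ⟨ho.inv h hh x hx, (cqP_smul hh).1 r1⟩) _
      (mem_filter.2 ⟨ho.inv h hh y hy, (cqP_smul hh).1 r2⟩) uv fun e => xy (smul_left_cancel h e)
    exact (cqP_smul hh).2 ⟨k, hk.1, e⟩
  obtain ⟨u1, u2⟩ := mem_filter.1 hu
  obtain ⟨v1, v2⟩ := mem_filter.1 hv
  have sy : ∀ {x y}, cqP H u v x y → cqP H u v y x := by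
    rintro _ _ ⟨h, hh, rfl, rfl⟩
    exact (cqP_smul hh).1 (T γ γ1 v v1 u u1 v2 u2 uv.symm)
  have mu : ∀ {x y}, cqP H u v x y → (Δ.filter fun c => cqP H γ d c x ∧ cqP H γ d c y).card =
      (Δ.filter fun c => cqP H γ d c u ∧ cqP H γ d c v).card := by
    rintro _ _ ⟨h, hh, rfl, rfl⟩
    exact (card_filter_smul ho.inv hh fun _ _ => and_congr (cqP_smul hh) (cqP_smul hh)).symm
  have k1 := card_mul_eq_card_mul (s := Δ.filter (cqP H γ d · u)) (t := Δ.filter (cqP H u v u)) (cqP H γ d)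
    (m := (Δ.filter (cqP H γ d γ)).card - 1) (fun c hc => by
      obtain ⟨c1, c2⟩ := mem_filter.1 hc
      rw [cqP_out ho γ1 c1, ← card_erase_of_mem (mem_filter.2 ⟨u1, c2⟩)]
      congr 1
      ext y
      simp only [mem_bipartiteAbove, mem_filter, mem_erase]
      exact ⟨fun ⟨⟨y1, y2⟩, y3⟩ => ⟨(cqP_ne uv y2).symm, y1, y3⟩,
        fun ⟨y1, y2, y3⟩ => ⟨⟨y2, T c c1 u u1 y y2 c2 y3 (Ne.symm y1)⟩, y3⟩⟩)
    fun y hy => (by rw [bipartiteBelow, filter_filter] : _ = _).trans (mu (mem_filter.1 hy).2)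
  have k2 : (Δ.filter fun c => cqP H γ d c u ∧ cqP H γ d c v).card ≤ (Δ.filter (cqP H γ d · u)).card :=
    card_le_card (monotone_filter_right _ fun _ _ e => e.1)
  obtain ⟨a, ha, e1⟩ := k0 u u1 v v1 uv
  obtain ⟨p1, p2, -⟩ := hall a ha
  have k3 := hm a ha
  rw [← e1] at p1 p2 k3
  rw [cqP_in ho γ1 u1, cqP_out ho u1 γ1] at k1
  rw [cqP_in ho γ1 u1] at k2
  have k4 : (Δ.filter fun c => cqP H γ d c u ∧ cqP H γ d c v).card + 1 = (Δ.filter (cqP H γ d γ)).card := by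
    generalize (Δ.filter fun c => cqP H γ d c u ∧ cqP H γ d c v).card = μ at k1 k2
    generalize (Δ.filter (cqP H γ d γ)).card = k at k1 k2 k3 o1 o2
    generalize (Δ.filter (cqP H u v γ)).card = k' at k1 k3 p1
    obtain ⟨j, rfl⟩ : ∃ j, k = j + 1 := ⟨k - 1, by omega⟩
    rw [Nat.add_sub_cancel] at k1
    rcases k2.eq_or_lt with rfl | k2
    · have := Nat.eq_of_mul_eq_mul_left (Nat.succ_pos j) (k1.trans (mul_comm _ _))
      omega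
    · have : j ≤ μ := Nat.le_of_mul_le_mul_left (k1.le.trans (Nat.mul_le_mul_right μ k3)) (Nat.succ_pos j)
      omega
  have e2 : ∀ I, @filter _ (fun y => γ = y ∨ cqP H u v γ y) I Δ = insert γ (Δ.filter (cqP H u v γ)) := by
    intro I
    ext y
    simp only [mem_filter, mem_insert]
    exact ⟨fun ⟨y1, y2⟩ => y2.imp Eq.symm fun y3 => ⟨y1, y3⟩, fun y1 => y1.elim (fun e => ⟨e ▸ γ1, .inl e.symm⟩)
      fun y2 => ⟨y2.1, .inr y2.2⟩⟩
  have n1 : γ ∉ Δ.filter (cqP H u v γ) := fun e => cqP_ne uv (mem_filter.1 e).2 rfl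
  refine clique hp ho (fun x y => x = y ∨ cqP H u v x y) (fun h hh x _ y _ e => e.imp (congrArg _) (cqP_smul hh).1)
    (fun _ _ => .inl rfl) (fun _ _ _ _ e => e.imp Eq.symm sy) ?_ hγ ?_ ?_ hs
  · rintro x hx y hy z hz (rfl | r1) (rfl | r2)
    exacts [.inl rfl, .inr r2, .inr r1, or_iff_not_imp_left.2 fun xz => by
      have c1 := card_union_add_card_inter (Δ.filter fun c => cqP H γ d c y ∧ cqP H γ d c x)
        (Δ.filter fun c => cqP H γ d c y ∧ cqP H γ d c z)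
      have c2 : ((Δ.filter fun c => cqP H γ d c y ∧ cqP H γ d c x) ∪
          (Δ.filter fun c => cqP H γ d c y ∧ cqP H γ d c z)).card ≤ (Δ.filter (cqP H γ d · y)).card :=
        card_le_card (union_subset (monotone_filter_right _ fun _ _ e => e.1) (monotone_filter_right _ fun _ _ e => e.1))
      rw [mu (sy r1), mu r2] at c1
      rw [cqP_in ho γ1 hy] at c2
      obtain ⟨c, hc⟩ := card_pos.1 (show 0 < ((Δ.filter fun c => cqP H γ d c y ∧ cqP H γ d c x) ∩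
        (Δ.filter fun c => cqP H γ d c y ∧ cqP H γ d c z)).card by omega)
      simp only [mem_inter, mem_filter] at hc
      exact T c hc.1.1 x hx z hz hc.1.2.2 hc.2.2.2 xz]
  · rw [e2, card_insert_of_notMem n1]; omega
  · rw [e2, Fx, filter_insert, if_pos γ2, card_insert_of_notMem n1,
      card_insert_of_notMem fun e => n1 (mem_filter.1 e).1, p1]
    rfl

end Cfsg.Agent.Pron
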