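import Cfsg.Agent.Pron.Four

set_option autoImplicit false
set_option linter.unusedSectionVars false

namespace Cfsg.Agent.Pron

open Finset MulAction

open scoped Classical

variable {G : Type} [Group G] [Finite G] {Ω : Type} [MulAction G Ω]

/-- the permutation of `Δ` induced by an element of `H` -/
def res {H : Subgroup G} {Δ : Finset Ω} (hi : Inv H Δ) : H →* Equiv.Perm {a // a ∈ Δ} where
  toFun h :=
    { toFun := fun a => ⟨(h : G) • a.1, hi _ h.2 _ a.2⟩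
      invFun := fun a => ⟨(h : G)⁻¹ • a.1, hi _ (H.inv_mem h.2) _ a.2⟩
      left_inv := fun a => Subtype.ext (inv_smul_smul _ _)
      right_inv := fun a => Subtype.ext (smul_inv_smul _ _) }
  map_one' := by ext a; simp
  map_mul' x y := by ext a; simp [mul_smul]

theorem Pro.map_res {H K : Subgroup G} (hp : Pro H K) {L : Type} [Group L] (φ : H →* L)
    (hφ : Function.Surjective φ) : Pro (⊤ : Subgroup L) ((K.subgroupOf H).map φ) := by
  refine ⟨le_top, fun g _ => ?_⟩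
  obtain ⟨h, rfl⟩ := hφ g
  set K' := (K.subgroupOf H).map φ with hK'
  set M := K' ⊔ K'.map (MulAut.conj (φ h)).toMonoidHom with hM
  obtain ⟨w, hw, hwH, hn⟩ := hp.ex h.2 ((M.comap φ).map H.subtype) (by
    intro k hk
    exact ⟨⟨k, hp.le hk⟩, Subgroup.mem_sup_left ⟨⟨k, hp.le hk⟩, hk, rfl⟩, rfl⟩) (by
    intro k hk
    refine ⟨h * ⟨k, hp.le hk⟩ * h⁻¹, Subgroup.mem_sup_right
      ⟨φ ⟨k, hp.le hk⟩, ⟨⟨k, hp.le hk⟩, hk, rfl⟩, ?_⟩, rfl⟩
    simp)
  obtain ⟨w', hw', rfl⟩ := hw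
  refine ⟨φ w', hw', ?_⟩
  rw [Subgroup.mem_normalizer_iff] at hn
  ext z
  constructor
  · rintro ⟨_, ⟨k, hk, rfl⟩, rfl⟩
    refine ⟨φ ((w'⁻¹ * h)⁻¹ * k * (w'⁻¹ * h)), ⟨_, ?_, rfl⟩, ?_⟩
    · refine (hn _).2 ?_
      have hk' : (k : G) ∈ K := hk
      simpa [mul_assoc] using hk'
    · simp [mul_assoc]
  · rintro ⟨_, ⟨k, hk, rfl⟩, rfl⟩
    refine ⟨φ ((w'⁻¹ * h) * k * (w'⁻¹ * h)⁻¹), ⟨_, ?_, rfl⟩, ?_⟩
    · exact (hn _).1 hk
    · simp [mul_assoc]

section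

variable {H K : Subgroup G} {Δ : Finset Ω} (hi : Inv H Δ)

theorem res_smul (h : H) (a : {a // a ∈ Δ}) :
    (((res hi).rangeRestrict h • a : {a // a ∈ Δ}) : Ω) = (h : G) • a.1 := rfl

theorem isFx_res (hK : K ≤ H) (a : {a // a ∈ Δ}) :
    IsFx ((K.subgroupOf H).map (res hi).rangeRestrict) a ↔ IsFx K a.1 := by
  constructor
  · intro h k hk
    exact congrArg Subtype.val (h _ ⟨⟨k, hK hk⟩, hk, rfl⟩)
  · rintro h _ ⟨k, hk, rfl⟩
    exact Subtype.ext (h k hk)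

theorem card_sub (P : Ω → Prop) (Q : {a // a ∈ Δ} → Prop) (h : ∀ a, Q a ↔ P a.1) :
    (univ.filter Q).card = (Δ.filter P).card := by
  refine card_bij (fun a _ => a.1) ?_ ?_ ?_
  · intro a ha
    exact mem_filter.2 ⟨a.2, (h a).1 (mem_filter.1 ha).2⟩
  · intro a _ b _ e
    exact Subtype.ext e
  · intro b hb
    exact ⟨⟨b, (mem_filter.1 hb).1⟩, mem_filter.2 ⟨mem_univ _, (h _).2 (mem_filter.1 hb).2⟩, rfl⟩

theorem card_Sp_res (hK : K ≤ H) :
    (Sp ((K.subgroupOf H).map (res hi).rangeRestrict) (univ : Finset {a // a ∈ Δ})).card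
      = (Sp K Δ).card := by
  unfold Sp
  convert card_sub (Δ := Δ) (fun a => ¬ IsFx K a)
    (fun a => ¬ IsFx ((K.subgroupOf H).map (res hi).rangeRestrict) a)
    (fun a => not_congr (isFx_res hi hK a))

end

theorem final_min {H K : Subgroup G} {Δ : Finset Ω} (hp : Pro H K) (hi : Inv H Δ) (h3 : Tr3 H Δ)
    (hne : (Sp K Δ).Nonempty) (hs : (Sp K Δ).card = (Fx K Δ).card)
    (hm : ∀ g ∈ H, (∃ a ∈ Δ, g • a ≠ a) → Δ.card ≤ 2 * (Δ.filter (fun a => g • a ≠ a)).card) :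
    False := by
  have hc := card_Fx_add_Sp K Δ
  have e := card_Sp_res hi hp.le
  have hsurj := (res hi).rangeRestrict_surjective
  refine j0 (G := (res hi).range) (Ω := {a // a ∈ Δ}) ?_ (hp.map_res _ hsurj)
    (card_pos.1 (by rw [e]; exact card_pos.2 hne)) (by rw [e, Fintype.card_coe]; omega) ?_
  · intro a _ b _ c _ a' _ b' _ c' _ n1 n2 n3 n4 n5 n6
    obtain ⟨x, hx, e1, e2, e3⟩ := h3 a a.2 b b.2 c c.2 a' a'.2 b' b'.2 c' c'.2
      (Subtype.coe_ne_coe.2 n1) (Subtype.coe_ne_coe.2 n2) (Subtype.coe_ne_coe.2 n3)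
      (Subtype.coe_ne_coe.2 n4) (Subtype.coe_ne_coe.2 n5) (Subtype.coe_ne_coe.2 n6)
    exact ⟨(res hi).rangeRestrict ⟨x, hx⟩, Subgroup.mem_top _, Subtype.ext e1, Subtype.ext e2,
      Subtype.ext e3⟩
  · intro g hg
    obtain ⟨x, rfl⟩ := hsurj g
    have h1 := hm x x.2 (by
      by_contra hc
      push Not at hc
      apply hg
      ext a
      exact hc a a.2)
    have h2 : (mv {a // a ∈ Δ} ((res hi).rangeRestrict x)).card
        = (Δ.filter (fun a => (x : G) • a ≠ a)).card := by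
      unfold mv
      convert card_sub (Δ := Δ) (fun a => (x : G) • a ≠ a)
        (fun a => (res hi).rangeRestrict x • a ≠ a) (fun a => not_congr Subtype.ext_iff)
    rw [e, h2]
    omega

theorem final4 {H K : Subgroup G} {Δ : Finset Ω} (hp : Pro H K) (hi : Inv H Δ) (h4 : Tr4 H Δ)
    (hne : (Sp K Δ).Nonempty) (hs : (Sp K Δ).card = (Fx K Δ).card) : False := by
  have hc := card_Fx_add_Sp K Δ
  have e := card_Sp_res hi hp.le
  have hsurj := (res hi).rangeRestrict_surjective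
  refine four (G := (res hi).range) (Ω := {a // a ∈ Δ}) ?_ (hp.map_res _ hsurj)
    (card_pos.1 (by rw [e]; exact card_pos.2 hne)) (by rw [e, Fintype.card_coe]; omega)
  intro a _ b _ c _ d _ a' _ b' _ c' _ d' _ n1 n2 n3 n4 n5 n6 k1 k2 k3 k4 k5 k6
  obtain ⟨x, hx, e1, e2, e3, e4⟩ := h4 a a.2 b b.2 c c.2 d d.2 a' a'.2 b' b'.2 c' c'.2 d' d'.2
    (Subtype.coe_ne_coe.2 n1) (Subtype.coe_ne_coe.2 n2) (Subtype.coe_ne_coe.2 n3)
    (Subtype.coe_ne_coe.2 n4) (Subtype.coe_ne_coe.2 n5) (Subtype.coe_ne_coe.2 n6)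
    (Subtype.coe_ne_coe.2 k1) (Subtype.coe_ne_coe.2 k2) (Subtype.coe_ne_coe.2 k3)
    (Subtype.coe_ne_coe.2 k4) (Subtype.coe_ne_coe.2 k5) (Subtype.coe_ne_coe.2 k6)
  exact ⟨(res hi).rangeRestrict ⟨x, hx⟩, Subgroup.mem_top _, Subtype.ext e1, Subtype.ext e2,
    Subtype.ext e3, Subtype.ext e4⟩

end Cfsg.Agent.Pron
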