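import Cfsg.Agent.Pron.Defs

set_option autoImplicit false
set_option linter.unusedSectionVars false

namespace Cfsg.Agent.Pron

open Finset MulAction

open scoped Classical

variable {G : Type} [Group G] [Fintype G] {Ω : Type} [MulAction G Ω] [Fintype Ω]

theorem card_transporter {T : Type} [MulAction G T] {Z : Finset T} (ho : Orb (⊤ : Subgroup G) Z)
    {x y : T} (hx : x ∈ Z) (hy : y ∈ Z) :
    (univ.filter (fun g : G => g • x = y)).card * Z.card = Fintype.card G := by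
  have h1 : ∀ z ∈ Z, (univ.filter (fun g : G => g • x = z)).card
      = (univ.filter (fun g : G => g • x = y)).card := by
    intro z hz
    obtain ⟨h, _, e⟩ := ho.tr z hz y hy
    refine card_bij (fun g _ => h * g) ?_ ?_ ?_
    · intro g hg
      simp only [mem_filter, mem_univ, true_and] at hg ⊢
      rw [mul_smul, hg, e]
    · intro g _ g' _ e
      exact mul_left_cancel e
    · intro g hg
      simp only [mem_filter, mem_univ, true_and] at hg
      refine ⟨h⁻¹ * g, ?_, by group⟩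
      simp only [mem_filter, mem_univ, true_and]
      rw [mul_smul, hg, inv_smul_eq_iff, e]
  have h2 := card_eq_sum_card_fiberwise (s := (univ : Finset G)) (t := Z) (f := fun g : G => g • x)
    (fun g _ => ho.inv g (Subgroup.mem_top g) x hx)
  rw [card_univ] at h2
  rw [h2, sum_congr rfl h1, sum_const, smul_eq_mul, mul_comm]

theorem sum_pairs {T : Type} [MulAction G T] {Z X Y : Finset T} (ho : Orb (⊤ : Subgroup G) Z)
    (hX : X ⊆ Z) (hY : Y ⊆ Z) :
    (∑ g : G, (X.filter (fun x => g • x ∈ Y)).card) * Z.card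
      = Fintype.card G * X.card * Y.card := by
  have h1 : ∀ g : G, (X.filter (fun x => g • x ∈ Y)).card
      = ∑ x ∈ X, ∑ y ∈ Y, if g • x = y then 1 else 0 := by
    intro g
    rw [card_filter]
    refine sum_congr rfl (fun x _ => ?_)
    rw [sum_ite_eq]
  simp_rw [h1]
  rw [sum_comm, sum_mul]
  have h2 : ∀ x ∈ X, (∑ g : G, ∑ y ∈ Y, if g • x = y then 1 else 0) * Z.card
      = Fintype.card G * Y.card := by
    intro x hx
    rw [sum_comm, sum_mul]
    rw [sum_congr rfl (g := fun _ => Fintype.card G)]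
    · rw [sum_const, smul_eq_mul, mul_comm]
    · intro y hy
      rw [← card_filter]
      exact card_transporter ho (hX hx) (hY hy)
  rw [sum_congr rfl h2, sum_const, smul_eq_mul]
  ring

theorem sum_pairsZ {T : Type} [MulAction G T] {Z X Y : Finset T} (ho : Orb (⊤ : Subgroup G) Z)
    (hX : X ⊆ Z) (hY : Y ⊆ Z) :
    (∑ g : G, ((X.filter (fun x => g • x ∈ Y)).card : ℤ)) * (Z.card : ℤ)
      = Fintype.card G * ((X.card : ℤ) * Y.card) := by
  have := congrArg (Nat.cast : ℕ → ℤ) (sum_pairs ho hX hY)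
  push_cast at this
  rw [this]; ring

theorem exists_not_mem3 (h : 4 ≤ Fintype.card Ω) (a b c : Ω) : ∃ d, a ≠ d ∧ b ≠ d ∧ c ≠ d := by
  have h1 : ({a, b, c} : Finset Ω).card < (univ : Finset Ω).card := by
    have := card_le_three (a := a) (b := b) (c := c)
    rw [card_univ]; omega
  obtain ⟨d, _, hd⟩ := exists_mem_notMem_of_card_lt_card h1
  simp only [mem_insert, mem_singleton, not_or] at hd
  exact ⟨d, Ne.symm hd.1, Ne.symm hd.2.1, Ne.symm hd.2.2⟩

theorem exists_not_mem2 (h : 3 ≤ Fintype.card Ω) (a b : Ω) : ∃ d, a ≠ d ∧ b ≠ d := by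
  have h1 : ({a, b} : Finset Ω).card < (univ : Finset Ω).card := by
    have := card_le_two (a := a) (b := b)
    rw [card_univ]; omega
  obtain ⟨d, _, hd⟩ := exists_mem_notMem_of_card_lt_card h1
  simp only [mem_insert, mem_singleton, not_or] at hd
  exact ⟨d, Ne.symm hd.1, Ne.symm hd.2⟩

theorem tr3_of_tr4 (h4 : Tr4 (⊤ : Subgroup G) (univ : Finset Ω)) (h : 4 ≤ Fintype.card Ω) :
    Tr3 (⊤ : Subgroup G) (univ : Finset Ω) := by
  intro a ha b hb c hc a' ha' b' hb' c' hc' n1 n2 n3 n4 n5 n6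
  obtain ⟨d, d1, d2, d3⟩ := exists_not_mem3 h a b c
  obtain ⟨d', e1, e2, e3⟩ := exists_not_mem3 h a' b' c'
  obtain ⟨x, hx, f1, f2, f3, _⟩ := h4 a ha b hb c hc d (mem_univ _) a' ha' b' hb' c' hc' d' (mem_univ _)
    n1 n2 d1 n3 d2 d3 n4 n5 e1 n6 e2 e3
  exact ⟨x, hx, f1, f2, f3⟩

theorem tr2_of_tr3 (h3 : Tr3 (⊤ : Subgroup G) (univ : Finset Ω)) (h : 3 ≤ Fintype.card Ω) :
    Tr2 (⊤ : Subgroup G) (univ : Finset Ω) := by
  intro a ha b hb a' ha' b' hb' n1 n2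
  obtain ⟨d, d1, d2⟩ := exists_not_mem2 h a b
  obtain ⟨d', e1, e2⟩ := exists_not_mem2 h a' b'
  obtain ⟨x, hx, f1, f2, _⟩ := h3 a ha b hb d (mem_univ _) a' ha' b' hb' d' (mem_univ _)
    n1 d1 d2 n2 e1 e2
  exact ⟨x, hx, f1, f2⟩

theorem orb_of_tr2 (h2 : Tr2 (⊤ : Subgroup G) (univ : Finset Ω)) :
    Orb (⊤ : Subgroup G) (univ : Finset Ω) := by
  refine ⟨fun _ _ _ _ => mem_univ _, fun a ha b hb => ?_⟩
  by_cases e : a = b
  · exact ⟨1, Subgroup.mem_top _, by rw [one_smul, e]⟩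
  · obtain ⟨x, hx, f1, _⟩ := h2 a ha b hb b hb a ha e (Ne.symm e)
    exact ⟨x, hx, f1⟩

theorem cX_inv (A : Finset Ω) (g : G) : cX A g⁻¹ = cX A g := by
  unfold cX
  refine card_bij (fun a _ => g⁻¹ • a) ?_ ?_ ?_
  · intro a ha
    simp only [mem_filter] at ha ⊢
    exact ⟨ha.2, by rw [smul_inv_smul]; exact ha.1⟩
  · intro a _ b _ e
    exact (smul_left_cancel_iff _).1 e
  · intro b hb
    simp only [mem_filter] at hb
    exact ⟨g • b, mem_filter.2 ⟨hb.2, by rw [inv_smul_smul]; exact hb.1⟩, inv_smul_smul _ _⟩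

theorem cW_le_cX (A : Finset Ω) (u g : G) : cW A u g ≤ cX A g :=
  card_le_card (fun a ha => mem_filter.2 ⟨(mem_filter.1 ha).1, (mem_filter.1 ha).2.1⟩)

theorem cW_add_cX_le (A : Finset Ω) {u : G} (hu : ∀ a ∈ A, u • a ∈ A) (g : G) :
    cW A u g + cX A g ≤ A.card := by
  have h1 : cW A u g ≤ (A.filter (fun a => ¬ g • a ∈ A)).card := by
    unfold cW
    refine card_le_card_of_injOn (fun a => u • a) ?_ ?_
    · intro a ha
      have ha' := mem_filter.1 (mem_coe.1 ha)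
      exact mem_coe.2 (mem_filter.2 ⟨hu a ha'.1, ha'.2.2⟩)
    · intro a _ b _ e
      exact (smul_left_cancel_iff _).1 e
  have h2 := card_filter_add_card_filter_not (s := A) (fun a => g • a ∈ A)
  unfold cX
  omega

/-- ordered pairs of distinct points -/
noncomputable def D2 (A : Finset Ω) : Finset (Ω × Ω) := (A ×ˢ A).filter (fun p => p.1 ≠ p.2)

/-- ordered triples of distinct points -/
noncomputable def D3 (A : Finset Ω) : Finset (Ω × Ω × Ω) :=
  (A ×ˢ A ×ˢ A).filter (fun p => p.1 ≠ p.2.1 ∧ p.1 ≠ p.2.2 ∧ p.2.1 ≠ p.2.2)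

/-- ordered quadruples of distinct points -/
noncomputable def D4 (A : Finset Ω) : Finset (Ω × Ω × Ω × Ω) :=
  (A ×ˢ A ×ˢ A ×ˢ A).filter (fun p => p.1 ≠ p.2.1 ∧ p.1 ≠ p.2.2.1 ∧ p.1 ≠ p.2.2.2 ∧
    p.2.1 ≠ p.2.2.1 ∧ p.2.1 ≠ p.2.2.2 ∧ p.2.2.1 ≠ p.2.2.2)

theorem mem_D2 {A : Finset Ω} {p : Ω × Ω} : p ∈ D2 A ↔ p.1 ∈ A ∧ p.2 ∈ A ∧ p.1 ≠ p.2 := by
  simp [D2, and_assoc]

theorem mem_D3 {A : Finset Ω} {p : Ω × Ω × Ω} : p ∈ D3 A ↔ p.1 ∈ A ∧ p.2.1 ∈ A ∧ p.2.2 ∈ A ∧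
    p.1 ≠ p.2.1 ∧ p.1 ≠ p.2.2 ∧ p.2.1 ≠ p.2.2 := by
  simp [D3, and_assoc]

theorem mem_D4 {A : Finset Ω} {p : Ω × Ω × Ω × Ω} : p ∈ D4 A ↔ p.1 ∈ A ∧ p.2.1 ∈ A ∧
    p.2.2.1 ∈ A ∧ p.2.2.2 ∈ A ∧ p.1 ≠ p.2.1 ∧ p.1 ≠ p.2.2.1 ∧ p.1 ≠ p.2.2.2 ∧
    p.2.1 ≠ p.2.2.1 ∧ p.2.1 ≠ p.2.2.2 ∧ p.2.2.1 ≠ p.2.2.2 := by
  simp [D4, and_assoc]

/-- fibrewise counting along the first coordinate -/
theorem card_fib {α β : Type} (X : Finset (α × β)) (A : Finset α) (c : ℤ)
    (Y : α → Finset β) (h : ∀ a b, (a, b) ∈ X ↔ a ∈ A ∧ b ∈ Y a)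
    (hc : ∀ a ∈ A, ((Y a).card : ℤ) = c) : (X.card : ℤ) = A.card * c := by
  have : X = A.biUnion (fun a => (Y a).map ⟨fun b => (a, b), fun _ _ e => (Prod.ext_iff.1 e).2⟩) := by
    ext ⟨a, b⟩
    rw [h, mem_biUnion]
    constructor
    · rintro ⟨h1, h2⟩
      exact ⟨a, h1, mem_map.2 ⟨b, h2, rfl⟩⟩
    · rintro ⟨a', h1, h2⟩
      obtain ⟨b', h3, e⟩ := mem_map.1 h2
      obtain ⟨rfl, rfl⟩ := Prod.ext_iff.1 e
      exact ⟨h1, h3⟩
  rw [this, card_biUnion]
  · push_cast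
    rw [sum_congr rfl (g := fun _ => c), sum_const, nsmul_eq_mul]
    intro a ha
    rw [card_map, hc a ha]
  · intro a _ a' _ hne
    rw [Function.onFun, disjoint_left]
    intro p h1 h2
    obtain ⟨b, _, rfl⟩ := mem_map.1 h1
    obtain ⟨b', _, e⟩ := mem_map.1 h2
    exact hne (Prod.ext_iff.1 e).1.symm

theorem card_eraseZ {α : Type} {A : Finset α} {a : α} (ha : a ∈ A) :
    ((A.erase a).card : ℤ) = A.card - 1 := by
  have := card_erase_add_one ha
  omega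

theorem card_D2 (A : Finset Ω) : ((D2 A).card : ℤ) = A.card * (A.card - 1) :=
  card_fib _ A _ (fun a => A.erase a) (fun a b => by simp only [mem_D2, mem_erase]; tauto)
    (fun _ ha => card_eraseZ ha)

theorem card_D3 (A : Finset Ω) : ((D3 A).card : ℤ) = A.card * (A.card - 1) * (A.card - 2) := by
  rw [mul_assoc]
  refine card_fib _ A _ (fun a => D2 (A.erase a)) (fun a b => by
    simp only [mem_D3, mem_D2, mem_erase]; tauto) (fun a ha => ?_)
  rw [card_D2, card_eraseZ ha]; ring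

theorem card_D4 (A : Finset Ω) :
    ((D4 A).card : ℤ) = A.card * (A.card - 1) * (A.card - 2) * (A.card - 3) := by
  rw [mul_assoc, mul_assoc]
  refine card_fib _ A _ (fun a => D3 (A.erase a)) (fun a b => by
    simp only [mem_D4, mem_D3, mem_erase]; tauto) (fun a ha => ?_)
  rw [card_D3, card_eraseZ ha]; ring

theorem orb_D2 (h : Tr2 (⊤ : Subgroup G) (univ : Finset Ω)) :
    Orb (⊤ : Subgroup G) (D2 (univ : Finset Ω)) := by
  refine ⟨fun g _ p hp => ?_, fun p hp q hq => ?_⟩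
  · simp only [mem_D2, mem_univ, true_and, Prod.smul_fst, Prod.smul_snd, ne_eq,
      smul_left_cancel_iff] at hp ⊢
    exact hp
  · simp only [mem_D2, mem_univ, true_and] at hp hq
    obtain ⟨x, hx, f1, f2⟩ := h _ (mem_univ _) _ (mem_univ _) _ (mem_univ _) _ (mem_univ _) hp hq
    exact ⟨x, hx, Prod.ext f1 f2⟩

theorem orb_D3 (h : Tr3 (⊤ : Subgroup G) (univ : Finset Ω)) :
    Orb (⊤ : Subgroup G) (D3 (univ : Finset Ω)) := by
  refine ⟨fun g _ p hp => ?_, fun p hp q hq => ?_⟩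
  · simp only [mem_D3, mem_univ, true_and, Prod.smul_fst, Prod.smul_snd, ne_eq,
      smul_left_cancel_iff] at hp ⊢
    exact hp
  · simp only [mem_D3, mem_univ, true_and] at hp hq
    obtain ⟨x, hx, f1, f2, f3⟩ := h _ (mem_univ _) _ (mem_univ _) _ (mem_univ _) _ (mem_univ _)
      _ (mem_univ _) _ (mem_univ _) hp.1 hp.2.1 hp.2.2 hq.1 hq.2.1 hq.2.2
    exact ⟨x, hx, Prod.ext f1 (Prod.ext f2 f3)⟩

theorem orb_D4 (h : Tr4 (⊤ : Subgroup G) (univ : Finset Ω)) :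
    Orb (⊤ : Subgroup G) (D4 (univ : Finset Ω)) := by
  refine ⟨fun g _ p hp => ?_, fun p hp q hq => ?_⟩
  · simp only [mem_D4, mem_univ, true_and, Prod.smul_fst, Prod.smul_snd, ne_eq,
      smul_left_cancel_iff] at hp ⊢
    exact hp
  · simp only [mem_D4, mem_univ, true_and] at hp hq
    obtain ⟨p1, p2, p3, p4, p5, p6⟩ := hp
    obtain ⟨q1, q2, q3, q4, q5, q6⟩ := hq
    obtain ⟨x, hx, f1, f2, f3, f4⟩ := h _ (mem_univ _) _ (mem_univ _) _ (mem_univ _) _ (mem_univ _)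
      _ (mem_univ _) _ (mem_univ _) _ (mem_univ _) _ (mem_univ _) p1 p2 p3 p4 p5 p6
      q1 q2 q3 q4 q5 q6
    exact ⟨x, hx, Prod.ext f1 (Prod.ext f2 (Prod.ext f3 f4))⟩

theorem mX1 (h : Orb (⊤ : Subgroup G) (univ : Finset Ω)) (A : Finset Ω) :
    (∑ g : G, (cX A g : ℤ)) * (Fintype.card Ω : ℤ) = Fintype.card G * (A.card : ℤ) ^ 2 := by
  have := sum_pairsZ h (subset_univ A) (subset_univ A)
  rw [card_univ] at this
  rw [sq]
  exact this

theorem mX2 (h : Tr2 (⊤ : Subgroup G) (univ : Finset Ω)) (A : Finset Ω) :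
    (∑ g : G, (cX A g : ℤ) * (cX A g - 1)) * ((Fintype.card Ω : ℤ) * (Fintype.card Ω - 1))
      = Fintype.card G * ((A.card : ℤ) * (A.card - 1)) ^ 2 := by
  have hs : D2 A ⊆ D2 univ := fun p hp => by
    simp only [mem_D2, mem_univ, true_and] at hp ⊢; tauto
  have := sum_pairsZ (orb_D2 h) hs hs
  rw [card_D2, card_D2, card_univ] at this
  rw [sq, ← this]
  congr 1
  refine sum_congr rfl (fun g _ => ?_)
  unfold cX
  rw [← card_D2]
  congr 2
  ext p
  simp only [mem_D2, mem_filter, Prod.smul_fst, Prod.smul_snd, ne_eq, smul_left_cancel_iff]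
  tauto

theorem mX3 (h : Tr3 (⊤ : Subgroup G) (univ : Finset Ω)) (A : Finset Ω) :
    (∑ g : G, (cX A g : ℤ) * (cX A g - 1) * (cX A g - 2))
      * ((Fintype.card Ω : ℤ) * (Fintype.card Ω - 1) * (Fintype.card Ω - 2))
      = Fintype.card G * ((A.card : ℤ) * (A.card - 1) * (A.card - 2)) ^ 2 := by
  have hs : D3 A ⊆ D3 univ := fun p hp => by
    simp only [mem_D3, mem_univ, true_and] at hp ⊢; tauto
  have := sum_pairsZ (orb_D3 h) hs hs
  rw [card_D3, card_D3, card_univ] at this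
  rw [sq, ← this]
  congr 1
  refine sum_congr rfl (fun g _ => ?_)
  unfold cX
  rw [← card_D3]
  congr 2
  ext p
  simp only [mem_D3, mem_filter, Prod.smul_fst, Prod.smul_snd, ne_eq, smul_left_cancel_iff]
  tauto

theorem mX4 (h : Tr4 (⊤ : Subgroup G) (univ : Finset Ω)) (A : Finset Ω) :
    (∑ g : G, (cX A g : ℤ) * (cX A g - 1) * (cX A g - 2) * (cX A g - 3))
      * ((Fintype.card Ω : ℤ) * (Fintype.card Ω - 1) * (Fintype.card Ω - 2) * (Fintype.card Ω - 3))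
      = Fintype.card G * ((A.card : ℤ) * (A.card - 1) * (A.card - 2) * (A.card - 3)) ^ 2 := by
  have hs : D4 A ⊆ D4 univ := fun p hp => by
    simp only [mem_D4, mem_univ, true_and] at hp ⊢; tauto
  have := sum_pairsZ (orb_D4 h) hs hs
  rw [card_D4, card_D4, card_univ] at this
  rw [sq, ← this]
  congr 1
  refine sum_congr rfl (fun g _ => ?_)
  unfold cX
  rw [← card_D4]
  congr 2
  ext p
  simp only [mem_D4, mem_filter, Prod.smul_fst, Prod.smul_snd, ne_eq, smul_left_cancel_iff]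
  tauto

end Cfsg.Agent.Pron
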