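import Cfsg.Agent.Pron.Count

set_option autoImplicit false
set_option linter.unusedSectionVars false

namespace Cfsg.Agent.Pron

open Finset MulAction

open scoped Classical

variable {G : Type} [Group G] [Fintype G] {Ω : Type} [MulAction G Ω] [Fintype Ω]

theorem card_complZ (A : Finset Ω) : ((Aᶜ).card : ℤ) = Fintype.card Ω - A.card := by
  have := card_add_card_compl A
  omega

theorem card_one_fib {β : Type} (b : Ω) (Y : Finset β) :
    ((({b} : Finset Ω) ×ˢ Y).card : ℤ) = Y.card := by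
  rw [card_product, card_singleton, one_mul]

/-- the set counted by `cW` -/
noncomputable def sW (A : Finset Ω) (u g : G) : Finset Ω :=
  A.filter (fun a => g • a ∈ A ∧ g • u • a ∉ A)

/-- the set counted by `cX` -/
noncomputable def sX (A : Finset Ω) (g : G) : Finset Ω := A.filter (fun a => g • a ∈ A)

theorem mem_sW {A : Finset Ω} {u g : G} {a : Ω} :
    a ∈ sW A u g ↔ a ∈ A ∧ g • a ∈ A ∧ g • u • a ∉ A := mem_filter

theorem mem_sX {A : Finset Ω} {g : G} {a : Ω} : a ∈ sX A g ↔ a ∈ A ∧ g • a ∈ A := mem_filter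

theorem sW_sub {A : Finset Ω} {u g : G} {a : Ω} (h : a ∈ sW A u g) : a ∈ sX A g :=
  mem_sX.2 ⟨(mem_sW.1 h).1, (mem_sW.1 h).2.1⟩

theorem card_erase2 {A : Finset Ω} {a b : Ω} (ha : a ∈ A) (hb : b ∈ A) (h : b ≠ a) :
    (((A.erase a).erase b).card : ℤ) = A.card - 2 := by
  rw [card_eraseZ (mem_erase.2 ⟨h, hb⟩), card_eraseZ ha]; ring

theorem mW0 (h : Tr2 (⊤ : Subgroup G) (univ : Finset Ω)) {A : Finset Ω} {u : G}
    (hu : ∀ a ∈ A, u • a ∈ A ∧ u • a ≠ a) :
    (∑ g : G, (cW A u g : ℤ)) * ((Fintype.card Ω : ℤ) * (Fintype.card Ω - 1))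
      = Fintype.card G * ((A.card : ℤ) * (A.card * (Fintype.card Ω - A.card))) := by
  let X : Finset (Ω × Ω) := univ.filter (fun p => p.1 ∈ A ∧ p.2 = u • p.1)
  let Y : Finset (Ω × Ω) := univ.filter (fun p => p.1 ∈ A ∧ p.2 ∉ A)
  have hX : X ⊆ D2 univ := fun p hp => by
    simp only [X, mem_D2, mem_univ, true_and, mem_filter] at hp ⊢
    rw [hp.2]; exact (hu _ hp.1).2.symm
  have hY : Y ⊆ D2 univ := fun p hp => by
    simp only [Y, mem_D2, mem_univ, true_and, mem_filter] at hp ⊢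
    exact fun e => hp.2 (e ▸ hp.1)
  have cX' : (X.card : ℤ) = A.card * 1 :=
    card_fib X A 1 (fun a => {u • a}) (fun a b => by simp [X]) (fun a _ => by simp)
  have cY : (Y.card : ℤ) = A.card * (Fintype.card Ω - A.card) :=
    card_fib Y A _ (fun _ => Aᶜ) (fun a b => by simp [Y]) (fun a _ => card_complZ A)
  have := sum_pairsZ (orb_D2 h) hX hY
  rw [card_D2, cX', cY, card_univ, mul_one] at this
  rw [← this]
  congr 1
  refine sum_congr rfl (fun g _ => ?_)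
  rw [card_fib _ (sW A u g) 1 (fun a => {u • a}) (fun a b => ?_) (fun a _ => by simp), mul_one]
  · rfl
  · simp only [X, Y, mem_filter, mem_univ, true_and, Prod.smul_fst, Prod.smul_snd, mem_sW,
      mem_singleton]
    constructor
    · rintro ⟨⟨h1, rfl⟩, h2, h3⟩
      exact ⟨⟨h1, h2, h3⟩, rfl⟩
    · rintro ⟨⟨h1, h2, h3⟩, rfl⟩
      exact ⟨⟨h1, rfl⟩, h2, h3⟩

theorem mW1 (h : Tr3 (⊤ : Subgroup G) (univ : Finset Ω)) {A : Finset Ω} {u : G}
    (hu : ∀ a ∈ A, u • a ∈ A ∧ u • a ≠ a) :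
    (∑ g : G, (cW A u g : ℤ) * (cX A g - 1))
      * ((Fintype.card Ω : ℤ) * (Fintype.card Ω - 1) * (Fintype.card Ω - 2))
      = Fintype.card G * ((A.card : ℤ) * (A.card - 2)
          * (A.card * (A.card - 1) * (Fintype.card Ω - A.card))) := by
  let X : Finset (Ω × Ω × Ω) := univ.filter (fun p => p.1 ∈ A ∧ p.2.1 = u • p.1 ∧
    p.2.2 ∈ (A.erase p.1).erase (u • p.1))
  let Y : Finset (Ω × Ω × Ω) := univ.filter (fun p => p.1 ∈ A ∧ p.2.1 ∉ A ∧ p.2.2 ∈ A.erase p.1)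
  have hX : X ⊆ D3 univ := fun p hp => by
    simp only [X, mem_D3, mem_univ, true_and, mem_filter, mem_erase] at hp ⊢
    rw [hp.2.1]; exact ⟨(hu _ hp.1).2.symm, hp.2.2.2.1.symm, hp.2.2.1.symm⟩
  have hY : Y ⊆ D3 univ := fun p hp => by
    simp only [Y, mem_D3, mem_univ, true_and, mem_filter, mem_erase] at hp ⊢
    exact ⟨fun e => hp.2.1 (e ▸ hp.1), hp.2.2.1.symm, fun e => hp.2.1 (e ▸ hp.2.2.2)⟩
  have cX' : (X.card : ℤ) = A.card * (A.card - 2) :=
    card_fib X A _ (fun a => {u • a} ×ˢ (A.erase a).erase (u • a)) (fun a b => by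
      simp only [X, mem_filter, mem_univ, true_and, mem_product, mem_singleton])
      (fun a ha => by rw [card_one_fib, card_erase2 ha (hu a ha).1 (hu a ha).2])
  have cY : (Y.card : ℤ) = A.card * ((Fintype.card Ω - A.card) * (A.card - 1)) :=
    card_fib Y A _ (fun a => Aᶜ ×ˢ A.erase a) (fun a b => by
      simp only [Y, mem_filter, mem_univ, true_and, mem_product, mem_compl])
      (fun a ha => by rw [card_product]; push_cast; rw [card_complZ, card_eraseZ ha])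
  have := sum_pairsZ (orb_D3 h) hX hY
  rw [card_D3, cX', cY, card_univ] at this
  rw [show (A.card : ℤ) * (A.card - 1) * (Fintype.card Ω - A.card)
    = A.card * ((Fintype.card Ω - A.card) * (A.card - 1)) by ring, ← this]
  congr 1
  refine sum_congr rfl (fun g _ => ?_)
  rw [card_fib _ (sW A u g) ((cX A g : ℤ) - 1) (fun a => {u • a} ×ˢ (sX A g).erase a)
    (fun a b => ?_) (fun a ha => by rw [card_one_fib, card_eraseZ (sW_sub ha)]; rfl)]
  · rfl
  · obtain ⟨b, c⟩ := b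
    simp only [X, Y, mem_filter, mem_univ, true_and, Prod.smul_fst, Prod.smul_snd, mem_sW,
      mem_singleton, mem_product, mem_erase, mem_sX, ne_eq, smul_left_cancel_iff]
    constructor
    · rintro ⟨⟨h1, rfl, _, h4, h5⟩, h2, h3, _, h6⟩
      exact ⟨⟨h1, h2, h3⟩, rfl, h4, h5, h6⟩
    · rintro ⟨⟨h1, h2, h3⟩, rfl, h4, h5, h6⟩
      exact ⟨⟨h1, rfl, fun e => h3 (e ▸ h6), h4, h5⟩, h2, h3, h4, h6⟩

theorem mW2 (h : Tr4 (⊤ : Subgroup G) (univ : Finset Ω)) {A : Finset Ω} {u : G}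
    (hu : ∀ a ∈ A, u • a ∈ A ∧ u • a ≠ a) :
    (∑ g : G, (cW A u g : ℤ) * (cX A g - 1) * (cX A g - 2))
      * ((Fintype.card Ω : ℤ) * (Fintype.card Ω - 1) * (Fintype.card Ω - 2) * (Fintype.card Ω - 3))
      = Fintype.card G * ((A.card : ℤ) * (A.card - 2) * (A.card - 3)
          * (A.card * (A.card - 1) * (A.card - 2) * (Fintype.card Ω - A.card))) := by
  let X : Finset (Ω × Ω × Ω × Ω) := univ.filter (fun p => p.1 ∈ A ∧ p.2.1 = u • p.1 ∧
    p.2.2 ∈ D2 ((A.erase p.1).erase (u • p.1)))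
  let Y : Finset (Ω × Ω × Ω × Ω) :=
    univ.filter (fun p => p.1 ∈ A ∧ p.2.1 ∉ A ∧ p.2.2 ∈ D2 (A.erase p.1))
  have hX : X ⊆ D4 univ := fun p hp => by
    simp only [X, mem_D4, mem_D2, mem_univ, true_and, mem_filter, mem_erase] at hp ⊢
    obtain ⟨h1, h2, ⟨h3, h4, _⟩, ⟨h5, h6, _⟩, h7⟩ := hp
    rw [h2]; exact ⟨(hu _ h1).2.symm, h4.symm, h6.symm, h3.symm, h5.symm, h7⟩
  have hY : Y ⊆ D4 univ := fun p hp => by
    simp only [Y, mem_D4, mem_D2, mem_univ, true_and, mem_filter, mem_erase] at hp ⊢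
    obtain ⟨h1, h2, ⟨h3, h4⟩, ⟨h5, h6⟩, h7⟩ := hp
    exact ⟨fun e => h2 (e ▸ h1), h3.symm, h5.symm, fun e => h2 (e ▸ h4), fun e => h2 (e ▸ h6), h7⟩
  have cX' : (X.card : ℤ) = A.card * ((A.card - 2) * (A.card - 3)) :=
    card_fib X A _ (fun a => {u • a} ×ˢ D2 ((A.erase a).erase (u • a))) (fun a b => by
      simp only [X, mem_filter, mem_univ, true_and, mem_product, mem_singleton])
      (fun a ha => by
        rw [card_one_fib, card_D2, card_erase2 ha (hu a ha).1 (hu a ha).2]; ring)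
  have cY : (Y.card : ℤ) = A.card * ((Fintype.card Ω - A.card) * ((A.card - 1) * (A.card - 2))) :=
    card_fib Y A _ (fun a => Aᶜ ×ˢ D2 (A.erase a)) (fun a b => by
      simp only [Y, mem_filter, mem_univ, true_and, mem_product, mem_compl])
      (fun a ha => by
        rw [card_product]; push_cast; rw [card_complZ, card_D2, card_eraseZ ha]; ring)
  have := sum_pairsZ (orb_D4 h) hX hY
  rw [card_D4, cX', cY, card_univ] at this
  rw [show (A.card : ℤ) * (A.card - 2) * (A.card - 3)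
          * (A.card * (A.card - 1) * (A.card - 2) * (Fintype.card Ω - A.card))
    = A.card * ((A.card - 2) * (A.card - 3))
      * (A.card * ((Fintype.card Ω - A.card) * ((A.card - 1) * (A.card - 2)))) by ring, ← this]
  congr 1
  refine sum_congr rfl (fun g _ => ?_)
  rw [card_fib _ (sW A u g) (((cX A g : ℤ) - 1) * (cX A g - 2))
    (fun a => {u • a} ×ˢ D2 ((sX A g).erase a))
    (fun a b => ?_) (fun a ha => by
      rw [card_one_fib, card_D2, card_eraseZ (sW_sub ha)]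
      show ((cX A g : ℤ) - 1) * (cX A g - 1 - 1) = _
      ring), mul_assoc]
  · rfl
  · obtain ⟨b, c, d⟩ := b
    simp only [X, Y, mem_filter, mem_univ, true_and, Prod.smul_fst, Prod.smul_snd, mem_sW,
      mem_singleton, mem_product, mem_erase, mem_sX, ne_eq, smul_left_cancel_iff, mem_D2]
    constructor
    · rintro ⟨⟨h1, rfl, ⟨_, h4, h5⟩, ⟨_, h7, h8⟩, h9⟩, h2, h3, ⟨_, h6⟩, ⟨_, h10⟩, _⟩
      exact ⟨⟨h1, h2, h3⟩, rfl, ⟨h4, h5, h6⟩, ⟨h7, h8, h10⟩, h9⟩
    · rintro ⟨⟨h1, h2, h3⟩, rfl, ⟨h4, h5, h6⟩, ⟨h7, h8, h10⟩, h9⟩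
      exact ⟨⟨h1, rfl, ⟨fun e => h3 (e ▸ h6), h4, h5⟩, ⟨fun e => h3 (e ▸ h10), h7, h8⟩, h9⟩,
        h2, h3, ⟨h4, h6⟩, ⟨h7, h10⟩, h9⟩

theorem mWW (h : Tr4 (⊤ : Subgroup G) (univ : Finset Ω)) {A : Finset Ω} {u : G}
    (hu : ∀ a ∈ A, u • a ∈ A ∧ u • a ≠ a) (hu2 : ∀ a ∈ A, u • u • a ≠ a) :
    (∑ g : G, (cW A u g : ℤ) * (cW A u g - 1))
      * ((Fintype.card Ω : ℤ) * (Fintype.card Ω - 1) * (Fintype.card Ω - 2) * (Fintype.card Ω - 3))
      = Fintype.card G * ((A.card : ℤ) * (A.card - 3)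
          * (A.card * (A.card - 1) * (Fintype.card Ω - A.card) * (Fintype.card Ω - A.card - 1))) := by
  have hinv : ∀ a ∈ A, u⁻¹ • a ∈ A := by
    intro a ha
    have : A.image (fun a => u • a) = A := by
      apply eq_of_subset_of_card_le
      · intro b hb
        obtain ⟨c, hc, rfl⟩ := mem_image.1 hb
        exact (hu c hc).1
      · rw [card_image_of_injective _ (MulAction.injective u)]
    rw [← this] at ha
    obtain ⟨c, hc, rfl⟩ := mem_image.1 ha
    rwa [inv_smul_smul]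
  let P : Finset Ω → Finset (Ω × Ω) := fun B => univ.filter (fun q => q.1 ∈ B ∧ q.2 = u • q.1)
  have cP : ∀ B, ((P B).card : ℤ) = B.card := fun B => by
    rw [card_fib (P B) B 1 (fun a => {u • a}) (fun a b => by simp [P]) (fun a _ => by simp), mul_one]
  let X : Finset (Ω × Ω × Ω × Ω) := univ.filter (fun p => p.1 ∈ A ∧ p.2.1 = u • p.1 ∧
    p.2.2 ∈ P (((A.erase p.1).erase (u • p.1)).erase (u⁻¹ • p.1)))
  let Y : Finset (Ω × Ω × Ω × Ω) := univ.filter (fun p => p.1 ∈ A ∧ p.2.1 ∈ Aᶜ ∧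
    p.2.2 ∈ A.erase p.1 ×ˢ (Aᶜ).erase p.2.1)
  have hX : X ⊆ D4 univ := fun p hp => by
    simp only [X, P, mem_D4, mem_univ, true_and, mem_filter, mem_erase] at hp ⊢
    obtain ⟨h1, h2, ⟨h3, h4, h5, h6⟩, h7⟩ := hp
    rw [h2, h7]
    refine ⟨(hu _ h1).2.symm, h5.symm, fun e => h3 ?_, h4.symm,
      fun e => h5 ((smul_left_cancel_iff u).1 e).symm, (hu _ h6).2.symm⟩
    rw [e, inv_smul_smul]
  have hY : Y ⊆ D4 univ := fun p hp => by
    simp only [Y, mem_D4, mem_univ, true_and, mem_filter, mem_erase, mem_product, mem_compl] at hp ⊢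
    obtain ⟨h1, h2, ⟨h3, h4⟩, h5, h6⟩ := hp
    exact ⟨fun e => h2 (e ▸ h1), h3.symm, fun e => h6 (e ▸ h1), fun e => h2 (e ▸ h4), h5.symm,
      fun e => h6 (e ▸ h4)⟩
  have cX' : (X.card : ℤ) = A.card * (A.card - 3) :=
    card_fib X A _ (fun a => {u • a} ×ˢ P (((A.erase a).erase (u • a)).erase (u⁻¹ • a)))
      (fun a b => by simp only [X, mem_filter, mem_univ, true_and, mem_product, mem_singleton])
      (fun a ha => by
        rw [card_one_fib, cP, card_eraseZ, card_erase2 ha (hu a ha).1 (hu a ha).2]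
        · ring
        · refine mem_erase.2 ⟨fun e => hu2 a ha ?_, mem_erase.2 ⟨fun e => (hu a ha).2 ?_, hinv a ha⟩⟩
          · rw [← e, smul_inv_smul]
          · rw [inv_smul_eq_iff] at e; exact e.symm)
  have cY : (Y.card : ℤ) = A.card * ((Fintype.card Ω - A.card)
      * ((A.card - 1) * (Fintype.card Ω - A.card - 1))) := by
    refine card_fib Y A _ (fun a => univ.filter (fun q : Ω × Ω × Ω => q.1 ∈ Aᶜ ∧
      q.2 ∈ A.erase a ×ˢ (Aᶜ).erase q.1)) (fun a b => by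
        simp only [Y, mem_filter, mem_univ, true_and]) (fun a ha => ?_)
    rw [← card_complZ]
    refine card_fib _ Aᶜ _ (fun z => A.erase a ×ˢ (Aᶜ).erase z) (fun z b => by
      simp only [mem_filter, mem_univ, true_and]) (fun z hz => ?_)
    rw [card_product]; push_cast
    rw [card_eraseZ ha, card_eraseZ hz]
  have := sum_pairsZ (orb_D4 h) hX hY
  rw [card_D4, cX', cY, card_univ] at this
  rw [show (A.card : ℤ) * (A.card - 1) * (Fintype.card Ω - A.card) * (Fintype.card Ω - A.card - 1)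
    = A.card * ((Fintype.card Ω - A.card) * ((A.card - 1) * (Fintype.card Ω - A.card - 1))) by ring,
    ← this]
  congr 1
  refine sum_congr rfl (fun g _ => ?_)
  rw [card_fib _ (sW A u g) ((cW A u g : ℤ) - 1)
    (fun a => {u • a} ×ˢ P ((sW A u g).erase a))
    (fun a b => ?_) (fun a ha => by rw [card_one_fib, cP, card_eraseZ ha]; rfl)]
  · rfl
  · obtain ⟨b, c, d⟩ := b
    simp only [X, Y, P, mem_filter, mem_univ, true_and, Prod.smul_fst, Prod.smul_snd, mem_sW,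
      mem_singleton, mem_product, mem_erase, ne_eq, smul_left_cancel_iff, mem_compl]
    constructor
    · rintro ⟨⟨h1, rfl, ⟨_, _, h4, h5⟩, rfl⟩, h2, h3, ⟨_, h6⟩, _, h7⟩
      exact ⟨⟨h1, h2, h3⟩, rfl, ⟨h4, h5, h6, h7⟩, rfl⟩
    · rintro ⟨⟨h1, h2, h3⟩, rfl, ⟨h4, h5, h6, h7⟩, rfl⟩
      refine ⟨⟨h1, rfl, ⟨fun e => h7 ?_, fun e => h3 (e ▸ h6), h4, h5⟩, rfl⟩, h2, h3, ⟨h4, h6⟩,
        fun e => h4 ((smul_left_cancel_iff u).1 e), h7⟩
      rw [e, smul_inv_smul]; exact h2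

theorem mWV (h3 : Tr3 (⊤ : Subgroup G) (univ : Finset Ω)) (h : Tr4 (⊤ : Subgroup G) (univ : Finset Ω))
    {A : Finset Ω} {u : G} (hu : ∀ a ∈ A, u • a ∈ A ∧ u • a ≠ a) :
    (∑ g : G, (cW A u g : ℤ) * (cW A u g⁻¹))
      * ((Fintype.card Ω : ℤ) * (Fintype.card Ω - 1) * (Fintype.card Ω - 2) * (Fintype.card Ω - 3))
      = Fintype.card G * (((A.card : ℤ) * (A.card - 2) * (Fintype.card Ω - A.card)) ^ 2
          + ((A.card : ℤ) * (Fintype.card Ω - A.card)) ^ 2 * (Fintype.card Ω - 3)) := by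
  -- the second factor, pulled back
  let V : G → Finset Ω := fun g => A.filter (fun b => g • b ∈ A ∧ g⁻¹ • u • g • b ∉ A)
  have cV : ∀ g, (V g).card = cW A u g⁻¹ := by
    intro g
    unfold cW
    refine card_bij (fun b _ => g • b) ?_ ?_ ?_
    · intro b hb
      simp only [V, mem_filter] at hb ⊢
      exact ⟨hb.2.1, by rw [inv_smul_smul]; exact hb.1, hb.2.2⟩
    · intro a _ b _ e
      exact (smul_left_cancel_iff _).1 e
    · intro b hb
      simp only [mem_filter] at hb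
      refine ⟨g⁻¹ • b, ?_, smul_inv_smul _ _⟩
      simp only [V, mem_filter, smul_inv_smul]
      exact ⟨hb.2.1, hb.1, hb.2.2⟩
  let X3 : Finset (Ω × Ω × Ω) := univ.filter (fun p => p.1 ∈ A ∧ p.2.1 = u • p.1 ∧ p.2.2 ∈ Aᶜ)
  let Y3 : Finset (Ω × Ω × Ω) := univ.filter (fun p => p.1 ∈ A ∧ p.2.1 ∈ Aᶜ ∧ p.2.2 = u • p.1)
  let X4 : Finset (Ω × Ω × Ω × Ω) := univ.filter (fun p => p.1 ∈ A ∧ p.2.1 = u • p.1 ∧
    p.2.2 ∈ (A.erase p.1).erase (u • p.1) ×ˢ Aᶜ)
  let Y4 : Finset (Ω × Ω × Ω × Ω) := univ.filter (fun p => p.2.2.1 ∈ A ∧ p.2.2.2 = u • p.2.2.1 ∧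
    p.1 ∈ (A.erase p.2.2.1).erase (u • p.2.2.1) ∧ p.2.1 ∈ Aᶜ)
  have hX3 : X3 ⊆ D3 univ := fun p hp => by
    simp only [X3, mem_D3, mem_univ, true_and, mem_filter, mem_compl] at hp ⊢
    obtain ⟨h1, h2, h3⟩ := hp
    rw [h2]
    exact ⟨(hu _ h1).2.symm, fun e => h3 (e ▸ h1), fun e => h3 (e ▸ (hu _ h1).1)⟩
  have hY3 : Y3 ⊆ D3 univ := fun p hp => by
    simp only [Y3, mem_D3, mem_univ, true_and, mem_filter, mem_compl] at hp ⊢
    obtain ⟨h1, h2, h3⟩ := hp
    rw [h3]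
    exact ⟨fun e => h2 (e ▸ h1), (hu _ h1).2.symm, fun e => h2 (e ▸ (hu _ h1).1)⟩
  have hX4 : X4 ⊆ D4 univ := fun p hp => by
    simp only [X4, mem_D4, mem_univ, true_and, mem_filter, mem_compl, mem_erase, mem_product] at hp ⊢
    obtain ⟨h1, h2, ⟨h3, h4, h5⟩, h6⟩ := hp
    rw [h2]
    exact ⟨(hu _ h1).2.symm, h4.symm, fun e => h6 (e ▸ h1), h3.symm,
      fun e => h6 (e ▸ (hu _ h1).1), fun e => h6 (e ▸ h5)⟩
  have hY4 : Y4 ⊆ D4 univ := fun p hp => by
    simp only [Y4, mem_D4, mem_univ, true_and, mem_filter, mem_compl, mem_erase] at hp ⊢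
    obtain ⟨h1, h2, ⟨h3, h4, h5⟩, h6⟩ := hp
    rw [h2]
    exact ⟨fun e => h6 (e ▸ h5), h4, h3, fun e => h6 (e ▸ h1),
      fun e => h6 (e ▸ (hu _ h1).1), (hu _ h1).2.symm⟩
  have c1 : (X3.card : ℤ) = A.card * (Fintype.card Ω - A.card) :=
    card_fib X3 A _ (fun a => {u • a} ×ˢ Aᶜ)
      (fun a b => by simp only [X3, mem_filter, mem_univ, true_and, mem_product, mem_singleton])
      (fun a _ => by rw [card_one_fib, card_complZ])
  have c2 : (Y3.card : ℤ) = A.card * (Fintype.card Ω - A.card) :=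
    card_fib Y3 A _ (fun a => Aᶜ ×ˢ {u • a})
      (fun a b => by simp only [Y3, mem_filter, mem_univ, true_and, mem_product, mem_singleton])
      (fun a _ => by rw [card_product, card_singleton, mul_one, card_complZ])
  have c3 : (X4.card : ℤ) = A.card * ((A.card - 2) * (Fintype.card Ω - A.card)) :=
    card_fib X4 A _ (fun a => {u • a} ×ˢ ((A.erase a).erase (u • a) ×ˢ Aᶜ))
      (fun a b => by simp only [X4, mem_filter, mem_univ, true_and, mem_product, mem_singleton])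
      (fun a ha => by
        rw [card_one_fib, card_product]; push_cast
        rw [card_complZ, card_erase2 ha (hu a ha).1 (hu a ha).2])
  have c4 : Y4.card = X4.card := by
    refine card_bij (fun p _ => (p.2.2.1, p.2.2.2, p.1, p.2.1)) ?_ ?_ ?_
    · intro p hp
      simp only [X4, Y4, mem_filter, mem_univ, true_and, mem_product] at hp ⊢
      exact hp
    · rintro ⟨a, b, c, d⟩ _ ⟨a', b', c', d'⟩ _ e
      simp only [Prod.mk.injEq] at e ⊢
      tauto
    · rintro ⟨a, b, c, d⟩ hp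
      refine ⟨(c, d, a, b), ?_, rfl⟩
      simp only [X4, Y4, mem_filter, mem_univ, true_and, mem_product] at hp ⊢
      exact hp
  have s3 := sum_pairsZ (orb_D3 h3) hX3 hY3
  have s4 := sum_pairsZ (orb_D4 h) hX4 hY4
  rw [card_D3, c1, c2, card_univ] at s3
  rw [card_D4, c4, c3, card_univ] at s4
  have key : ∀ g : G, (cW A u g : ℤ) * (cW A u g⁻¹)
      = ((X4.filter (fun x => g • x ∈ Y4)).card : ℤ) + (X3.filter (fun x => g • x ∈ Y3)).card := by
    intro g
    have e0 : (cW A u g : ℤ) * (cW A u g⁻¹) = ((sW A u g ×ˢ V g).card : ℤ) := by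
      rw [card_product, cV]; push_cast; rfl
    have e1 := card_filter_add_card_filter_not (s := sW A u g ×ˢ V g) (fun p => p.1 = p.2)
    have e2 : ((sW A u g ×ˢ V g).filter (fun p => p.1 = p.2)).card
        = (X3.filter (fun x => g • x ∈ Y3)).card := by
      refine card_bij (fun p _ => (p.1, u • p.1, g⁻¹ • u • g • p.1)) ?_ ?_ ?_
      · rintro ⟨a, b⟩ hp
        simp only [X3, Y3, V, mem_filter, mem_univ, true_and, mem_product, mem_sW, mem_compl,
          Prod.smul_fst, Prod.smul_snd, smul_inv_smul] at hp ⊢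
        obtain ⟨⟨⟨h1, h2, h3⟩, _, _, h4⟩, rfl⟩ := hp
        exact ⟨⟨h1, h4⟩, h2, h3, trivial⟩
      · rintro ⟨a, b⟩ hp ⟨a', b'⟩ hp' e
        simp only [mem_filter, Prod.mk.injEq] at hp hp' e ⊢
        exact ⟨e.1, by rw [← hp.2, ← hp'.2, e.1]⟩
      · rintro ⟨a, b, c⟩ hp
        simp only [X3, Y3, mem_filter, mem_univ, true_and, mem_compl,
          Prod.smul_fst, Prod.smul_snd] at hp
        obtain ⟨⟨h1, rfl, h2⟩, h3, h4, h5⟩ := hp
        have h6 : g⁻¹ • u • g • a = c := by rw [← h5, inv_smul_smul]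
        refine ⟨(a, a), ?_, by simp only [h6]⟩
        simp only [V, mem_filter, mem_product, mem_sW, h6, and_true]
        exact ⟨⟨h1, h3, h4⟩, h1, h3, h2⟩
    have e3 : ((sW A u g ×ˢ V g).filter (fun p => ¬ p.1 = p.2)).card
        = (X4.filter (fun x => g • x ∈ Y4)).card := by
      refine card_bij (fun p _ => (p.1, u • p.1, p.2, g⁻¹ • u • g • p.2)) ?_ ?_ ?_
      · rintro ⟨a, b⟩ hp
        simp only [X4, Y4, V, mem_filter, mem_univ, true_and, mem_product, mem_sW, mem_compl,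
          Prod.smul_fst, Prod.smul_snd, smul_inv_smul, mem_erase, ne_eq,
          smul_left_cancel_iff] at hp ⊢
        obtain ⟨⟨⟨h1, h2, h3⟩, h4, h5, h6⟩, h7⟩ := hp
        refine ⟨⟨h1, ⟨fun e => h3 (e ▸ h5), fun e => h7 e.symm, h4⟩, h6⟩, h5,
          ⟨fun e => h6 ?_, h7, h2⟩, h3⟩
        rw [← e, inv_smul_smul]; exact h1
      · rintro ⟨a, b⟩ _ ⟨a', b'⟩ _ e
        simp only [Prod.mk.injEq] at e ⊢
        exact ⟨e.1, e.2.2.1⟩
      · rintro ⟨a, b, c, d⟩ hp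
        simp only [X4, Y4, mem_filter, mem_univ, true_and, mem_compl, mem_product, mem_erase,
          Prod.smul_fst, Prod.smul_snd, ne_eq, smul_left_cancel_iff] at hp
        obtain ⟨⟨h1, rfl, ⟨_, h2, h3⟩, h4⟩, h5, h6, ⟨_, h7, h8⟩, h9⟩ := hp
        have h10 : g⁻¹ • u • g • c = d := by rw [← h6, inv_smul_smul]
        refine ⟨(a, c), ?_, by simp only [h10]⟩
        simp only [V, mem_filter, mem_product, mem_sW, h10]
        exact ⟨⟨⟨h1, h8, h9⟩, h3, h5, h4⟩, h7⟩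
    rw [e0, ← e1, e2, e3]; push_cast; ring
  rw [sum_congr rfl (fun g _ => key g), sum_add_distrib]
  have t3 : (∑ g : G, ((X3.filter (fun x => g • x ∈ Y3)).card : ℤ))
      * ((Fintype.card Ω : ℤ) * (Fintype.card Ω - 1) * (Fintype.card Ω - 2)) = _ :=
    Eq.trans (by congr; funext g; congr) s3
  have t4 : (∑ g : G, ((X4.filter (fun x => g • x ∈ Y4)).card : ℤ))
      * ((Fintype.card Ω : ℤ) * (Fintype.card Ω - 1) * (Fintype.card Ω - 2)
        * (Fintype.card Ω - 3)) = _ := Eq.trans (by congr; funext g; congr) s4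
  linear_combination t4 + (Fintype.card Ω - 3 : ℤ) * t3

end Cfsg.Agent.Pron
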