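import Mathlib

set_option autoImplicit false

namespace Cfsg.Agent.Pron

open Finset MulAction

open scoped Classical

section Ambient

variable {G : Type} [Group G] {Ω : Type} [MulAction G Ω]

/-- `K` is pronormal in `H`. -/
def Pro (H K : Subgroup G) : Prop :=
  K ≤ H ∧ ∀ g ∈ H, ∃ w ∈ K ⊔ K.map (MulAut.conj g).toMonoidHom,
    K.map (MulAut.conj w).toMonoidHom = K.map (MulAut.conj g).toMonoidHom

/-- `Δ` is invariant under `H`. -/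
def Inv (H : Subgroup G) (Δ : Finset Ω) : Prop := ∀ h ∈ H, ∀ a ∈ Δ, h • a ∈ Δ

/-- `H` preserves `Δ` and is transitive on it. -/
structure Orb (H : Subgroup G) (Δ : Finset Ω) : Prop where
  inv : Inv H Δ
  tr : ∀ a ∈ Δ, ∀ b ∈ Δ, ∃ h ∈ H, h • a = b

def Tr2 (H : Subgroup G) (Δ : Finset Ω) : Prop :=
  ∀ a ∈ Δ, ∀ b ∈ Δ, ∀ a' ∈ Δ, ∀ b' ∈ Δ, a ≠ b → a' ≠ b' → ∃ h ∈ H, h • a = a' ∧ h • b = b'

def Tr3 (H : Subgroup G) (Δ : Finset Ω) : Prop :=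
  ∀ a ∈ Δ, ∀ b ∈ Δ, ∀ c ∈ Δ, ∀ a' ∈ Δ, ∀ b' ∈ Δ, ∀ c' ∈ Δ, a ≠ b → a ≠ c → b ≠ c →
    a' ≠ b' → a' ≠ c' → b' ≠ c' → ∃ h ∈ H, h • a = a' ∧ h • b = b' ∧ h • c = c'

def Tr4 (H : Subgroup G) (Δ : Finset Ω) : Prop :=
  ∀ a ∈ Δ, ∀ b ∈ Δ, ∀ c ∈ Δ, ∀ d ∈ Δ, ∀ a' ∈ Δ, ∀ b' ∈ Δ, ∀ c' ∈ Δ, ∀ d' ∈ Δ,
    a ≠ b → a ≠ c → a ≠ d → b ≠ c → b ≠ d → c ≠ d →
    a' ≠ b' → a' ≠ c' → a' ≠ d' → b' ≠ c' → b' ≠ d' → c' ≠ d' →
    ∃ h ∈ H, h • a = a' ∧ h • b = b' ∧ h • c = c' ∧ h • d = d'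

/-- fixed by all of `K` -/
def IsFx (K : Subgroup G) (a : Ω) : Prop := ∀ k ∈ K, k • a = a

/-- points of `Δ` fixed by `K` -/
noncomputable def Fx (K : Subgroup G) (Δ : Finset Ω) : Finset Ω := Δ.filter (IsFx K)

/-- points of `Δ` moved by `K` -/
noncomputable def Sp (K : Subgroup G) (Δ : Finset Ω) : Finset Ω := Δ.filter (fun a => ¬ IsFx K a)

/-- the `H`-orbit of `a` inside `Δ` -/
noncomputable def orb (H : Subgroup G) (Δ : Finset Ω) (a : Ω) : Finset Ω :=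
  Δ.filter (fun b => ∃ h ∈ H, h • a = b)

/-- stabilizer of `a` in `H` -/
abbrev St (H : Subgroup G) (a : Ω) : Subgroup G := H ⊓ stabilizer G a

theorem mem_Fx {K : Subgroup G} {Δ : Finset Ω} {a : Ω} : a ∈ Fx K Δ ↔ a ∈ Δ ∧ IsFx K a :=
  mem_filter

theorem mem_Sp {K : Subgroup G} {Δ : Finset Ω} {a : Ω} : a ∈ Sp K Δ ↔ a ∈ Δ ∧ ¬ IsFx K a :=
  mem_filter

theorem mem_orb {H : Subgroup G} {Δ : Finset Ω} {a b : Ω} :
    b ∈ orb H Δ a ↔ b ∈ Δ ∧ ∃ h ∈ H, h • a = b := mem_filter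

theorem mem_St {H : Subgroup G} {a : Ω} {g : G} : g ∈ St H a ↔ g ∈ H ∧ g • a = a := Iff.rfl

theorem card_Fx_add_Sp (K : Subgroup G) (Δ : Finset Ω) :
    (Fx K Δ).card + (Sp K Δ).card = Δ.card :=
  card_filter_add_card_filter_not _

theorem self_mem_orb {H : Subgroup G} {Δ : Finset Ω} {a : Ω} (ha : a ∈ Δ) : a ∈ orb H Δ a :=
  mem_orb.2 ⟨ha, 1, H.one_mem, one_smul _ _⟩

theorem orb_subset (H : Subgroup G) (Δ : Finset Ω) (a : Ω) : orb H Δ a ⊆ Δ := filter_subset _ _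

theorem orb_Orb {H : Subgroup G} {Δ : Finset Ω} (hi : Inv H Δ) (a : Ω) : Orb H (orb H Δ a) := by
  refine ⟨fun h hh b hb => ?_, fun b hb c hc => ?_⟩
  · obtain ⟨hb, g, hg, rfl⟩ := mem_orb.1 hb
    exact mem_orb.2 ⟨hi h hh _ hb, h * g, H.mul_mem hh hg, mul_smul _ _ _⟩
  · obtain ⟨_, g, hg, rfl⟩ := mem_orb.1 hb
    obtain ⟨_, g', hg', rfl⟩ := mem_orb.1 hc
    exact ⟨g' * g⁻¹, H.mul_mem hg' (H.inv_mem hg), by rw [mul_smul, inv_smul_smul]⟩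

theorem Inv.mono {H H' : Subgroup G} {Δ : Finset Ω} (hi : Inv H Δ) (h : H' ≤ H) : Inv H' Δ :=
  fun g hg => hi g (h hg)

theorem Inv.sdiff {H : Subgroup G} {Δ Γ : Finset Ω} (hi : Inv H Δ) (hj : Inv H Γ) :
    Inv H (Δ \ Γ) := by
  intro h hh a ha
  rw [mem_sdiff] at ha ⊢
  refine ⟨hi h hh a ha.1, fun hc => ha.2 ?_⟩
  have := hj h⁻¹ (H.inv_mem hh) _ hc
  rwa [inv_smul_smul] at this

theorem Inv.erase {H : Subgroup G} {Δ : Finset Ω} (hi : Inv H Δ) (a : Ω) :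
    Inv (St H a) (Δ.erase a) := by
  intro h hh b hb
  rw [mem_erase] at hb ⊢
  refine ⟨fun hc => hb.1 ?_, hi h hh.1 b hb.2⟩
  have h2 : h • a = a := hh.2
  exact (smul_left_cancel_iff h).1 (hc.trans h2.symm)

theorem Pro.le {H K : Subgroup G} (hp : Pro H K) : K ≤ H := hp.1

theorem Pro.mono {H H' K : Subgroup G} (hp : Pro H K) (hK : K ≤ H') (h : H' ≤ H) : Pro H' K :=
  ⟨hK, fun g hg => hp.2 g (h hg)⟩

theorem Pro.st {H K : Subgroup G} (hp : Pro H K) {a : Ω} (ha : IsFx K a) : Pro (St H a) K :=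
  hp.mono (fun k hk => ⟨hp.1 hk, ha k hk⟩) inf_le_left

/-- The element form of pronormality. -/
theorem Pro.ex {H K : Subgroup G} (hp : Pro H K) {h : G} (hh : h ∈ H) (L : Subgroup G)
    (hKL : K ≤ L) (hL : ∀ k ∈ K, h * k * h⁻¹ ∈ L) :
    ∃ w ∈ L, w ∈ H ∧ w⁻¹ * h ∈ Subgroup.normalizer (K : Set G) := by
  obtain ⟨w, hw, e⟩ := hp.2 h hh
  have hle : ∀ M : Subgroup G, K ≤ M → (∀ k ∈ K, h * k * h⁻¹ ∈ M) → w ∈ M := by
    intro M h1 h2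
    refine (sup_le h1 ?_ : _ ≤ M) hw
    rintro _ ⟨k, hk, rfl⟩
    exact h2 k hk
  refine ⟨w, hle L hKL hL, hle H hp.1 (fun k hk => H.mul_mem (H.mul_mem hh (hp.1 hk)) (H.inv_mem hh)), ?_⟩
  rw [Subgroup.mem_normalizer_iff]
  intro k
  constructor
  · intro hk
    have : h * k * h⁻¹ ∈ K.map (MulAut.conj w).toMonoidHom := by
      rw [e]; exact ⟨k, hk, rfl⟩
    obtain ⟨k', hk', e'⟩ := this
    have e2 : w * k' * w⁻¹ = h * k * h⁻¹ := e'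
    have : w⁻¹ * h * k * (w⁻¹ * h)⁻¹ = k' := by
      rw [show w⁻¹ * h * k * (w⁻¹ * h)⁻¹ = w⁻¹ * (h * k * h⁻¹) * w by group, ← e2]; group
    rw [this]; exact hk'
  · intro hk
    have : w * (w⁻¹ * h * k * (w⁻¹ * h)⁻¹) * w⁻¹ ∈ K.map (MulAut.conj h).toMonoidHom := by
      rw [← e]; exact ⟨_, hk, rfl⟩
    obtain ⟨k', hk', e'⟩ := this
    have e2 : h * k' * h⁻¹ = w * (w⁻¹ * h * k * (w⁻¹ * h)⁻¹) * w⁻¹ := e'
    have : k = k' := by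
      have e3 : h * k' * h⁻¹ = h * k * h⁻¹ := by rw [e2]; group
      exact (mul_left_cancel (mul_right_cancel e3)).symm
    rw [this]; exact hk'

theorem isFx_smul {K : Subgroup G} {c : G} (hc : c ∈ Subgroup.normalizer (K : Set G)) (a : Ω) :
    IsFx K (c • a) ↔ IsFx K a := by
  have key : ∀ c : G, c ∈ Subgroup.normalizer (K : Set G) → ∀ a : Ω, IsFx K a → IsFx K (c • a) := by
    intro c hc a ha k hk
    have h1 : c⁻¹ * k * c⁻¹⁻¹ ∈ K :=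
      (Subgroup.mem_normalizer_iff.1 ((Subgroup.normalizer (K : Set G)).inv_mem hc) k).1 hk
    have h2 := ha _ h1
    rw [inv_inv, mul_smul, mul_smul, inv_smul_eq_iff] at h2
    exact h2
  refine ⟨fun h => ?_, key c hc a⟩
  have := key c⁻¹ ((Subgroup.normalizer (K : Set G)).inv_mem hc) _ h
  rwa [inv_smul_smul] at this

/-- Witt's lemma: fixed points conjugate under `H` are conjugate under `N_H(K)`. -/
theorem Pro.witt {H K : Subgroup G} (hp : Pro H K) {h : G} (hh : h ∈ H) {a : Ω}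
    (ha : IsFx K a) (hb : IsFx K (h • a)) :
    ∃ c ∈ H, c • a = h • a ∧ ∀ z : Ω, IsFx K (c • z) ↔ IsFx K z := by
  obtain ⟨w, hw, hwH, hn⟩ := hp.ex hh (stabilizer G (h • a)) (fun k hk => hb k hk) (by
    intro k hk
    show (h * k * h⁻¹) • h • a = h • a
    rw [mul_smul, inv_smul_smul, mul_smul, ha k hk])
  refine ⟨w⁻¹ * h, H.mul_mem (H.inv_mem hwH) hh, ?_, isFx_smul hn⟩
  rw [mul_smul, inv_smul_eq_iff]
  exact (show w • h • a = h • a from hw).symm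

/-- If `K` preserves the translate `h • Fix K`, then `h` preserves `Fix K`. -/
theorem Pro.fixB {H K : Subgroup G} (hp : Pro H K) {Δ : Finset Ω} (hi : Inv H Δ) {h : G}
    (hh : h ∈ H) (hK : ∀ k ∈ K, ∀ a ∈ Δ, IsFx K (h⁻¹ • a) → IsFx K (h⁻¹ • k • a)) :
    ∀ a ∈ Δ, IsFx K (h⁻¹ • a) ↔ IsFx K a := by
  let L : Subgroup G :=
    { carrier := {g | g ∈ H ∧ ∀ a ∈ Δ, IsFx K (h⁻¹ • g • a) ↔ IsFx K (h⁻¹ • a)}
      one_mem' := ⟨H.one_mem, fun a _ => by rw [one_smul]⟩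
      mul_mem' := by
        rintro x y ⟨hx, hx'⟩ ⟨hy, hy'⟩
        refine ⟨H.mul_mem hx hy, fun a ha => ?_⟩
        rw [mul_smul, hx' _ (hi y hy a ha), hy' a ha]
      inv_mem' := by
        rintro x ⟨hx, hx'⟩
        refine ⟨H.inv_mem hx, fun a ha => ?_⟩
        rw [← hx' _ (hi _ (H.inv_mem hx) a ha), smul_inv_smul] }
  have hKL : K ≤ L := by
    intro k hk
    refine ⟨hp.1 hk, fun a ha => ⟨fun h1 => ?_, hK k hk a ha⟩⟩
    have := hK k⁻¹ (K.inv_mem hk) _ (hi k (hp.1 hk) a ha) h1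
    rwa [inv_smul_smul] at this
  obtain ⟨w, hw, hwH, hn⟩ := hp.ex hh L hKL (by
    intro k hk
    refine ⟨H.mul_mem (H.mul_mem hh (hp.1 hk)) (H.inv_mem hh), fun a _ => ?_⟩
    rw [mul_smul, mul_smul, inv_smul_smul]
    exact isFx_smul (Subgroup.le_normalizer hk) _)
  intro a ha
  have h1 := hw.2 a ha
  have h2 := isFx_smul (Ω := Ω) ((Subgroup.normalizer (K : Set G)).inv_mem hn) a
  rw [mul_inv_rev, inv_inv, mul_smul] at h2
  rw [← h1, h2]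

theorem two_le_Sp {H K : Subgroup G} (hKH : K ≤ H) {Δ : Finset Ω} (hi : Inv H Δ)
    (hne : (Sp K Δ).Nonempty) : 2 ≤ (Sp K Δ).card := by
  obtain ⟨a, ha⟩ := hne
  obtain ⟨haΔ, ha'⟩ := mem_Sp.1 ha
  have : ∃ k ∈ K, k • a ≠ a := by
    by_contra hc
    push Not at hc
    exact ha' hc
  obtain ⟨k, hk, hka⟩ := this
  have hb : k • a ∈ Sp K Δ :=
    mem_Sp.2 ⟨hi k (hKH hk) a haΔ, fun hc => ha' ((isFx_smul (Subgroup.le_normalizer hk) a).1 hc)⟩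
  exact one_lt_card.2 ⟨_, hb, _, ha, hka⟩

end Ambient

/-- The inductive claim for orbits of size `n`. -/
def Claim (G : Type) [Group G] (K : Subgroup G) (n : ℕ) : Prop :=
  ∀ (Ω : Type) [MulAction G Ω] (H : Subgroup G) (Δ : Finset Ω), Δ.card = n → Pro H K → Orb H Δ →
    (Sp K Δ).Nonempty →
    2 * (Fx K Δ).card + 1 ≤ n ∧ (2 * (Fx K Δ).card + 1 = n → Tr2 H Δ)

section Faithful

variable {G : Type} [Group G] {Ω : Type} [MulAction G Ω] [Fintype Ω]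

/-- moved points -/
noncomputable def mv (Ω : Type) [MulAction G Ω] [Fintype Ω] (g : G) : Finset Ω :=
  univ.filter (fun a => g • a ≠ a)

theorem mem_mv {g : G} {a : Ω} : a ∈ mv Ω g ↔ g • a ≠ a := by
  simp [mv]

/-- `|A ∩ g⁻¹ A|` -/
noncomputable def cX (A : Finset Ω) (g : G) : ℕ := (A.filter (fun a => g • a ∈ A)).card

/-- number of `a ∈ A` with `g a ∈ A`, `g u a ∉ A` -/
noncomputable def cW (A : Finset Ω) (u g : G) : ℕ :=
  (A.filter (fun a => g • a ∈ A ∧ g • u • a ∉ A)).card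

end Faithful

end Cfsg.Agent.Pron
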