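import Cfsg.Agent.Pron.J0

set_option autoImplicit false
set_option linter.unusedSectionVars false

namespace Cfsg.Agent.Pron

open Finset MulAction

open scoped Classical

variable {G : Type} [Group G] [Fintype G] {Ω : Type} [MulAction G Ω] [Fintype Ω]

/-- expectation of a polynomial in `x` and `s` -/
theorem exp_poly {x w v : G → ℤ} {N n m : ℤ}
    (x0 : (Fintype.card G : ℤ) = N)
    (x1 : (∑ g, x g) * n = N * m ^ 2)
    (x2 : (∑ g, x g * (x g - 1)) * (n * (n - 1)) = N * (m * (m - 1)) ^ 2)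
    (x3 : (∑ g, x g * (x g - 1) * (x g - 2)) * (n * (n - 1) * (n - 2))
      = N * (m * (m - 1) * (m - 2)) ^ 2)
    (x4 : (∑ g, x g * (x g - 1) * (x g - 2) * (x g - 3)) * (n * (n - 1) * (n - 2) * (n - 3))
      = N * (m * (m - 1) * (m - 2) * (m - 3)) ^ 2)
    (w0 : (∑ g, w g) * (n * (n - 1)) = N * (m * (m * (n - m))))
    (w1 : (∑ g, w g * (x g - 1)) * (n * (n - 1) * (n - 2))
      = N * (m * (m - 2) * (m * (m - 1) * (n - m))))
    (w2 : (∑ g, w g * (x g - 1) * (x g - 2)) * (n * (n - 1) * (n - 2) * (n - 3))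
      = N * (m * (m - 2) * (m - 3) * (m * (m - 1) * (m - 2) * (n - m))))
    (ww : (∑ g, w g * (w g - 1)) * (n * (n - 1) * (n - 2) * (n - 3))
      = N * (m * (m - 3) * (m * (m - 1) * (n - m) * (n - m - 1))))
    (wv : (∑ g, w g * v g) * (n * (n - 1) * (n - 2) * (n - 3))
      = N * ((m * (m - 2) * (n - m)) ^ 2 + (m * (n - m)) ^ 2 * (n - 3)))
    (v0 : ∑ g, v g = ∑ g, w g) (v1 : ∑ g, v g * (x g - 1) = ∑ g, w g * (x g - 1))
    (v2 : ∑ g, v g * (x g - 1) * (x g - 2) = ∑ g, w g * (x g - 1) * (x g - 2))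
    (vv : ∑ g, v g * (v g - 1) = ∑ g, w g * (w g - 1))
    (a0 a1 a2 a3 a4 b0 b1 b2 c : ℤ)
    (h : ∀ g, 0 ≤ a0 + a1 * x g + a2 * (x g * (x g - 1)) + a3 * (x g * (x g - 1) * (x g - 2))
      + a4 * (x g * (x g - 1) * (x g - 2) * (x g - 3)) + b0 * (w g + v g)
      + b1 * ((w g + v g) * (x g - 1)) + b2 * ((w g + v g) * (x g - 1) * (x g - 2))
      + c * (w g + v g) ^ 2) (hN : 0 < N) (hn : 4 ≤ n) :
    0 ≤ a0 * (n * (n - 1) * (n - 2) * (n - 3)) + a1 * (m ^ 2 * ((n - 1) * (n - 2) * (n - 3)))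
      + a2 * ((m * (m - 1)) ^ 2 * ((n - 2) * (n - 3))) + a3 * ((m * (m - 1) * (m - 2)) ^ 2 * (n - 3))
      + a4 * (m * (m - 1) * (m - 2) * (m - 3)) ^ 2
      + 2 * (b0 + c) * (m * (m * (n - m)) * ((n - 2) * (n - 3)))
      + 2 * b1 * (m * (m - 2) * (m * (m - 1) * (n - m)) * (n - 3))
      + 2 * b2 * (m * (m - 2) * (m - 3) * (m * (m - 1) * (m - 2) * (n - m)))
      + 2 * c * (m * (m - 3) * (m * (m - 1) * (n - m) * (n - m - 1))
        + ((m * (m - 2) * (n - m)) ^ 2 + (m * (n - m)) ^ 2 * (n - 3))) := by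
  have hs := sum_nonneg (s := (univ : Finset G)) (fun g _ => h g)
  have e : ∑ g, (a0 + a1 * x g + a2 * (x g * (x g - 1)) + a3 * (x g * (x g - 1) * (x g - 2))
      + a4 * (x g * (x g - 1) * (x g - 2) * (x g - 3)) + b0 * (w g + v g)
      + b1 * ((w g + v g) * (x g - 1)) + b2 * ((w g + v g) * (x g - 1) * (x g - 2))
      + c * (w g + v g) ^ 2)
      = ∑ _g : G, a0 + a1 * ∑ g, x g + a2 * ∑ g, x g * (x g - 1)
        + a3 * ∑ g, x g * (x g - 1) * (x g - 2) + a4 * ∑ g, x g * (x g - 1) * (x g - 2) * (x g - 3)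
        + (b0 + c) * ∑ g, w g + (b0 + c) * ∑ g, v g + b1 * ∑ g, w g * (x g - 1)
        + b1 * ∑ g, v g * (x g - 1) + b2 * ∑ g, w g * (x g - 1) * (x g - 2)
        + b2 * ∑ g, v g * (x g - 1) * (x g - 2) + c * ∑ g, w g * (w g - 1)
        + c * ∑ g, v g * (v g - 1) + 2 * c * ∑ g, w g * v g := by
    simp only [mul_sum, ← sum_add_distrib]
    exact sum_congr rfl (fun g _ => by ring)
  rw [e, v0, v1, v2, vv, sum_const, card_univ, nsmul_eq_mul, x0] at hs
  have hpos : 0 ≤ n * (n - 1) * (n - 2) * (n - 3) := by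
    have : 0 ≤ n - 1 := by omega
    have : 0 ≤ n - 2 := by omega
    have : 0 ≤ n - 3 := by omega
    positivity
  have h2 := mul_nonneg hs hpos
  refine nonneg_of_mul_nonneg_right (a := N) ?_ hN
  refine h2.trans_eq ?_
  linear_combination a1 * ((n - 1) * (n - 2) * (n - 3)) * x1 + a2 * ((n - 2) * (n - 3)) * x2
    + a3 * (n - 3) * x3 + a4 * x4 + 2 * (b0 + c) * ((n - 2) * (n - 3)) * w0 + 2 * b1 * (n - 3) * w1
    + 2 * b2 * w2 + 2 * c * ww + 2 * c * wv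

theorem oddp (h4 : Tr4 (⊤ : Subgroup G) (univ : Finset Ω)) {u : G}
    (hu : ∀ a ∈ mv Ω u, u • u • a ≠ a)
    (hm : ∀ g : G, g ≠ 1 → (mv Ω u).card ≤ (mv Ω g).card) (h : 4 ≤ (mv Ω u).card)
    (he : Even (Fintype.card Ω)) : Fintype.card Ω ≤ 2 * (mv Ω u).card := by
  by_contra hlt
  set A := mv Ω u with hA
  have hu1 : ∀ a ∈ A, u • a ∈ A ∧ u • a ≠ a := fun a ha => mv_smul ha
  have h3 := tr3_of_tr4 h4 (by omega)
  have h2 := tr2_of_tr3 h3 (by omega)
  have key := exp_poly (G := G) (x := fun g => (cX A g : ℤ)) (w := fun g => (cW A u g : ℤ))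
    (v := fun g => (cW A u g⁻¹ : ℤ)) rfl (mX1 (orb_of_tr2 h2) A) (mX2 h2 A) (mX3 h3 A) (mX4 h4 A)
    (mW0 h2 hu1) (mW1 h3 hu1) (mW2 h4 hu1) (mWW h4 hu1 hu) (mWV h3 h4 hu1)
    (sum_inv_eq (fun g => (cW A u g : ℤ)))
    (by rw [← sum_inv_eq (fun g => (cW A u g : ℤ) * (cX A g - 1))]; simp only [cX_inv])
    (by rw [← sum_inv_eq (fun g => (cW A u g : ℤ) * (cX A g - 1) * (cX A g - 2))]
        simp only [cX_inv])
    (sum_inv_eq (fun g => (cW A u g : ℤ) * (cW A u g - 1)))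
  have hN : (0 : ℤ) < Fintype.card G := by exact_mod_cast Fintype.card_pos
  have hn4 : (4 : ℤ) ≤ Fintype.card Ω := by omega
  have reg : ∀ g : G, ∃ x s : ℕ, (cX A g : ℤ) = x ∧ (cW A u g : ℤ) + cW A u g⁻¹ = s ∧
      x ≤ A.card ∧ s ≤ 2 * x ∧ s + 2 * x ≤ 2 * A.card ∧ (s = 0 ∨ A.card ≤ x + s) := by
    intro g
    have a1 := cW_le_cX A u g
    have a2 := cW_le_cX A u g⁻¹
    have a3 := cW_add_cX_le A (fun a ha => (hu1 a ha).1) g
    have a4 := cW_add_cX_le A (fun a ha => (hu1 a ha).1) g⁻¹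
    rw [cX_inv] at a2 a4
    refine ⟨cX A g, cW A u g + cW A u g⁻¹, rfl, by push_cast; rfl, by omega, by omega, by omega, ?_⟩
    rcases Nat.eq_zero_or_pos (cW A u g + cW A u g⁻¹) with h0 | h0
    · exact Or.inl h0
    · have := comm_key (g := g) hA.symm hA.symm hm h0
      right; omega
  obtain ⟨r, hr⟩ := he
  generalize A.card = m at *
  generalize Fintype.card Ω = n at *
  by_cases hj : 2 * m + 4 ≤ n
  · have := key 0 0 0 0 0 (1 - m) 1 0 1 (fun g => by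
      obtain ⟨x, s, e1, e2, _, _, _, h5⟩ := reg g
      simp only [e1, e2]
      rcases h5 with rfl | h5
      · simp
      · have : (m : ℤ) ≤ x + s := by exact_mod_cast h5
        nlinarith [mul_nonneg (Int.natCast_nonneg s) (sub_nonneg.2 this)]) hN hn4
    obtain ⟨a, rfl⟩ := Nat.exists_eq_add_of_le h
    obtain ⟨b, rfl⟩ := Nat.exists_eq_add_of_le hj
    push_cast at this
    have ha : (0 : ℤ) ≤ a := Int.natCast_nonneg a
    have hb : (0 : ℤ) ≤ b := Int.natCast_nonneg b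
    have e : (0 : ℤ) < 2 * (4 + a) ^ 2 * (8 + a + b)
        * (1 + 8 * b + b ^ 2 + 17 * a + 11 * a * b + a * b ^ 2 + 2 * a ^ 2 + a ^ 2 * b) := by positivity
    nlinarith [e, this]
  have hn : n = 2 * m + 2 := by omega
  subst hn
  by_cases h8 : 8 ≤ m
  · have := key (m ^ 4) (16 - 32 * m + 24 * m ^ 2 - 8 * m ^ 3 + 8 * m * (m - 1))
      (112 - 96 * m + 24 * m ^ 2 + 8 * m * (m - 3)) (96 - 32 * m - 8 * m) 16
      (-16 * m ^ 3 + 16 * m ^ 2 - 8 * m) (16 * m ^ 2 - 24 * m) (-8 * m) (16 * m ^ 2) (fun g => by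
      obtain ⟨x, s, e1, e2, h1, _, _, h5⟩ := reg g
      simp only [e1, e2]
      have h1' : (0 : ℤ) ≤ m - x := by omega
      have hm0 : (0 : ℤ) ≤ m := Int.natCast_nonneg m
      rcases h5 with rfl | h5
      · have : (0 : ℤ) ≤ 8 * m * (m - x) * x ^ 2 + (2 * x - m) ^ 4 := by positivity
        refine this.trans_eq ?_
        push_cast; ring
      · have h6 : (0 : ℤ) ≤ s - (m - x) := by omega
        have : (0 : ℤ) ≤ (4 * m * (s - (m - x)) - (2 * x - m) ^ 2) ^ 2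
          + 24 * m * (s - (m - x)) * (m - x) ^ 2 := by positivity
        refine this.trans_eq ?_
        ring) hN hn4
    obtain ⟨a, rfl⟩ := Nat.exists_eq_add_of_le h8
    push_cast at this
    have ha : (0 : ℤ) ≤ a := Int.natCast_nonneg a
    have e : (0 : ℤ) < 2396160 + 6069248 * a + 3466304 * a ^ 2 + 910816 * a ^ 3 + 130448 * a ^ 4
      + 10540 * a ^ 5 + 452 * a ^ 6 + 8 * a ^ 7 := by positivity
    nlinarith [e, this]
  have small : ∀ a0 a1 a2 a3 a4 b0 b1 b2 c : ℤ,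
      (∀ x ∈ range (m + 1), ∀ s ∈ range (2 * m + 1), s ≤ 2 * x → s + 2 * x ≤ 2 * m →
        (s = 0 ∨ m ≤ x + s) →
        0 ≤ a0 + a1 * x + a2 * (x * (x - 1)) + a3 * (x * (x - 1) * (x - 2))
          + a4 * (x * (x - 1) * (x - 2) * (x - 3)) + b0 * s + b1 * (s * (x - 1))
          + b2 * (s * (x - 1) * (x - 2)) + c * s ^ 2) → _ := fun a0 a1 a2 a3 a4 b0 b1 b2 c hh =>
    key a0 a1 a2 a3 a4 b0 b1 b2 c (fun g => by
      obtain ⟨x, s, e1, e2, h1, h2, h3, h5⟩ := reg g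
      simp only [e1, e2]
      exact hh x (mem_range.2 (by omega)) s (mem_range.2 (by omega)) h2 h3 h5) hN hn4
  have : m = 4 ∨ m = 5 ∨ m = 6 ∨ m = 7 := by omega
  rcases this with rfl | rfl | rfl | rfl
  · exact absurd (small (0) (6) (2) (0) (1) (-14) (-2) (-2) (4) (by decide)) (by norm_num)
  · exact absurd (small (0) (4) (2) (-1) (1) (-17) (1) (-1) (4) (by decide)) (by norm_num)
  · exact absurd (small (36) (-27) (17) (-5) (1) (-21) (1) (-1) (4) (by decide)) (by norm_num)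
  · exact absurd (small (24) (-18) (16) (-5) (1) (-25) (1) (-1) (4) (by decide)) (by norm_num)

end Cfsg.Agent.Pron
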