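import Cfsg.Agent.Pron.Invol
import Cfsg.Agent.Pron.OddP

set_option autoImplicit false
set_option linter.unusedSectionVars false

namespace Cfsg.Agent.Pron

open Finset MulAction

open scoped Classical

variable {G : Type} [Group G] [Fintype G] {Ω : Type} [MulAction G Ω] [Fintype Ω]

/-- one exchange step -/
theorem exch_step (h3 : Tr3 (⊤ : Subgroup G) (univ : Finset Ω)) {g : G} (hg : (mv Ω g).Nonempty)
    (h : (mv Ω g).card ≤ 3) {X : Finset Ω} (h2 : X.card + 2 ≤ Fintype.card Ω) {a b : Ω}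
    (ha : a ∈ X) (hb : b ∉ X) :
    ∃ x : G, ∀ z, x⁻¹ • z ∈ X ↔ z ∈ insert b (X.erase a) := by
  obtain ⟨p, hp⟩ := hg
  have hq := mv_smul hp
  have hn3 : 3 ≤ Fintype.card Ω := by
    have := card_pos.2 ⟨a, ha⟩
    omega
  -- a third point `r` such that all moved points are among `p, g p, r`
  obtain ⟨r, r1, r2, hr⟩ : ∃ r, p ≠ r ∧ g • p ≠ r ∧ ∀ z ∈ mv Ω g, z = p ∨ z = g • p ∨ z = r := by
    by_cases hc : ∃ r ∈ mv Ω g, p ≠ r ∧ g • p ≠ r
    · obtain ⟨r, hr, r1, r2⟩ := hc
      refine ⟨r, r1, r2, fun z hz => ?_⟩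
      have hsub : ({p, g • p, r} : Finset Ω) ⊆ mv Ω g := by
        intro y hy
        simp only [mem_insert, mem_singleton] at hy
        rcases hy with rfl | rfl | rfl
        exacts [hp, hq.1, hr]
      have hc3 : ({p, g • p, r} : Finset Ω).card = 3 := card_eq_three.2 ⟨_, _, _, hq.2.symm, r1, r2, rfl⟩
      have := eq_of_subset_of_card_le hsub (by omega)
      rw [← this] at hz
      simpa using hz
    · obtain ⟨r, r1, r2⟩ := exists_not_mem2 hn3 p (g • p)
      refine ⟨r, r1, r2, fun z hz => ?_⟩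
      by_contra hz'
      push Not at hz'
      exact hc ⟨z, hz, hz'.1.symm, hz'.2.1.symm⟩
  obtain ⟨c, hc1, hc2⟩ : ∃ c, c ∉ X ∧ c ≠ b := by
    have h1 : (insert b X).card < (univ : Finset Ω).card := by
      rw [card_insert_of_notMem hb, card_univ]; omega
    obtain ⟨c, _, hc⟩ := exists_mem_notMem_of_card_lt_card h1
    rw [mem_insert, not_or] at hc
    exact ⟨c, hc.2, hc.1⟩
  obtain ⟨y, _, e1, e2, e3⟩ := h3 p (mem_univ _) (g • p) (mem_univ _) r (mem_univ _) a (mem_univ _)
    b (mem_univ _) c (mem_univ _) hq.2.symm r1 r2 (fun e => hb (e ▸ ha)) (fun e => hc1 (e ▸ ha))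
    hc2.symm
  set x := y * g * y⁻¹ with hx
  have xa : x • a = b := by rw [hx, mul_smul, mul_smul, ← e1, inv_smul_smul, e2]
  have xfix : ∀ z, z ≠ a → z ≠ b → z ≠ c → x • z = z := by
    intro z z1 z2 z3
    have : y⁻¹ • z ∉ mv Ω g := by
      intro hz
      rcases hr _ hz with e | e | e
      · exact z1 (by rw [← e1, ← e, smul_inv_smul])
      · exact z2 (by rw [← e2, ← e, smul_inv_smul])
      · exact z3 (by rw [← e3, ← e, smul_inv_smul])
    rw [hx, mul_smul, mul_smul, fix_of_not_mv this, smul_inv_smul]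
  refine ⟨x, fun z => ⟨fun hz => ?_, fun hz => ?_⟩⟩
  · by_cases e : x⁻¹ • z = a
    · rw [inv_smul_eq_iff, xa] at e
      rw [e]; exact mem_insert_self _ _
    · have := xfix _ e (fun e => hb (e ▸ hz)) (fun e => hc1 (e ▸ hz))
      rw [smul_inv_smul] at this
      rw [← this] at e hz
      exact mem_insert_of_mem (mem_erase.2 ⟨e, hz⟩)
  · rcases mem_insert.1 hz with rfl | hz
    · rw [← xa, inv_smul_smul]; exact ha
    · obtain ⟨z1, z2⟩ := mem_erase.1 hz
      have := xfix z z1 (fun e => hb (e ▸ z2)) (fun e => hc1 (e ▸ z2))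
      rw [← this, inv_smul_smul]; exact z2

theorem exch (h3 : Tr3 (⊤ : Subgroup G) (univ : Finset Ω)) {g : G} (hg : (mv Ω g).Nonempty)
    (h : (mv Ω g).card ≤ 3) (X Y : Finset Ω) (hc : X.card = Y.card)
    (h2 : X.card + 2 ≤ Fintype.card Ω) : ∃ x : G, ∀ a, x⁻¹ • a ∈ X ↔ a ∈ Y := by
  induction hk : (X \ Y).card generalizing X with
  | zero =>
    have : X = Y := eq_of_subset_of_card_le (sdiff_eq_empty_iff_subset.1 (card_eq_zero.1 hk)) hc.ge
    exact ⟨1, fun a => by rw [inv_one, one_smul, this]⟩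
  | succ k ih =>
    obtain ⟨a, ha⟩ : (X \ Y).Nonempty := card_pos.1 (by omega)
    obtain ⟨b, hb⟩ : (Y \ X).Nonempty := card_pos.1 (by rw [← card_sdiff_comm hc]; omega)
    obtain ⟨a1, a2⟩ := mem_sdiff.1 ha
    obtain ⟨b1, b2⟩ := mem_sdiff.1 hb
    obtain ⟨x, hx⟩ := exch_step h3 hg h h2 a1 b2
    have c1 : (insert b (X.erase a)).card = X.card := by
      rw [card_insert_of_notMem (fun e => b2 (mem_erase.1 e).2), card_erase_add_one a1]
    have c2 : (insert b (X.erase a) \ Y).card = k := by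
      have : insert b (X.erase a) \ Y = (X \ Y).erase a := by
        ext z
        simp only [mem_sdiff, mem_insert, mem_erase]
        constructor
        · rintro ⟨rfl | h1, h2⟩
          · exact (h2 b1).elim
          · exact ⟨h1.1, h1.2, h2⟩
        · rintro ⟨h1, h2, h3⟩
          exact ⟨Or.inr ⟨h1, h2⟩, h3⟩
      have h5 := card_erase_add_one ha
      rw [this]; omega
    obtain ⟨y, hy⟩ := ih _ (c1.trans hc) (by omega) c2
    exact ⟨y * x, fun z => by rw [mul_inv_rev, mul_smul, hx, hy]⟩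

theorem four [FaithfulSMul G Ω] (h4 : Tr4 (⊤ : Subgroup G) (univ : Finset Ω)) {K : Subgroup G}
    (hp : Pro ⊤ K) (hne : (Sp K (univ : Finset Ω)).Nonempty)
    (hn : Fintype.card Ω = 2 * (Sp K (univ : Finset Ω)).card) : False := by
  have hi : Inv (⊤ : Subgroup G) (univ : Finset Ω) := fun _ _ _ _ => mem_univ _
  have hf2 := two_le_Sp hp.le hi hne
  have h3 := tr3_of_tr4 h4 (by omega)
  have memS : ∀ a : Ω, a ∈ Sp K (univ : Finset Ω) ↔ ¬ IsFx K a := fun a => by rw [mem_Sp]; simp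
  have memF : ∀ a : Ω, a ∈ Fx K (univ : Finset Ω) ↔ IsFx K a := fun a => by rw [mem_Fx]; simp
  have hmvne : ∀ g : G, g ≠ 1 → (mv Ω g).Nonempty := by
    intro g hg
    by_contra hc
    rw [not_nonempty_iff_eq_empty] at hc
    refine hg (eq_of_smul_eq_smul (α := Ω) (fun a => ?_))
    rw [one_smul]
    exact fix_of_not_mv (hc ▸ notMem_empty a)
  have hne1 : (univ.filter (fun g : G => g ≠ 1)).Nonempty := by
    obtain ⟨a, ha⟩ := hne
    have := (memS a).1 ha
    unfold IsFx at this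
    push Not at this
    obtain ⟨k, _, hka⟩ := this
    exact ⟨k, mem_filter.2 ⟨mem_univ _, fun e => hka (by rw [e, one_smul])⟩⟩
  obtain ⟨g, hg, hmin⟩ := exists_min_image _ (fun g : G => (mv Ω g).card) hne1
  have hg1 : g ≠ 1 := (mem_filter.1 hg).2
  have hmin' : ∀ x : G, x ≠ 1 → (mv Ω g).card ≤ (mv Ω x).card :=
    fun x hx => hmin x (mem_filter.2 ⟨mem_univ _, hx⟩)
  by_cases h3' : (mv Ω g).card ≤ 3
  · have hc := card_Fx_add_Sp K (univ : Finset Ω)
    rw [card_univ] at hc
    obtain ⟨x, hx⟩ := exch h3 (hmvne g hg1) h3' (Sp K univ) (Fx K univ) (by omega) (by omega)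
    have hx' : ∀ a : Ω, IsFx K (x⁻¹ • a) ↔ ¬ IsFx K a := fun a => by
      have := hx a
      rw [memS, memF] at this
      tauto
    have := hp.fixB hi (Subgroup.mem_top x) (by
      intro k hk a _ h
      rw [hx'] at h ⊢
      rwa [isFx_smul (Subgroup.le_normalizer hk)])
    obtain ⟨a, _⟩ := hne
    have h1 := this a (mem_univ _)
    have h2 := hx' a
    tauto
  have ho : orderOf g ≠ 1 := fun e => hg1 (orderOf_eq_one_iff.1 e)
  have hpp := Nat.minFac_prime ho
  set p := (orderOf g).minFac with hpdef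
  set u := g ^ (orderOf g / p) with hu
  have hou : orderOf u = p := orderOf_pow_orderOf_div (orderOf_pos g).ne' (Nat.minFac_dvd _)
  have hu1 : u ≠ 1 := fun e => hpp.one_lt.ne' (by rw [← hou, e, orderOf_one])
  have hsub : mv Ω u ⊆ mv Ω g := by
    intro a ha
    by_contra hc
    have : g ∈ stabilizer G a := fix_of_not_mv hc
    exact mem_mv.1 ha ((stabilizer G a).pow_mem this _)
  have hcu : (mv Ω u).card = (mv Ω g).card := le_antisymm (card_le_card hsub) (hmin' u hu1)
  have hle : Fintype.card Ω ≤ 2 * (mv Ω u).card := by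
    rcases hpp.eq_two_or_odd' with e | e
    · refine invol h3 ?_ (fun x hx => hcu ▸ hmin' x hx) (by omega)
      rw [← pow_two, ← e, ← hou, pow_orderOf_eq_one]
    · refine oddp h4 (fun a ha hc => mem_mv.1 ha ?_) (fun x hx => hcu ▸ hmin' x hx) (by omega)
        ⟨_, hn.trans (two_mul _)⟩
      obtain ⟨k, hk⟩ := e
      have h1 : u * u ∈ stabilizer G a := by rw [mem_stabilizer_iff, mul_smul, hc]
      have h2 : u = (u * u) ^ (k + 1) := by
        rw [← pow_two, ← pow_mul, show 2 * (k + 1) = p + 1 by omega, pow_succ, ← hou,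
          pow_orderOf_eq_one, one_mul]
      have h3 : u ∈ stabilizer G a := h2 ▸ (stabilizer G a).pow_mem h1 _
      exact h3
  exact j0 h3 hp hne hn (fun x hx => by have := hmin' x hx; omega)

end Cfsg.Agent.Pron
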