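import Cfsg.Agent.Pron.J0

set_option autoImplicit false
set_option linter.unusedSectionVars false

namespace Cfsg.Agent.Pron

open Finset MulAction

open scoped Classical

variable {G : Type} [Group G] [Fintype G] {Ω : Type} [MulAction G Ω] [Fintype Ω]

theorem card_fix_le {x : G} {m : ℕ} (hm : m ≤ (mv Ω x).card) {T : Finset Ω}
    (hT : ∀ a ∈ T, x • a = a) : T.card + m ≤ Fintype.card Ω := by
  have h1 : Disjoint T (mv Ω x) := disjoint_left.2 (fun a ha hb => mem_mv.1 hb (hT a ha))
  have h2 := card_le_univ (T ∪ mv Ω x)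
  rw [card_union_of_disjoint h1] at h2
  omega

/-- two involutions with supports of minimal size that do not commute overlap in at least half -/
theorem dihedral {u v : G} (hu : u * u = 1) (hv : v * v = 1) {m : ℕ} (mu : (mv Ω u).card = m)
    (mv' : (mv Ω v).card = m) (hm : ∀ g : G, g ≠ 1 → m ≤ (mv Ω g).card)
    (hpos : ((mv Ω u ∩ mv Ω v).filter (fun b => v • u • b = u • b)).Nonempty) :
    m ≤ 2 * (mv Ω u ∩ mv Ω v).card := by
  have uu : ∀ a : Ω, u • u • a = a := fun a => by rw [← mul_smul, hu, one_smul]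
  have vv : ∀ a : Ω, v • v • a = a := fun a => by rw [← mul_smul, hv, one_smul]
  set A := mv Ω u with hA
  set B := mv Ω v with hB
  have mA : ∀ a, a ∈ A ↔ u • a ≠ a := fun a => mem_mv
  have mB : ∀ a, a ∈ B ↔ v • a ≠ a := fun a => mem_mv
  set I := A ∩ B with hI
  set P := I.filter (fun b => v • u • b = u • b) with hP
  set P' := I.filter (fun b => u • v • b = v • b) with hP'
  set O := (A ∪ B)ᶜ with hO
  set A2 := (A \ B).filter (fun a => v • u • a = u • a) with hA2
  set B2 := (B \ A).filter (fun b => u • v • b = v • b) with hB2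
  have mI : ∀ a, a ∈ I ↔ u • a ≠ a ∧ v • a ≠ a := fun a => by rw [hI, mem_inter, mA, mB]
  have mP : ∀ a, a ∈ P ↔ (u • a ≠ a ∧ v • a ≠ a) ∧ v • u • a = u • a := fun a => by
    rw [hP, mem_filter, mI]
  have mP' : ∀ a, a ∈ P' ↔ (u • a ≠ a ∧ v • a ≠ a) ∧ u • v • a = v • a := fun a => by
    rw [hP', mem_filter, mI]
  have mO : ∀ a, a ∈ O ↔ u • a = a ∧ v • a = a := fun a => by
    rw [hO, mem_compl, mem_union, mA, mB]; tauto
  have mA2 : ∀ a, a ∈ A2 ↔ (u • a ≠ a ∧ v • a = a) ∧ v • u • a = u • a := fun a => by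
    rw [hA2, mem_filter, mem_sdiff, mA, mB, not_not]
  have mB2 : ∀ a, a ∈ B2 ↔ (v • a ≠ a ∧ u • a = a) ∧ u • v • a = v • a := fun a => by
    rw [hB2, mem_filter, mem_sdiff, mA, mB, not_not]
  have cO : O.card + 2 * m = Fintype.card Ω + I.card := by
    have h1 := card_add_card_compl (A ∪ B)
    have h2 := card_union_add_card_inter A B
    rw [← hO] at h1
    rw [← hI] at h2
    omega
  have gen : ∀ (u v : G) (A B I A2 P : Finset Ω), (∀ a : Ω, u • u • a = a) →
      (∀ a, a ∈ A ↔ u • a ≠ a) → (∀ a, a ∈ I ↔ u • a ≠ a ∧ v • a ≠ a) →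
      (∀ a, a ∈ A2 ↔ (u • a ≠ a ∧ v • a = a) ∧ v • u • a = u • a) →
      (∀ a, a ∈ P ↔ (u • a ≠ a ∧ v • a ≠ a) ∧ v • u • a = u • a) →
      A2.card + P.card + I.card = A.card := by
    intro u v A B I A2 P uu mA mI mA2 mP
    have h1 : P.card = (A.filter (fun a => v • a = a ∧ v • u • a ≠ u • a)).card := by
      refine card_bij (fun a _ => u • a) ?_ ?_ ?_
      · intro a ha
        rw [mP] at ha
        rw [mem_filter, mA, uu]
        exact ⟨ha.1.1.symm, ha.2, ha.1.2⟩
      · intro a _ b _ e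
        exact (smul_left_cancel_iff _).1 e
      · intro b hb
        rw [mem_filter, mA] at hb
        refine ⟨u • b, ?_, uu b⟩
        rw [mP, uu]
        exact ⟨⟨hb.1.symm, hb.2.2⟩, hb.2.1⟩
    rw [h1, ← card_union_of_disjoint, ← card_union_of_disjoint]
    · congr 1
      ext a
      simp only [mem_union, mem_filter, mA, mI, mA2]
      tauto
    · rw [disjoint_left]
      intro a
      simp only [mem_union, mem_filter, mA, mI, mA2]
      tauto
    · rw [disjoint_left]
      intro a
      simp only [mem_filter, mA, mA2]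
      tauto
  have cA := gen u v A B I A2 P uu mA mI mA2 mP
  have cB := gen v u B A I B2 P' vv mB (fun a => by rw [mI, and_comm]) mB2
    (fun a => by rw [mP', and_comm (a := u • a ≠ a)])
  rw [mu] at cA
  rw [mv'] at cB
  set T := P ∩ P' with hT
  have mT : ∀ a, a ∈ T ↔ (u • a ≠ a ∧ v • a ≠ a) ∧ v • u • a = u • a ∧ u • v • a = v • a :=
    fun a => by rw [hT, mem_inter, mP, mP']; tauto
  have cU := card_union_add_card_inter P P'
  rw [← hT] at cU
  have cU' : (P ∪ P').card ≤ I.card :=
    card_le_card (union_subset (filter_subset _ _) (filter_subset _ _))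
  have cP : P.card ≤ I.card := card_le_card (filter_subset _ _)
  set w := u * v with hw
  have ws : ∀ a : Ω, w • a = u • v • a := fun a => mul_smul _ _ _
  have w2 : ∀ a : Ω, (w ^ 2) • a = u • v • u • v • a := fun a => by rw [pow_two, mul_smul, ws, ws]
  have w3 : ∀ a : Ω, (w ^ 3) • a = u • v • u • v • u • v • a := fun a => by
    rw [pow_succ, mul_smul, w2, ws]
  have w62 : ∀ a : Ω, (w ^ 2) • a = a → (w ^ 6) • a = a := fun a h => by
    rw [show w ^ 6 = w ^ 2 * (w ^ 2 * w ^ 2) by group, mul_smul, mul_smul, h, h, h]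
  have w63 : ∀ a : Ω, (w ^ 3) • a = a → (w ^ 6) • a = a := fun a h => by
    rw [show w ^ 6 = w ^ 3 * w ^ 3 by group, mul_smul, h, h]
  set T3 := T ∪ T.image (fun a => u • a) ∪ T.image (fun a => v • a) with hT3
  have cT3 : T3.card = 3 * T.card := by
    rw [hT3, card_union_of_disjoint, card_union_of_disjoint,
      card_image_of_injective _ (MulAction.injective u),
      card_image_of_injective _ (MulAction.injective v)]
    · ring
    · rw [disjoint_left]
      intro a ha hb0
      obtain ⟨b, hb, rfl⟩ := mem_image.1 hb0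
      exact ((mT _).1 ha).1.2 ((mT _).1 hb).2.1
    · rw [disjoint_left]
      intro a ha hb0
      obtain ⟨b, hb, rfl⟩ := mem_image.1 hb0
      rcases mem_union.1 ha with ha | ha
      · exact ((mT _).1 ha).1.1 ((mT _).1 hb).2.2
      · obtain ⟨c, hc, e⟩ := mem_image.1 ha
        have h1 := ((mT _).1 hc).2.1
        have e' : u • c = v • b := e
        rw [e', vv] at h1
        exact ((mT _).1 hb).1.2 h1.symm
  have fO2 : ∀ a ∈ O, (w ^ 2) • a = a := fun a ha => by
    obtain ⟨h1, h2⟩ := (mO a).1 ha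
    rw [w2, h2, h1, h2, h1]
  have fO3 : ∀ a ∈ O, (w ^ 3) • a = a := fun a ha => by
    obtain ⟨h1, h2⟩ := (mO a).1 ha
    rw [w3, h2, h1, h2, h1, h2, h1]
  have fA2 : ∀ a ∈ A2, (w ^ 2) • a = a := fun a ha => by
    obtain ⟨⟨_, h1⟩, h2⟩ := (mA2 a).1 ha
    rw [w2, h1, h2, uu]
  have fB2 : ∀ a ∈ B2, (w ^ 2) • a = a := fun a ha => by
    obtain ⟨⟨_, h1⟩, h2⟩ := (mB2 a).1 ha
    rw [w2, h2, vv, h1]
  have fT3 : ∀ a ∈ T3, (w ^ 3) • a = a := by
    intro a ha
    simp only [hT3, mem_union, mem_image] at ha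
    rcases ha with (ha | ⟨b, hb, rfl⟩) | ⟨b, hb, rfl⟩
    · obtain ⟨_, h1, h2⟩ := (mT _).1 ha
      rw [w3, h2, vv, h1, uu]
    · obtain ⟨_, h1, h2⟩ := (mT _).1 hb
      rw [w3, h1, uu, h2, vv]
    · obtain ⟨_, h1, h2⟩ := (mT _).1 hb
      rw [w3, vv, h1, uu, h2]
  have dO : ∀ X : Finset Ω, (∀ a ∈ X, u • a ≠ a ∨ v • a ≠ a) → Disjoint O X := by
    intro X hX
    rw [disjoint_left]
    intro a ha hb
    have := (mO a).1 ha
    have := hX a hb
    tauto
  have nT3 : ∀ a ∈ T3, (u • a ≠ a ∨ v • a ≠ a) ∧ a ∉ A2 ∧ a ∉ B2 := by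
    intro a ha
    simp only [hT3, mem_union, mem_image] at ha
    rw [mA2, mB2]
    rcases ha with (ha | ⟨b, hb, rfl⟩) | ⟨b, hb, rfl⟩
    · have := (mT _).1 ha
      tauto
    · obtain ⟨⟨h1, h2⟩, _, _⟩ := (mT _).1 hb
      rw [uu]
      exact ⟨Or.inl h1.symm, fun h => h2 h.2, fun h => h1 h.1.2.symm⟩
    · obtain ⟨⟨h1, h2⟩, _, _⟩ := (mT _).1 hb
      rw [vv]
      exact ⟨Or.inr h2.symm, fun h => h2 h.1.2.symm, fun h => h1 h.2⟩
  have dAB : Disjoint A2 B2 := by
    rw [disjoint_left]
    intro a ha hb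
    exact ((mA2 a).1 ha).1.1 ((mB2 a).1 hb).1.2
  have dOAB : Disjoint O (A2 ∪ B2) := dO _ (fun a ha => by
    rcases mem_union.1 ha with h | h
    · exact Or.inl ((mA2 a).1 h).1.1
    · exact Or.inr ((mB2 a).1 h).1.1)
  have hw2 : w ^ 2 ≠ 1 := by
    intro e
    obtain ⟨b, hb⟩ := hpos
    obtain ⟨⟨_, h2⟩, h3⟩ := (mP b).1 hb
    have := w2 (u • b)
    rw [e, one_smul, h3, uu] at this
    exact h2 ((smul_left_cancel_iff u).1 this).symm
  have s2 := card_fix_le (hm _ hw2) (T := O ∪ (A2 ∪ B2)) (fun a ha => by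
    rcases mem_union.1 ha with h | h
    · exact fO2 a h
    · rcases mem_union.1 h with h | h
      · exact fA2 a h
      · exact fB2 a h)
  rw [card_union_of_disjoint dOAB, card_union_of_disjoint dAB] at s2
  by_cases h6 : w ^ 6 = 1
  · by_cases h3 : w ^ 3 = 1
    · have : A2 = ∅ := by
        rw [eq_empty_iff_forall_notMem]
        intro a ha
        obtain ⟨⟨h0, h1⟩, h2⟩ := (mA2 a).1 ha
        have := w3 a
        rw [h3, one_smul, h1, h2, uu, h1] at this
        exact h0 this.symm
      rw [this, card_empty] at cA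
      omega
    · have s3 := card_fix_le (hm _ h3) (T := O ∪ T3) (fun a ha => by
        rcases mem_union.1 ha with h | h
        · exact fO3 a h
        · exact fT3 a h)
      rw [card_union_of_disjoint (dO _ (fun a ha => (nT3 a ha).1)), cT3] at s3
      have w6 : ∀ a : Ω, u • v • u • v • u • v • u • v • u • v • u • v • a = a := fun a => by
        rw [← w3, ← w3, ← mul_smul, ← pow_add, h6, one_smul]
      have no4 : ∀ b, b ∈ P → v • b ∈ P → False := by
        intro b hb hb'
        obtain ⟨⟨_, h2⟩, h3⟩ := (mP _).1 hb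
        obtain ⟨_, h4⟩ := (mP _).1 hb'
        have := w6 (u • b)
        rw [h3, uu, h4, uu, vv, h3, uu] at this
        exact h2 ((smul_left_cancel_iff u).1 this)
      have no4' : ∀ b, b ∈ P' → u • b ∈ P' → False := by
        intro b hb hb'
        obtain ⟨⟨h2, _⟩, h3⟩ := (mP' _).1 hb
        obtain ⟨_, h4⟩ := (mP' _).1 hb'
        have := w6 b
        rw [h3, vv, h4, vv, uu, h3, vv] at this
        exact h2 this
      have no5 : ∀ b b', b ∈ P → b' ∈ P' → v • b = u • b' → False := by
        intro b b' hb hb' e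
        obtain ⟨⟨h1, _⟩, h3⟩ := (mP _).1 hb
        obtain ⟨_, h4⟩ := (mP' _).1 hb'
        have := w6 (u • b)
        rw [h3, uu, e, uu, h4, vv, ← e, vv, h3, uu] at this
        exact h1 this.symm
      have inj : ((P ∪ P') \ T).card ≤ (I \ (P ∪ P')).card := by
        refine card_le_card_of_injOn (fun b => if b ∈ P then v • b else u • b) ?_ ?_
        · intro b hb
          have hb' := mem_sdiff.1 (mem_coe.1 hb)
          refine mem_coe.2 ?_
          by_cases hbP : b ∈ P
          · simp only [if_pos hbP]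
            have hb2 : b ∉ P' := fun h => hb'.2 (mem_inter.2 ⟨hbP, h⟩)
            obtain ⟨⟨h1, h2⟩, _⟩ := (mP _).1 hbP
            refine mem_sdiff.2 ⟨(mI _).2 ⟨fun h => hb2 ((mP' _).2 ⟨⟨h1, h2⟩, h⟩), ?_⟩, fun h => ?_⟩
            · rw [vv]; exact h2.symm
            · rcases mem_union.1 h with h | h
              · exact no4 b hbP h
              · have := ((mP' _).1 h).2
                rw [vv] at this
                exact h1 this
          · simp only [if_neg hbP]
            have hb2 : b ∈ P' := (mem_union.1 hb'.1).resolve_left hbP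
            obtain ⟨⟨h1, h2⟩, _⟩ := (mP' _).1 hb2
            refine mem_sdiff.2 ⟨(mI _).2 ⟨?_, fun h => hbP ((mP _).2 ⟨⟨h1, h2⟩, h⟩)⟩, fun h => ?_⟩
            · rw [uu]; exact h1.symm
            · rcases mem_union.1 h with h | h
              · have := ((mP _).1 h).2
                rw [uu] at this
                exact h2 this
              · exact no4' b hb2 h
        · intro b hb c hc e
          have hb' := (mem_sdiff.1 (mem_coe.1 hb)).1
          have hc' := (mem_sdiff.1 (mem_coe.1 hc)).1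
          by_cases h1 : b ∈ P <;> by_cases h2 : c ∈ P
          · simp only [if_pos h1, if_pos h2] at e
            exact (smul_left_cancel_iff _).1 e
          · simp only [if_pos h1, if_neg h2] at e
            exact (no5 b c h1 ((mem_union.1 hc').resolve_left h2) e).elim
          · simp only [if_neg h1, if_pos h2] at e
            exact (no5 c b h2 ((mem_union.1 hb').resolve_left h1) e.symm).elim
          · simp only [if_neg h1, if_neg h2] at e
            exact (smul_left_cancel_iff _).1 e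
      have e1 := card_sdiff_add_card_eq_card
        (show T ⊆ P ∪ P' from inter_subset_left.trans subset_union_left)
      have e2 := card_sdiff_add_card_eq_card
        (show P ∪ P' ⊆ I from union_subset (filter_subset _ _) (filter_subset _ _))
      omega
  · have s6 := card_fix_le (hm _ h6) (T := (O ∪ (A2 ∪ B2)) ∪ T3) (fun a ha => by
      rcases mem_union.1 ha with h | h
      · rcases mem_union.1 h with h | h
        · exact w62 a (fO2 a h)
        · rcases mem_union.1 h with h | h
          · exact w62 a (fA2 a h)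
          · exact w62 a (fB2 a h)
      · exact w63 a (fT3 a h))
    rw [card_union_of_disjoint, card_union_of_disjoint dOAB, card_union_of_disjoint dAB, cT3] at s6
    · omega
    · rw [disjoint_union_left]
      refine ⟨dO _ (fun a ha => (nT3 a ha).1), ?_⟩
      rw [disjoint_right]
      intro a ha hb
      rcases mem_union.1 hb with h | h
      · exact (nT3 a ha).2.1 h
      · exact (nT3 a ha).2.2 h

theorem invol (h3 : Tr3 (⊤ : Subgroup G) (univ : Finset Ω)) {u : G} (hu : u * u = 1)
    (hm : ∀ g : G, g ≠ 1 → (mv Ω u).card ≤ (mv Ω g).card) (h : 3 ≤ (mv Ω u).card) :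
    Fintype.card Ω ≤ 2 * (mv Ω u).card := by
  by_contra hlt
  set A := mv Ω u with hA
  have hu1 : ∀ a ∈ A, u • a ∈ A ∧ u • a ≠ a := fun a ha => mv_smul ha
  have h2 := tr2_of_tr3 h3 (by omega)
  have key : ∀ g : G, 0 ≤ (cW A u g : ℤ) * (2 * cX A g - A.card) := by
    intro g
    rcases Nat.eq_zero_or_pos (cW A u g) with h0 | h0
    · rw [h0]; simp
    have hB : ∀ a : Ω, a ∈ mv Ω (g⁻¹ * u * g) ↔ g • a ∈ A := fun a => by
      rw [hA, mem_mv, mem_mv, mul_smul, mul_smul, ne_eq, inv_smul_eq_iff]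
    have cB : (mv Ω (g⁻¹ * u * g)).card = A.card := by
      refine card_bij (fun a _ => g • a) (fun a ha => (hB a).1 ha)
        (fun a _ b _ e => (smul_left_cancel_iff _).1 e) (fun b hb => ⟨g⁻¹ • b, ?_, smul_inv_smul _ _⟩)
      rw [hB, smul_inv_smul]; exact hb
    have := dihedral (v := g⁻¹ * u * g) hu (by
      rw [show g⁻¹ * u * g * (g⁻¹ * u * g) = g⁻¹ * (u * u) * g by group, hu]; group) rfl cB hm (by
      obtain ⟨a, ha⟩ := card_pos.1 h0
      obtain ⟨h1, h2, h3⟩ := mem_filter.1 ha
      exact ⟨a, mem_filter.2 ⟨mem_inter.2 ⟨h1, (hB a).2 h2⟩,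
        fix_of_not_mv (fun hc => h3 ((hB _).1 hc))⟩⟩)
    have e : (mv Ω u ∩ mv Ω (g⁻¹ * u * g)).card = cX A g := by
      unfold cX
      congr 1
      ext a
      rw [mem_inter, mem_filter, hB]
    rw [e, ← hA] at this
    exact mul_nonneg (Int.natCast_nonneg _) (by omega)
  have hs := sum_nonneg (s := (univ : Finset G)) (fun g _ => key g)
  have w0 := mW0 h2 hu1
  have w1 := mW1 h3 hu1
  have e : ∑ g : G, (cW A u g : ℤ) * (2 * cX A g - A.card)
      = 2 * ∑ g : G, (cW A u g : ℤ) * (cX A g - 1) + (2 - A.card) * ∑ g : G, (cW A u g : ℤ) := by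
    rw [mul_sum, mul_sum, ← sum_add_distrib]
    exact sum_congr rfl (fun g _ => by ring)
  rw [e] at hs
  have hN : (0 : ℤ) < Fintype.card G := by exact_mod_cast Fintype.card_pos
  set m : ℤ := (A.card : ℤ) with hm'
  set n : ℤ := (Fintype.card Ω : ℤ) with hn'
  have a1 : 3 ≤ m := by omega
  have a2 : 2 * m < n := by omega
  have hpos : 0 ≤ n * (n - 1) * (n - 2) := by
    have : 0 ≤ n - 1 := by omega
    have : 0 ≤ n - 2 := by omega
    have : 0 ≤ n := by omega
    positivity
  have h5 := mul_nonneg hs hpos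
  have e2 : (2 * ∑ g : G, (cW A u g : ℤ) * (cX A g - 1) + (2 - m) * ∑ g : G, (cW A u g : ℤ))
      * (n * (n - 1) * (n - 2)) = - (Fintype.card G * (m ^ 2 * (n - m) * (m - 2) * (n - 2 * m))) := by
    linear_combination 2 * w1 + (2 - m) * (n - 2) * w0
  rw [e2] at h5
  have : 0 < (Fintype.card G : ℤ) * (m ^ 2 * (n - m) * (m - 2) * (n - 2 * m)) := by
    have : 0 < n - m := by omega
    have : 0 < m - 2 := by omega
    have : 0 < n - 2 * m := by omega
    have : 0 < m := by omega
    positivity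
  linarith

end Cfsg.Agent.Pron
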