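import Cfsg.Agent.Pron.CountW

set_option autoImplicit false
set_option linter.unusedSectionVars false

namespace Cfsg.Agent.Pron

open Finset MulAction

open scoped Classical

variable {G : Type} [Group G] [Fintype G] {Ω : Type} [MulAction G Ω] [Fintype Ω]

theorem mv_smul {u : G} {a : Ω} (ha : a ∈ mv Ω u) : u • a ∈ mv Ω u ∧ u • a ≠ a :=
  ⟨mem_mv.2 (fun e => mem_mv.1 ha ((smul_left_cancel_iff u).1 e)), mem_mv.1 ha⟩

theorem fix_of_not_mv {u : G} {a : Ω} (ha : a ∉ mv Ω u) : u • a = a := by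
  by_contra h
  exact ha (mem_mv.2 h)

/-- points entering are as many as points leaving -/
theorem card_enter {A : Finset Ω} {u : G} (hu : ∀ a ∈ A, u • a ∈ A) (P : Ω → Prop) :
    (A.filter (fun a => ¬ P a ∧ P (u • a))).card = (A.filter (fun a => P a ∧ ¬ P (u • a))).card := by
  have h1 : (A.filter (fun a => P (u • a))).card = (A.filter P).card := by
    have himg : A.image (fun a => u • a) = A := by
      apply eq_of_subset_of_card_le
      · intro b hb
        obtain ⟨c, hc, rfl⟩ := mem_image.1 hb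
        exact hu c hc
      · rw [card_image_of_injective _ (MulAction.injective u)]
    refine card_bij (fun a _ => u • a) ?_ ?_ ?_
    · intro a ha
      exact mem_filter.2 ⟨hu a (mem_filter.1 ha).1, (mem_filter.1 ha).2⟩
    · intro a _ b _ e
      exact (smul_left_cancel_iff _).1 e
    · intro b hb
      obtain ⟨hb1, hb2⟩ := mem_filter.1 hb
      rw [← himg] at hb1
      obtain ⟨c, hc, rfl⟩ := mem_image.1 hb1
      exact ⟨c, mem_filter.2 ⟨hc, hb2⟩, rfl⟩
  have h2 := card_filter_add_card_filter_not (s := A.filter (fun a => P (u • a))) P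
  have h3 := card_filter_add_card_filter_not (s := A.filter P) (fun a => P (u • a))
  rw [filter_filter, filter_filter] at h2 h3
  have e1 : (A.filter (fun a => P (u • a) ∧ P a)) = A.filter (fun a => P a ∧ P (u • a)) :=
    filter_congr (fun _ _ => and_comm)
  have e2 : (A.filter (fun a => P (u • a) ∧ ¬ P a)) = A.filter (fun a => ¬ P a ∧ P (u • a)) :=
    filter_congr (fun _ _ => and_comm)
  rw [e1, e2] at h2
  omega

theorem card_enter' {A : Finset Ω} {u : G} (hu : ∀ a ∈ A, u • a ∈ A) (g : G) :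
    (A.filter (fun a => ¬ g • a ∈ A ∧ g • u • a ∈ A)).card = cW A u g := by
  unfold cW
  convert card_enter hu (fun a => g • a ∈ A)

theorem comm_key {A : Finset Ω} {u u' g : G} (hu : mv Ω u = A) (hu' : mv Ω u' = A) {μ : ℕ}
    (hm : ∀ x : G, x ≠ 1 → μ ≤ (mv Ω x).card) (hpos : 0 < cW A u g + cW A u' g⁻¹) :
    μ ≤ cX A g + cW A u g + cW A u' g⁻¹ := by
  set v := g⁻¹ * u' * g with hv
  have hvs : ∀ a : Ω, v • a = g⁻¹ • u' • g • a := fun a => by rw [hv, mul_smul, mul_smul]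
  have ufix : ∀ a, a ∉ A → u • a = a := fun a ha => fix_of_not_mv (hu ▸ ha)
  have umv : ∀ a ∈ A, u • a ∈ A ∧ u • a ≠ a := fun a ha => hu ▸ mv_smul (hu ▸ ha)
  have u'fix : ∀ a, a ∉ A → u' • a = a := fun a ha => fix_of_not_mv (hu' ▸ ha)
  have u'mv : ∀ a ∈ A, u' • a ∈ A ∧ u' • a ≠ a := fun a ha => hu' ▸ mv_smul (hu' ▸ ha)
  have vfix : ∀ a, g • a ∉ A → v • a = a := fun a ha => by rw [hvs, u'fix _ ha, inv_smul_smul]
  have vmv : ∀ a, g • a ∈ A → v • a ≠ a := fun a ha e => by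
    rw [hvs, inv_smul_eq_iff] at e
    exact (u'mv _ ha).2 e
  have hne : (u * v)⁻¹ * (v * u) ≠ 1 := by
    intro e
    have e' : ∀ a : Ω, u • v • a = v • u • a := fun a => by
      rw [← mul_smul, ← mul_smul, inv_mul_eq_one.1 e]
    rcases Nat.add_pos_iff_pos_or_pos.1 hpos with h | h
    · obtain ⟨a, ha⟩ := card_pos.1 h
      obtain ⟨_, h2, h3⟩ := mem_filter.1 ha
      have := e' a
      rw [vfix _ h3] at this
      exact vmv a h2 ((smul_left_cancel_iff u).1 this)
    · obtain ⟨a, ha⟩ := card_pos.1 h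
      obtain ⟨h1, h2, h3⟩ := mem_filter.1 ha
      have := e' (g⁻¹ • a)
      have e3 : v • g⁻¹ • a = g⁻¹ • u' • a := by rw [hvs, smul_inv_smul]
      rw [e3, ufix _ h3, ← e3] at this
      exact (umv _ h2).2 ((smul_left_cancel_iff v).1 this).symm
  refine (hm _ hne).trans ?_
  have c1 := card_enter' (fun a ha => (umv a ha).1) g
  have c2 := card_enter' (fun a ha => (u'mv a ha).1) g⁻¹
  have hsub : mv Ω ((u * v)⁻¹ * (v * u)) ⊆ (A.filter (fun a => g • a ∈ A) ∪
      A.filter (fun a => ¬ g • a ∈ A ∧ g • u • a ∈ A)) ∪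
      (A.filter (fun a => ¬ g⁻¹ • a ∈ A ∧ g⁻¹ • u' • a ∈ A)).image (fun a => g⁻¹ • a) := by
    intro a ha
    rw [mem_mv, mul_smul, ne_eq, inv_smul_eq_iff, mul_smul v u, mul_smul u v] at ha
    by_contra hc
    simp only [mem_union, mem_filter, mem_image, not_or, not_and, not_exists] at hc
    obtain ⟨⟨h1, h2⟩, h3⟩ := hc
    apply ha
    by_cases hA : a ∈ A
    · rw [vfix a (h1 hA), vfix _ (h2 hA (h1 hA))]
    · rw [ufix a hA]
      by_cases hB : g • a ∈ A
      · rw [ufix]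
        intro h4
        refine h3 (g • a) ⟨hB, by rw [inv_smul_smul]; exact hA, by rw [← hvs]; exact h4⟩
          (inv_smul_smul _ _)
      · rw [vfix a hB, ufix a hA]
  refine (card_le_card hsub).trans ((card_union_le _ _).trans ?_)
  have d1 := card_union_le (A.filter (fun a => g • a ∈ A))
    (A.filter (fun a => ¬ g • a ∈ A ∧ g • u • a ∈ A))
  have d2 := card_image_le (s := A.filter (fun a => ¬ g⁻¹ • a ∈ A ∧ g⁻¹ • u' • a ∈ A))
    (f := fun a => g⁻¹ • a)
  unfold cX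
  omega

theorem sum_inv_eq (F : G → ℤ) : ∑ g : G, F g⁻¹ = ∑ g : G, F g :=
  Equiv.sum_comp (Equiv.inv G) F

/-- elements of `K` preserving `g⁻¹ S` -/
def Kp (K : Subgroup G) (S : Finset Ω) (g : G) : Subgroup G where
  carrier := {u | u ∈ K ∧ ∀ a, g • u • a ∈ S ↔ g • a ∈ S}
  one_mem' := ⟨K.one_mem, fun a => by rw [one_smul]⟩
  mul_mem' := by
    rintro x y ⟨hx, hx'⟩ ⟨hy, hy'⟩
    exact ⟨K.mul_mem hx hy, fun a => by rw [mul_smul, hx', hy']⟩
  inv_mem' := by
    rintro x ⟨hx, hx'⟩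
    exact ⟨K.inv_mem hx, fun a => by rw [← hx', smul_inv_smul]⟩

theorem mem_Kp_of {K : Subgroup G} {S : Finset Ω} {g u : G} (hK : u ∈ K) (hu : mv Ω u = S)
    (h0 : cW S u g = 0) : u ∈ Kp K S g := by
  have umv : ∀ a ∈ S, u • a ∈ S := fun a ha => hu ▸ (mv_smul (hu ▸ ha)).1
  have c1 := card_enter' umv g
  have h1 : (S.filter (fun a => g • a ∈ S ∧ g • u • a ∉ S)).card = 0 := h0
  rw [h0] at c1
  rw [card_eq_zero, filter_eq_empty_iff] at h1 c1
  refine ⟨hK, fun a => ?_⟩
  by_cases ha : a ∈ S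
  · have := h1 ha
    have := c1 ha
    tauto
  · rw [fix_of_not_mv (hu ▸ ha : a ∉ mv Ω u)]

theorem cW_eq_zero {K : Subgroup G} {S : Finset Ω} {g u : G} (h : u ∈ Kp K S g) :
    cW S u g = 0 := by
  unfold cW
  rw [card_eq_zero, filter_eq_empty_iff]
  intro a _ hc
  exact hc.2 ((h.2 a).2 hc.1)

theorem half_out {K L : Subgroup G} (hL : L ≤ K) (hne : L ≠ K) :
    (univ.filter (fun u : G => u ∈ K)).card
      ≤ 2 * (univ.filter (fun u : G => u ∈ K ∧ u ∉ L)).card := by
  obtain ⟨y, hyK, hyL⟩ := SetLike.exists_of_lt (lt_of_le_of_ne hL hne)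
  have h1 := card_filter_add_card_filter_not (s := univ.filter (fun u : G => u ∈ K)) (fun u => u ∈ L)
  rw [filter_filter, filter_filter] at h1
  have h2 : (univ.filter (fun u : G => u ∈ K ∧ u ∈ L)).card
      ≤ (univ.filter (fun u : G => u ∈ K ∧ u ∉ L)).card := by
    refine card_le_card_of_injOn (fun u => y * u) ?_ (fun _ _ _ _ e => mul_left_cancel e)
    intro u hu
    have hu' := (mem_filter.1 (mem_coe.1 hu)).2
    refine mem_coe.2 (mem_filter.2 ⟨mem_univ _, K.mul_mem hyK hu'.1, fun hc => hyL ?_⟩)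
    have := L.mul_mem hc (L.inv_mem hu'.2)
    rwa [mul_inv_cancel_right] at this
  omega

theorem j0 [FaithfulSMul G Ω] (h3 : Tr3 (⊤ : Subgroup G) (univ : Finset Ω)) {K : Subgroup G}
    (hp : Pro ⊤ K) (hne : (Sp K (univ : Finset Ω)).Nonempty)
    (hn : Fintype.card Ω = 2 * (Sp K (univ : Finset Ω)).card)
    (hm : ∀ g : G, g ≠ 1 → (Sp K (univ : Finset Ω)).card ≤ (mv Ω g).card) : False := by
  have hi : Inv (⊤ : Subgroup G) (univ : Finset Ω) := fun _ _ _ _ => mem_univ _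
  have hf2 := two_le_Sp hp.le hi hne
  set S := Sp K (univ : Finset Ω) with hS
  have memS : ∀ a, a ∈ S ↔ ¬ IsFx K a := fun a => by rw [hS, mem_Sp]; simp
  set K1 : Finset G := univ.filter (fun u => u ∈ K ∧ u ≠ 1) with hK1
  have hmv : ∀ u ∈ K, u ≠ 1 → mv Ω u = S := by
    intro u hu h1
    refine eq_of_subset_of_card_le (fun a ha => (memS a).2 (fun h => mem_mv.1 ha (h u hu))) (hm u h1)
  have hK1c : K1.card + 1 = (univ.filter (fun u : G => u ∈ K)).card := by
    rw [← card_erase_add_one (a := (1 : G)) (s := univ.filter (fun u : G => u ∈ K)) (by simp)]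
    congr 2
    ext u
    simp [hK1, and_comm]
  have hK1pos : 0 < K1.card := by
    obtain ⟨a, ha⟩ := hne
    have := (memS a).1 ha
    unfold IsFx at this
    push Not at this
    obtain ⟨k, hk, hka⟩ := this
    exact card_pos.2 ⟨k, mem_filter.2 ⟨mem_univ _, hk, fun e => hka (by rw [e, one_smul])⟩⟩
  have hXle : ∀ g : G, cX S g ≤ S.card := fun g => card_filter_le _ _
  have hprop : ∀ g : G, cX S g < S.card → Kp K S g ≠ K := by
    intro g hlt e
    have := hp.fixB hi (Subgroup.mem_top g⁻¹) (by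
      intro k hk a _ h
      rw [inv_inv] at h ⊢
      have hk' : k ∈ Kp K S g := e.symm ▸ hk
      by_contra hc
      exact (memS _).1 ((hk'.2 a).1 ((memS _).2 hc)) h)
    have e2 : S.filter (fun a => g • a ∈ S) = S := by
      rw [filter_eq_self]
      intro a ha
      have h1 := this a (mem_univ _)
      rw [inv_inv] at h1
      exact (memS _).2 (fun h => (memS a).1 ha (h1.1 h))
    unfold cX at hlt
    rw [e2] at hlt
    exact lt_irrefl _ hlt
  let P : G → ℕ := fun g => ∑ u ∈ K1, cW S u g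
  -- one half of the estimate
  have half : ∀ g : G, cX S g < S.card → ∀ u₀ ∈ K1, cW S u₀ g = 0 →
      (K1.card + 1) * (S.card - cX S g) ≤ 2 * P g⁻¹ := by
    intro g hlt u₀ hu₀ h0
    obtain ⟨_, hu₀K, hu₀1⟩ := mem_filter.1 hu₀
    have h1 := half_out (K := K) (L := Kp K S g⁻¹) (fun _ h => h.1) (hprop g⁻¹ (by rwa [cX_inv]))
    have h2 : (univ.filter (fun u : G => u ∈ K ∧ u ∉ Kp K S g⁻¹)).card * (S.card - cX S g) ≤ P g⁻¹ := by
      rw [← smul_eq_mul, ← sum_const]
      refine (sum_le_sum (g := fun u => cW S u g⁻¹) ?_).trans (sum_le_sum_of_subset ?_)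
      · intro u hu
        obtain ⟨_, huK, huL⟩ := mem_filter.1 hu
        have hu1 : u ≠ 1 := fun e => huL (e ▸ (Kp K S g⁻¹).one_mem)
        have hpos : 0 < cW S u g⁻¹ :=
          Nat.pos_of_ne_zero (fun e => huL (mem_Kp_of huK (hmv u huK hu1) e))
        have := comm_key (g := g) (hmv u₀ hu₀K hu₀1) (hmv u huK hu1) hm (by omega)
        show S.card - cX S g ≤ cW S u g⁻¹
        omega
      · intro u hu
        obtain ⟨_, huK, huL⟩ := mem_filter.1 hu
        exact mem_filter.2 ⟨mem_univ _, huK, fun e => huL (e ▸ (Kp K S g⁻¹).one_mem)⟩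
    rw [hK1c]
    nlinarith [Nat.zero_le (S.card - cX S g)]
  have hT : ∀ g : G, K1.card * (S.card - cX S g) ≤ P g + P g⁻¹ := by
    intro g
    rcases (hXle g).eq_or_lt with e | hlt
    · rw [e]; simp
    by_cases hc : (∃ u ∈ K1, cW S u g = 0) ∧ (∃ u ∈ K1, cW S u g⁻¹ = 0)
    · obtain ⟨⟨u, hu, h0⟩, ⟨u', hu', h0'⟩⟩ := hc
      have a1 := half g hlt u hu h0
      have a2 := half g⁻¹ (by rwa [cX_inv]) u' hu' h0'
      rw [inv_inv, cX_inv] at a2
      nlinarith [Nat.zero_le (S.card - cX S g)]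
    · rw [← sum_add_distrib, ← smul_eq_mul, ← sum_const]
      refine sum_le_sum (fun u hu => ?_)
      obtain ⟨_, huK, hu1⟩ := mem_filter.1 hu
      have hpos : 0 < cW S u g + cW S u g⁻¹ := by
        by_contra h
        exact hc ⟨⟨u, hu, by omega⟩, ⟨u, hu, by omega⟩⟩
      have := comm_key (g := g) (hmv u huK hu1) (hmv u huK hu1) hm hpos
      omega
  have hT0 : ∀ g : G, cX S g = S.card → P g = 0 := by
    intro g e
    refine sum_eq_zero (fun u hu => ?_)
    obtain ⟨_, huK, hu1⟩ := mem_filter.1 hu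
    have := cW_add_cX_le S (u := u) (fun a ha => hmv u huK hu1 ▸ (mv_smul (hmv u huK hu1 ▸ ha)).1) g
    omega
  -- termwise inequality
  have hterm : ∀ g : G, 0 ≤ ((P g : ℤ) + P g⁻¹ - K1.card * ((S.card : ℤ) - cX S g))
      * ((S.card : ℤ) - cX S g - 1) := by
    intro g
    rcases (hXle g).eq_or_lt with e | hlt
    · rw [hT0 g e, hT0 g⁻¹ (by rwa [cX_inv]), e]; simp
    · have h1 := hT g
      have h2 : ((S.card - cX S g : ℕ) : ℤ) = (S.card : ℤ) - cX S g := by omega
      have h1' : (K1.card : ℤ) * ((S.card : ℤ) - cX S g) ≤ P g + P g⁻¹ := by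
        rw [← h2]; exact_mod_cast h1
      exact mul_nonneg (by linarith) (by omega)
  have hsum := sum_nonneg (s := (univ : Finset G)) (fun g _ => hterm g)
  have h2 := tr2_of_tr3 h3 (by omega)
  have x1 := mX1 (orb_of_tr2 h2) S
  have x2 := mX2 h2 S
  set f : ℤ := (S.card : ℤ) with hf
  set N : ℤ := (Fintype.card G : ℤ) with hN
  have hNpos : 0 < N := by rw [hN]; exact_mod_cast Fintype.card_pos
  have hf2' : 2 ≤ f := by rw [hf]; exact_mod_cast hf2
  have hnZ : (Fintype.card Ω : ℤ) = 2 * f := by rw [hf]; exact_mod_cast hn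
  rw [hnZ] at x1 x2
  have hW : ∀ u ∈ K1, (∑ g : G, (cW S u g : ℤ) * (f - cX S g - 1)) * (2 * f * (2 * f - 1) * (2 * f - 2))
      = N * f ^ 3 * (f - 2) * (f - 1) := by
    intro u hu
    obtain ⟨_, huK, hu1⟩ := mem_filter.1 hu
    have hu' : ∀ a ∈ S, u • a ∈ S ∧ u • a ≠ a := fun a ha => hmv u huK hu1 ▸ mv_smul (hmv u huK hu1 ▸ ha)
    have w0 := mW0 h2 hu'
    have w1 := mW1 h3 hu'
    rw [hnZ, ← hf, ← hN] at w0 w1
    have e : ∑ g : G, (cW S u g : ℤ) * (f - cX S g - 1)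
        = (f - 2) * ∑ g : G, (cW S u g : ℤ) - ∑ g : G, (cW S u g : ℤ) * (cX S g - 1) := by
      rw [mul_sum, ← sum_sub_distrib]
      exact sum_congr rfl (fun g _ => by ring)
    rw [e]
    linear_combination (f - 2) * (2 * f - 2) * w0 - w1
  have hP : (∑ g : G, (P g : ℤ) * (f - cX S g - 1)) * (2 * f * (2 * f - 1) * (2 * f - 2))
      = K1.card * (N * f ^ 3 * (f - 2) * (f - 1)) := by
    have : ∀ g : G, (P g : ℤ) * (f - cX S g - 1) = ∑ u ∈ K1, (cW S u g : ℤ) * (f - cX S g - 1) := by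
      intro g
      rw [← sum_mul]; simp [P]
    rw [sum_congr rfl (fun g _ => this g), sum_comm, sum_mul, sum_congr rfl hW, sum_const,
      nsmul_eq_mul]
  have hP' : ∑ g : G, (P g⁻¹ : ℤ) * (f - cX S g - 1) = ∑ g : G, (P g : ℤ) * (f - cX S g - 1) := by
    rw [← sum_inv_eq (fun g => (P g : ℤ) * (f - cX S g - 1))]
    simp only [cX_inv]
  have e : ∑ g : G, ((P g : ℤ) + P g⁻¹ - K1.card * (f - cX S g)) * (f - cX S g - 1)
      = ∑ g : G, (P g : ℤ) * (f - cX S g - 1) + ∑ g : G, (P g⁻¹ : ℤ) * (f - cX S g - 1)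
        - K1.card * (∑ g : G, (cX S g : ℤ) * (cX S g - 1) - (2 * f - 2) * ∑ g : G, (cX S g : ℤ)
          + ∑ _g : G, f * (f - 1)) := by
    rw [mul_sum, ← sum_sub_distrib, ← sum_add_distrib, ← sum_add_distrib, mul_sum, ← sum_sub_distrib]
    exact sum_congr rfl (fun g _ => by ring)
  rw [e, hP', sum_const, card_univ, nsmul_eq_mul, ← hN] at hsum
  have hk : (0 : ℤ) < K1.card := by exact_mod_cast hK1pos
  have hpos : 0 < 2 * f * (2 * f - 1) * (2 * f - 2) := by
    have : 0 < 2 * f - 1 := by omega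
    have : 0 < 2 * f - 2 := by omega
    positivity
  have hfin := mul_nonneg hsum hpos.le
  have e2 : (∑ g : G, (P g : ℤ) * (f - cX S g - 1) + ∑ g : G, (P g : ℤ) * (f - cX S g - 1)
        - K1.card * (∑ g : G, (cX S g : ℤ) * (cX S g - 1) - (2 * f - 2) * ∑ g : G, (cX S g : ℤ)
          + N * (f * (f - 1)))) * (2 * f * (2 * f - 1) * (2 * f - 2))
      = - (K1.card * (N * (2 * f ^ 2 * (f - 1)))) := by
    linear_combination 2 * hP - K1.card * (2 * f - 2) * x2
      + K1.card * (2 * f - 2) ^ 2 * (2 * f - 1) * x1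
  rw [e2] at hfin
  have : 0 < (K1.card : ℤ) * (N * (2 * f ^ 2 * (f - 1))) := by
    have : 0 < f - 1 := by omega
    positivity
  linarith

end Cfsg.Agent.Pron
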