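import Cfsg.Agent.Pron.Defs

set_option autoImplicit false

namespace Cfsg.Agent.Pron

open Finset MulAction

open scoped Classical

variable {G : Type} [Group G] [Finite G] {Ω : Type} [MulAction G Ω]

/-- The orbital graph of a suborbit. -/
private def rkR (H : Subgroup G) (α : Ω) (Γ : Finset Ω) (a b : Ω) : Prop :=
  ∃ h ∈ H, h • α = a ∧ h⁻¹ • b ∈ Γ

section
omit [Finite G]
variable {H : Subgroup G} {Δ Γ Γ' : Finset Ω} {α a b c : Ω} {h : G}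

private theorem rkR_smul (hh : h ∈ H) (r : rkR H α Γ a b) : rkR H α Γ (h • a) (h • b) := by
  obtain ⟨k, hk, rfl, r⟩ := r
  exact ⟨h * k, H.mul_mem hh hk, mul_smul _ _ _, by rwa [mul_inv_rev, mul_smul, inv_smul_smul]⟩

private theorem rkR_iff (o : Orb (St H α) Γ) (hh : h ∈ H) : rkR H α Γ (h • α) b ↔ h⁻¹ • b ∈ Γ := by
  refine ⟨fun ⟨k, hk, e, r⟩ => ?_, fun r => ⟨h, hh, rfl, r⟩⟩
  simpa [mul_smul] using o.inv (h⁻¹ * k) (mem_St.2 ⟨H.mul_mem (H.inv_mem hh) hk, by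
    rw [mul_smul, e, inv_smul_smul]⟩) _ r

private theorem rkR_base (o : Orb (St H α) Γ) : rkR H α Γ α b ↔ b ∈ Γ := by
  simpa using rkR_iff (b := b) o H.one_mem

private theorem rkR_tr (o : Orb (St H α) Γ) {a' b' : Ω} (r : rkR H α Γ a b) (r' : rkR H α Γ a' b') :
    ∃ h ∈ H, h • a = a' ∧ h • b = b' := by
  obtain ⟨k, hk, rfl, r⟩ := r
  obtain ⟨k', hk', rfl, r'⟩ := r'
  obtain ⟨x, hx, e⟩ := o.tr _ r _ r'
  exact ⟨k' * x * k⁻¹, H.mul_mem (H.mul_mem hk' hx.1) (H.inv_mem hk), by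
    rw [mul_smul, inv_smul_smul, mul_smul, show x • α = α from hx.2], by rw [mul_smul, mul_smul, e, smul_inv_smul]⟩

/-- The colour of the pairs inside a neighbourhood is constant. -/
private theorem rkR_nb (t : Tr2 (St H α) Γ) {β β' : Ω} (hβ : β ∈ Γ) (hβ' : β' ∈ Γ) (ne : β ≠ β')
    (r : rkR H α Γ' β β') (r1 : rkR H α Γ a b) (o : Orb (St H α) Γ) (r2 : rkR H α Γ a c) (bc : b ≠ c) :
    rkR H α Γ' b c := by
  obtain ⟨k, hk, rfl, r1⟩ := r1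
  obtain ⟨x, hx, e1, e2⟩ := t _ hβ _ hβ' _ r1 _ ((rkR_iff o hk).1 r2) ne fun e => bc (smul_left_cancel _ e)
  simpa [e1, e2] using rkR_smul hk (rkR_smul hx.1 r)

end

private theorem rk_aux {H : Subgroup G} {Δ Γ₁ Γ₂ : Finset Ω} {α : Ω} (ho : Orb H Δ) (hα : α ∈ Δ)
    (hu : Δ.erase α = Γ₁ ∪ Γ₂) (hd : Disjoint Γ₁ Γ₂)
    (o1 : Orb (St H α) Γ₁) (o2 : Orb (St H α) Γ₂) (t1 : Tr2 (St H α) Γ₁) (t2 : Tr2 (St H α) Γ₂)
    (c1 : Odd Γ₁.card) (c2 : Odd Γ₂.card) (l1 : 3 ≤ Γ₁.card) {β β' : Ω}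
    (hβ : β ∈ Γ₁) (hβ' : β' ∈ Γ₁) (ne : β ≠ β') (r : rkR H α Γ₁ β β') : False := by
  have m1 : ∀ {Γ : Finset Ω}, Γ ⊆ Δ.erase α → ∀ {a b}, rkR H α Γ a b → b ∈ Δ ∧ b ≠ a := by
    rintro Γ s _ b ⟨k, hk, rfl, r⟩
    exact ⟨by simpa using ho.inv k hk _ (mem_erase.1 (s r)).2, fun e => (mem_erase.1 (s r)).1 (by simp [e])⟩
  have s1 : Γ₁ ⊆ Δ.erase α := hu ▸ subset_union_left
  have s2 : Γ₂ ⊆ Δ.erase α := hu ▸ subset_union_right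
  have sy : ∀ {a b}, rkR H α Γ₁ a b → rkR H α Γ₁ b a := fun r1 => by
    obtain ⟨h, hh, rfl, rfl⟩ := rkR_tr o1 r r1
    obtain ⟨x, hx, e1, e2⟩ := t1 _ hβ _ hβ' _ hβ' _ hβ ne ne.symm
    simpa [e1, e2] using rkR_smul hh (rkR_smul hx.1 r)
  have tr : ∀ {a b c}, rkR H α Γ₁ a b → rkR H α Γ₁ a c → b ≠ c → rkR H α Γ₁ b c :=
    fun r1 r2 => rkR_nb t1 hβ hβ' ne r r1 o1 r2
  obtain ⟨γ, hγ⟩ := card_pos.1 c2.pos
  obtain ⟨h, hh, rfl⟩ := ho.tr α hα γ (mem_erase.1 (s2 hγ)).2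
  have n1 : ¬ rkR H α Γ₁ α (h • α) := fun e => disjoint_left.1 hd ((rkR_base o1).1 e) hγ
  have k1 : ∀ b, rkR H α Γ₁ (h • α) b → b ∈ Γ₂ := fun b r1 => by
    have ba : b ≠ α := fun e => n1 (sy (e ▸ r1))
    refine (mem_union.1 (hu ▸ mem_erase.2 ⟨ba, (m1 s1 r1).1⟩)).resolve_left fun e => n1 ?_
    exact tr (sy ((rkR_base o1).2 e)) (sy r1) (mem_erase.1 (s2 hγ)).1.symm
  have k2 : Γ₂.erase (h • α) = Γ₁.image (h • ·) := by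
    ext b
    rw [mem_erase, mem_image]
    refine ⟨fun ⟨b1, b2⟩ => ⟨h⁻¹ • b, (rkR_iff o1 hh).1 ?_, smul_inv_smul h b⟩, ?_⟩
    · have r1 : rkR H α Γ₁ (h • α) (h • β) := (rkR_iff o1 hh).2 (by simpa using hβ)
      exact rkR_nb t2 hγ (k1 _ r1) (m1 s1 r1).2.symm r1 ((rkR_base o2).2 hγ) o2 ((rkR_base o2).2 b2) b1.symm
    · rintro ⟨b, hb, rfl⟩
      have r1 : rkR H α Γ₁ (h • α) (h • b) := (rkR_iff o1 hh).2 (by simpa using hb)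
      exact ⟨(m1 s1 r1).2, k1 _ r1⟩
  have := congrArg card k2
  rw [card_erase_of_mem hγ, card_image_of_injective _ fun _ _ => smul_left_cancel h] at this
  obtain ⟨i, hi⟩ := c1
  obtain ⟨j, hj⟩ := c2
  omega

theorem rank3 {H : Subgroup G} {Δ Γ₁ Γ₂ : Finset Ω} {α : Ω} (ho : Orb H Δ) (hα : α ∈ Δ)
    (hu : Δ.erase α = Γ₁ ∪ Γ₂) (hd : Disjoint Γ₁ Γ₂)
    (o1 : Orb (St H α) Γ₁) (o2 : Orb (St H α) Γ₂) (t1 : Tr2 (St H α) Γ₁) (t2 : Tr2 (St H α) Γ₂)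
    (c1 : Odd Γ₁.card) (c2 : Odd Γ₂.card) (l1 : 3 ≤ Γ₁.card) (l2 : 3 ≤ Γ₂.card) : False := by
  have col : ∀ a ∈ Δ.erase α, ∀ b ∈ Δ.erase α, a ≠ b → rkR H α Γ₁ a b ∨ rkR H α Γ₂ a b := fun a ha b hb ab => by
    obtain ⟨h, hh, rfl⟩ := ho.tr α hα a (mem_erase.1 ha).2
    rw [rkR_iff o1 hh, rkR_iff o2 hh, ← mem_union, ← hu, mem_erase]
    exact ⟨fun e => ab (by rw [← e, smul_inv_smul]), ho.inv _ (H.inv_mem hh) _ (mem_erase.1 hb).2⟩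
  have s1 : Γ₁ ⊆ Δ.erase α := hu ▸ subset_union_left
  have s2 : Γ₂ ⊆ Δ.erase α := hu ▸ subset_union_right
  obtain ⟨a, ha, b, hb, c, hc, ab, ac, bc⟩ := two_lt_card.1 l1
  obtain ⟨a', ha', b', hb', ab'⟩ := one_lt_card.1 (show 1 < Γ₂.card by omega)
  have k : ∀ x ∈ Γ₁, ∀ y ∈ Γ₁, x ≠ y → rkR H α Γ₂ x y := fun x hx y hy xy =>
    (col x (s1 hx) y (s1 hy) xy).resolve_left (rk_aux ho hα hu hd o1 o2 t1 t2 c1 c2 l1 hx hy xy)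
  exact rk_aux ho hα hu hd o1 o2 t1 t2 c1 c2 l1 hb hc bc (rkR_nb t2 ha' hb' ab' ((col _ (s2 ha') _ (s2 hb') ab').resolve_right
    (rk_aux ho hα (hu.trans (union_comm _ _)) hd.symm o2 o1 t2 t1 c2 c1 l2 ha' hb' ab')) (k a ha b hb ab) o2
      (k a ha c hc ac) bc)

/-- `d` is fixed by the stabiliser of `a`, `b`, `c`. -/
private def sqQ (H : Subgroup G) (a b c d : Ω) : Prop :=
  ∀ h ∈ H, h • a = a → h • b = b → h • c = c → h • d = d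

omit [Finite G] in
private theorem sqQ_smul {H : Subgroup G} {a b c d : Ω} {x : G} (hx : x ∈ H) (q : sqQ H a b c d) :
    sqQ H (x • a) (x • b) (x • c) (x • d) := fun h hh e1 e2 e3 => by
  have k : ∀ y : Ω, (x⁻¹ * h * x) • y = y ↔ h • x • y = x • y := fun y => by
    rw [mul_smul, mul_smul, inv_smul_eq_iff]
  exact (k d).1 (q _ (H.mul_mem (H.mul_mem (H.inv_mem hx) hh) hx) ((k a).2 e1) ((k b).2 e2) ((k c).2 e3))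

private theorem sqQ_ex {H : Subgroup G} {Δ : Finset Ω} (h3 : Tr3 H Δ) {a b c d : Ω} (ha : a ∈ Δ) (hb : b ∈ Δ)
    (hc : c ∈ Δ) (hd : d ∈ Δ) (ab : a ≠ b) (ac : a ≠ c) (bc : b ≠ c) (ad : a ≠ d) (bd : b ≠ d)
    (q : sqQ H a b c d) : sqQ H a b d c := by
  obtain ⟨x, hx, e1, e2, e3⟩ := h3 a ha b hb c hc a ha b hb d hd ab ac bc ab ad bd
  have k : ∀ (h : G) (y : Ω), (x⁻¹ * h * x) • y = y ↔ h • x • y = x • y := fun h y => by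
    rw [mul_smul, mul_smul, inv_smul_eq_iff]
  have := Set.eq_of_subset_of_ncard_le (s := {h | h ∈ H ∧ h • a = a ∧ h • b = b ∧ h • c = c})
    (t := {h | h ∈ H ∧ h • a = a ∧ h • b = b ∧ h • d = d})
    (fun h hh => ⟨hh.1, hh.2.1, hh.2.2.1, q h hh.1 hh.2.1 hh.2.2.1 hh.2.2.2⟩)
    (Set.ncard_le_ncard_of_injOn (fun h => x⁻¹ * h * x) (fun h hh =>
      ⟨H.mul_mem (H.mul_mem (H.inv_mem hx) hh.1) hx, (k h a).2 (e1.symm ▸ hh.2.1), (k h b).2 (e2.symm ▸ hh.2.2.1),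
        (k h c).2 (e3.symm ▸ hh.2.2.2)⟩) fun _ _ _ _ e => mul_left_cancel (mul_right_cancel e))
  exact fun h hh e1 e2 e3 => (this.ge ⟨hh, e1, e2, e3⟩).2.2.2

theorem sqs {H : Subgroup G} {Δ : Finset Ω} (hi : Inv H Δ) (h3 : Tr3 H Δ) {α β γ δ : Ω}
    (hα : α ∈ Δ) (hβ : β ∈ Δ) (hγ : γ ∈ Δ) (hδ : δ ∈ Δ) (d1 : α ≠ β) (d2 : α ≠ γ) (d3 : β ≠ γ)
    (d4 : δ ≠ α) (d5 : δ ≠ β) (d6 : δ ≠ γ)
    (hf : ∀ h ∈ H, h • α = α → h • β = β → h • γ = γ → h • δ = δ)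
    (hu : ∀ z ∈ Δ, (∀ h ∈ H, h • α = α → h • β = β → h • γ = γ → h • z = z) →
      z = α ∨ z = β ∨ z = γ ∨ z = δ)
    {g : G} (hg : g ∈ H) (hm : ∃ a ∈ Δ, g • a ≠ a) :
    Δ.card ≤ 2 * (Δ.filter (fun a => g • a ≠ a)).card := by
  have ex : ∀ a ∈ Δ, ∀ b ∈ Δ, ∀ c ∈ Δ, a ≠ b → a ≠ c → b ≠ c → ∃ d ∈ Δ, (d ≠ a ∧ d ≠ b ∧ d ≠ c) ∧ sqQ H a b c d ∧
      ∀ z ∈ Δ, sqQ H a b c z → z = a ∨ z = b ∨ z = c ∨ z = d := fun a ha b hb c hc ab ac bc => by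
    obtain ⟨x, hx, rfl, rfl, rfl⟩ := h3 α hα β hβ γ hγ a ha b hb c hc d1 d2 d3 ab ac bc
    refine ⟨x • δ, hi x hx δ hδ, by simpa using ⟨d4, d5, d6⟩, sqQ_smul hx hf, fun z hz q => ?_⟩
    simpa [inv_smul_eq_iff] using hu _ (hi _ (H.inv_mem hx) z hz) (by simpa only [inv_smul_smul, sqQ] using sqQ_smul (H.inv_mem hx) q)
  obtain ⟨s, hs, gs⟩ := hm
  have e1 := card_filter_add_card_filter_not (s := Δ) (fun a => g • a ≠ a)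
  rcases (Δ.filter (fun a => ¬ g • a ≠ a)).eq_empty_or_nonempty with e | ⟨a, ha⟩
  · rw [e, card_empty] at e1; omega
  have hY : ∀ {b}, b ∈ (Δ.filter (fun a => ¬ g • a ≠ a)) → b ∈ Δ ∧ g • b = b ∧ b ≠ s := fun hb =>
    ⟨(mem_filter.1 hb).1, not_not.1 (mem_filter.1 hb).2, fun e => (mem_filter.1 hb).2 (e ▸ gs)⟩
  obtain ⟨a1, a2, a3⟩ := hY ha
  have ex' : ∀ b, ∃ d, b ∈ (Δ.filter (fun a => ¬ g • a ≠ a)).erase a →
      d ∈ Δ ∧ (d ≠ a ∧ d ≠ b ∧ d ≠ s) ∧ sqQ H a b s d := fun b => by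
    by_cases hb : b ∈ (Δ.filter (fun a => ¬ g • a ≠ a)).erase a
    · obtain ⟨b0, hb⟩ := mem_erase.1 hb
      obtain ⟨d, k1, k2, k3, -⟩ := ex a a1 b (hY hb).1 s hs b0.symm a3 (hY hb).2.2
      exact ⟨d, fun _ => ⟨k1, k2, k3⟩⟩
    · exact ⟨a, fun h => absurd h hb⟩
  choose q hq using ex'
  have := card_le_card_of_injOn (t := (Δ.filter (fun a => g • a ≠ a)).erase s) q (fun b hb => by
    obtain ⟨k1, ⟨k2, k3, k4⟩, k5⟩ := hq b hb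
    obtain ⟨b0, hb⟩ := mem_erase.1 hb
    exact mem_coe.2 (mem_erase.2 ⟨k4, mem_filter.2 ⟨k1, fun e => gs (sqQ_ex h3 a1 (hY hb).1 hs k1 b0.symm a3
      (hY hb).2.2 k2.symm k3.symm k5 g hg a2 (hY hb).2.1 e)⟩⟩)) fun b hb b' hb' e => by
    have k : ∀ b (hb : b ∈ (Δ.filter (fun a => ¬ g • a ≠ a)).erase a), sqQ H a s (q b) b := fun b hb => by
      obtain ⟨k1, ⟨k2, k3, k4⟩, k5⟩ := hq b hb
      obtain ⟨b0, hb⟩ := mem_erase.1 hb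
      exact sqQ_ex h3 a1 hs (hY hb).1 k1 a3 b0.symm (hY hb).2.2.symm k2.symm k4.symm
        fun h hh e1 e2 e3 => k5 h hh e1 e3 e2
    obtain ⟨k1, ⟨k2, k3, k4⟩, -⟩ := hq b hb
    obtain ⟨d, -, -, -, k5⟩ := ex a a1 s hs (q b) k1 a3 k2.symm k4.symm
    have k6 : ∀ c (hc : c ∈ (Δ.filter (fun a => ¬ g • a ≠ a)).erase a), q c = q b → c = d := fun c hc e => by
      have c1 := mem_erase.1 hc
      exact (((k5 c (hY c1.2).1 (e ▸ k c hc)).resolve_left c1.1).resolve_left (hY c1.2).2.2).resolve_left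
        (e ▸ (hq c hc).2.1.2.1.symm)
    exact (k6 b hb rfl).trans (k6 b' hb' e.symm).symm
  have hs' : s ∈ Δ.filter (fun a => g • a ≠ a) := mem_filter.2 ⟨hs, gs⟩
  rw [card_erase_of_mem ha, card_erase_of_mem hs'] at this
  have := card_pos.2 ⟨s, hs'⟩
  omega

end Cfsg.Agent.Pron
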