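import Cfsg.Agent.Pron.Block
import Cfsg.Agent.Pron.Rank3
import Cfsg.Agent.Pron.C2
import Cfsg.Agent.Pron.Conv

set_option autoImplicit false
set_option linter.unusedSectionVars false

namespace Cfsg.Agent.Pron

open Finset MulAction

open scoped Classical

variable {G : Type} [Group G] [Finite G] {Ω : Type} [MulAction G Ω]

theorem Fx_sdiff (K : Subgroup G) {X Γ : Finset Ω} (h : Γ ⊆ X) :
    (Fx K (X \ Γ)).card + (Fx K Γ).card = (Fx K X).card := by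
  rw [← card_union_of_disjoint]
  · congr 1
    ext a
    simp only [mem_union, mem_Fx, mem_sdiff]
    constructor
    · rintro (⟨⟨h1, _⟩, h2⟩ | ⟨h1, h2⟩)
      · exact ⟨h1, h2⟩
      · exact ⟨h h1, h2⟩
    · rintro ⟨h1, h2⟩
      by_cases hc : a ∈ Γ
      · exact Or.inr ⟨hc, h2⟩
      · exact Or.inl ⟨⟨h1, hc⟩, h2⟩
  · rw [disjoint_left]
    intro a ha hb
    exact (mem_sdiff.1 (mem_Fx.1 ha).1).2 (mem_Fx.1 hb).1

theorem Fx_erase (K : Subgroup G) {X : Finset Ω} {a : Ω} (ha : a ∈ Fx K X) :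
    (Fx K (X.erase a)).card + 1 = (Fx K X).card := by
  rw [← card_erase_add_one ha]
  congr 2
  ext b
  simp only [mem_Fx, mem_erase]
  tauto

theorem orb_sdiff {H : Subgroup G} {X Γ : Finset Ω} (hΓ : Inv H Γ) {a : Ω} (ha : a ∈ X \ Γ) :
    orb H (X \ Γ) a = orb H X a := by
  ext b
  simp only [mem_orb, mem_sdiff]
  constructor
  · rintro ⟨⟨h1, _⟩, h2⟩
    exact ⟨h1, h2⟩
  · rintro ⟨h1, h, hh, rfl⟩
    refine ⟨⟨h1, fun hc => (mem_sdiff.1 ha).2 ?_⟩, h, hh, rfl⟩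
    have := hΓ h⁻¹ (H.inv_mem hh) _ hc
    rwa [inv_smul_smul] at this

/-- each orbit of `H` in `X` has positive defect -/
def Good (H K : Subgroup G) (X : Finset Ω) : Prop :=
  ∀ a ∈ X, 2 * (Fx K (orb H X a)).card + 1 ≤ (orb H X a).card ∧
    (2 * (Fx K (orb H X a)).card + 1 = (orb H X a).card →
      3 ≤ (orb H X a).card ∧ Tr2 H (orb H X a))

theorem Good.sdiff {H K : Subgroup G} {X Γ : Finset Ω} (hg : Good H K X) (hΓ : Inv H Γ) :
    Good H K (X \ Γ) := by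
  intro a ha
  rw [orb_sdiff hΓ ha]
  exact hg a (mem_sdiff.1 ha).1

theorem peel {H K : Subgroup G} : ∀ (m : ℕ) (X : Finset Ω), X.card = m → Inv H X → Good H K X →
    2 * (Fx K X).card ≤ X.card ∧ (X.Nonempty → 2 * (Fx K X).card + 1 ≤ X.card) := by
  intro m
  induction m using Nat.strong_induction_on with
  | _ m ih =>
    intro X hm hi hg
    rcases X.eq_empty_or_nonempty with rfl | ⟨a, ha⟩
    · simp [Fx]
    · have ho := orb_Orb hi a
      have hs := orb_subset H X a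
      have h1 := Fx_sdiff K hs
      have h2 := card_sdiff_add_card_eq_card hs
      have h3 := (hg a ha).1
      have h4 := (ih _ (by omega) (X \ orb H X a) rfl (hi.sdiff ho.inv) (hg.sdiff ho.inv)).1
      exact ⟨by omega, fun _ => by omega⟩

theorem Orb.of_sdiff {H : Subgroup G} {X : Finset Ω} (hi : Inv H X) {a : Ω}
    (h : X \ orb H X a = ∅) : X = orb H X a :=
  Subset.antisymm (sdiff_eq_empty_iff_subset.1 h) (orb_subset _ _ _)

/-- if no further point has its stabilizer orbit inside the fixed set, the orbits are good -/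
theorem good_of {K : Subgroup G} {n : ℕ} (IH : ∀ m < n, Claim G K m) {H : Subgroup G}
    {Δ : Finset Ω} (hn : Δ.card ≤ n) (hp : Pro H K) (hi : Inv H Δ) {α : Ω} (hα : α ∈ Fx K Δ)
    (h1 : (Δ.filter (fun β => ∀ h ∈ H, h • α = α → IsFx K (h • β))).card < 2) :
    Good (St H α) K (Δ.erase α) := by
  intro a ha
  have hαΔ := (mem_Fx.1 hα).1
  have hαF := (mem_Fx.1 hα).2
  have hi' := hi.erase α
  have hne : (Sp K (orb (St H α) (Δ.erase α) a)).Nonempty := by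
    by_contra hc
    rw [not_nonempty_iff_eq_empty] at hc
    have ha' : a ∈ Δ.filter (fun β => ∀ h ∈ H, h • α = α → IsFx K (h • β)) := by
      refine mem_filter.2 ⟨(mem_erase.1 ha).2, fun h hh e => ?_⟩
      by_contra hx
      have : h • a ∈ Sp K (orb (St H α) (Δ.erase α) a) :=
        mem_Sp.2 ⟨mem_orb.2 ⟨hi' h ⟨hh, e⟩ a ha, h, ⟨hh, e⟩, rfl⟩, hx⟩
      rw [hc] at this
      exact notMem_empty _ this
    have hα' : α ∈ Δ.filter (fun β => ∀ h ∈ H, h • α = α → IsFx K (h • β)) :=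
      mem_filter.2 ⟨hαΔ, fun h _ e => by rw [e]; exact hαF⟩
    have := one_lt_card.2 ⟨_, ha', _, hα', (mem_erase.1 ha).1⟩
    omega
  have hlt : (orb (St H α) (Δ.erase α) a).card < n := by
    have h1 := card_le_card (orb_subset (St H α) (Δ.erase α) a)
    have h2 := card_erase_add_one hαΔ
    omega
  have ho := orb_Orb hi' a
  have := IH _ hlt Ω (St H α) _ rfl (hp.st hαF) ho hne
  refine ⟨this.1, fun e => ⟨?_, this.2 e⟩⟩
  have h2 := two_le_Sp (hp.st hαF).le ho.inv hne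
  have h3 := card_Fx_add_Sp K (orb (St H α) (Δ.erase α) a)
  omega

theorem tr2_of {H : Subgroup G} {Δ : Finset Ω} (ho : Orb H Δ) {α : Ω} (hα : α ∈ Δ)
    (h : Orb (St H α) (Δ.erase α)) : Tr2 H Δ := by
  intro a ha b hb a' ha' b' hb' n1 n2
  obtain ⟨x, hx, ex⟩ := ho.tr a ha α hα
  obtain ⟨y, hy, ey⟩ := ho.tr a' ha' α hα
  have m1 : ∀ x ∈ H, ∀ a, x • a = α → ∀ b ∈ Δ, a ≠ b → x • b ∈ Δ.erase α := by
    intro x hx a e b hb n
    refine mem_erase.2 ⟨fun hc => n ?_, ho.inv x hx b hb⟩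
    exact ((smul_left_cancel_iff x).1 (hc.trans e.symm)).symm
  obtain ⟨z, hz, ez⟩ := h.tr _ (m1 x hx a ex b hb n1) _ (m1 y hy a' ey b' hb' n2)
  have hzα : z • α = α := hz.2
  refine ⟨y⁻¹ * z * x, H.mul_mem (H.mul_mem (H.inv_mem hy) hz.1) hx, ?_, ?_⟩
  · rw [mul_smul, mul_smul, ex, hzα, inv_smul_eq_iff, ey]
  · rw [mul_smul, mul_smul, ez, inv_smul_smul]

theorem tr3_of {H : Subgroup G} {Δ : Finset Ω} (ho : Orb H Δ) {α : Ω} (hα : α ∈ Δ)
    (h : Tr2 (St H α) (Δ.erase α)) : Tr3 H Δ := by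
  intro a ha b hb c hc a' ha' b' hb' c' hc' n1 n2 n3 n4 n5 n6
  obtain ⟨x, hx, ex⟩ := ho.tr a ha α hα
  obtain ⟨y, hy, ey⟩ := ho.tr a' ha' α hα
  have m1 : ∀ x ∈ H, ∀ a, x • a = α → ∀ b ∈ Δ, a ≠ b → x • b ∈ Δ.erase α := by
    intro x hx a e b hb n
    refine mem_erase.2 ⟨fun hc => n ?_, ho.inv x hx b hb⟩
    exact ((smul_left_cancel_iff x).1 (hc.trans e.symm)).symm
  obtain ⟨z, hz, ez, ez'⟩ := h _ (m1 x hx a ex b hb n1) _ (m1 x hx a ex c hc n2)
    _ (m1 y hy a' ey b' hb' n4) _ (m1 y hy a' ey c' hc' n5)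
    (fun e => n3 ((smul_left_cancel_iff x).1 e)) (fun e => n6 ((smul_left_cancel_iff y).1 e))
  have hzα : z • α = α := hz.2
  refine ⟨y⁻¹ * z * x, H.mul_mem (H.mul_mem (H.inv_mem hy) hz.1) hx, ?_, ?_, ?_⟩
  · rw [mul_smul, mul_smul, ex, hzα, inv_smul_eq_iff, ey]
  · rw [mul_smul, mul_smul, ez, inv_smul_smul]
  · rw [mul_smul, mul_smul, ez', inv_smul_smul]

theorem tr4_of {H : Subgroup G} {Δ : Finset Ω} (hi : Inv H Δ) (h3 : Tr3 H Δ) {α β γ : Ω}
    (hα : α ∈ Δ) (hβ : β ∈ Δ) (hγ : γ ∈ Δ) (d1 : α ≠ β) (d2 : α ≠ γ) (d3 : β ≠ γ)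
    (h : Orb (St (St (St H α) β) γ) (((Δ.erase α).erase β).erase γ)) : Tr4 H Δ := by
  intro a ha b hb c hc d hd a' ha' b' hb' c' hc' d' hd' n1 n2 n3 n4 n5 n6 k1 k2 k3 k4 k5 k6
  obtain ⟨x, hx, ex1, ex2, ex3⟩ := h3 a ha b hb c hc α hα β hβ γ hγ n1 n2 n4 d1 d2 d3
  obtain ⟨y, hy, ey1, ey2, ey3⟩ := h3 a' ha' b' hb' c' hc' α hα β hβ γ hγ k1 k2 k4 d1 d2 d3
  have m1 : ∀ x ∈ H, ∀ a b c, x • a = α → x • b = β → x • c = γ → ∀ d ∈ Δ, a ≠ d → b ≠ d →
      c ≠ d → x • d ∈ ((Δ.erase α).erase β).erase γ := by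
    intro x hx a b c e1 e2 e3 d hd n1 n2 n3
    refine mem_erase.2 ⟨fun hc => n3 ?_, mem_erase.2 ⟨fun hc => n2 ?_,
      mem_erase.2 ⟨fun hc => n1 ?_, hi x hx d hd⟩⟩⟩
    · exact ((smul_left_cancel_iff x).1 (hc.trans e3.symm)).symm
    · exact ((smul_left_cancel_iff x).1 (hc.trans e2.symm)).symm
    · exact ((smul_left_cancel_iff x).1 (hc.trans e1.symm)).symm
  obtain ⟨z, hz, ez⟩ := h.tr _ (m1 x hx a b c ex1 ex2 ex3 d hd n3 n5 n6)
    _ (m1 y hy a' b' c' ey1 ey2 ey3 d' hd' k3 k5 k6)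
  have hz1 : z • α = α := hz.1.1.2
  have hz2 : z • β = β := hz.1.2
  have hz3 : z • γ = γ := hz.2
  refine ⟨y⁻¹ * z * x, H.mul_mem (H.mul_mem (H.inv_mem hy) hz.1.1.1) hx, ?_, ?_, ?_, ?_⟩
  · rw [mul_smul, mul_smul, ex1, hz1, inv_smul_eq_iff, ey1]
  · rw [mul_smul, mul_smul, ex2, hz2, inv_smul_eq_iff, ey2]
  · rw [mul_smul, mul_smul, ex3, hz3, inv_smul_eq_iff, ey3]
  · rw [mul_smul, mul_smul, ez, inv_smul_smul]

theorem orb2_of_tr3 {H : Subgroup G} {Δ : Finset Ω} (hi : Inv H Δ) (h3 : Tr3 H Δ) {α β : Ω}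
    (hα : α ∈ Δ) (hβ : β ∈ Δ) (d1 : α ≠ β) : Orb (St (St H α) β) ((Δ.erase α).erase β) := by
  refine ⟨(hi.erase α).erase β, fun a ha b hb => ?_⟩
  obtain ⟨a1, ha⟩ := mem_erase.1 ha
  obtain ⟨a2, ha⟩ := mem_erase.1 ha
  obtain ⟨b1, hb⟩ := mem_erase.1 hb
  obtain ⟨b2, hb⟩ := mem_erase.1 hb
  obtain ⟨x, hx, e1, e2, e3⟩ := h3 α hα β hβ a ha α hα β hβ b hb d1 a2.symm a1.symm d1 b2.symm b1.symm
  exact ⟨x, ⟨⟨hx, e1⟩, e2⟩, e3⟩

/-- defect zero is impossible for a 3-transitive group -/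
theorem zero {K : Subgroup G} {n : ℕ} (IH : ∀ m < n, Claim G K m) {H : Subgroup G}
    {Δ : Finset Ω} (hn : Δ.card ≤ n) (hp : Pro H K) (hi : Inv H Δ) (h3 : Tr3 H Δ)
    (hne : (Sp K Δ).Nonempty) (hs : (Sp K Δ).card = (Fx K Δ).card) : False := by
  have hc := card_Fx_add_Sp K Δ
  have h2 := two_le_Sp hp.le hi hne
  by_cases hf : (Fx K Δ).card ≤ 2
  · refine final_min hp hi h3 hne hs (fun g hg ⟨a, ha, hga⟩ => ?_)
    have : 1 < (Δ.filter (fun a => g • a ≠ a)).card :=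
      one_lt_card.2 ⟨g • a, mem_filter.2 ⟨hi g hg a ha, fun e => hga ((smul_left_cancel_iff g).1 e)⟩,
        a, mem_filter.2 ⟨ha, hga⟩, hga⟩
    omega
  obtain ⟨α, β, γ, hα, hβ, hγ, d1, d2, d3⟩ := two_lt_card_iff.1 (not_le.1 hf)
  obtain ⟨hαΔ, hαF⟩ := mem_Fx.1 hα
  obtain ⟨hβΔ, hβF⟩ := mem_Fx.1 hβ
  obtain ⟨hγΔ, hγF⟩ := mem_Fx.1 hγ
  set H' := St (St H α) β with hH'
  set Δ' := (Δ.erase α).erase β with hΔ'
  have hβ1 : β ∈ Fx K (Δ.erase α) := mem_Fx.2 ⟨mem_erase.2 ⟨d1.symm, hβΔ⟩, hβF⟩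
  have hγ' : γ ∈ Fx K Δ' := mem_Fx.2 ⟨mem_erase.2 ⟨d3.symm, mem_erase.2 ⟨d2.symm, hγΔ⟩⟩, hγF⟩
  have f1 := Fx_erase K hα
  have f2 : (Fx K Δ').card + 1 = _ := Fx_erase K hβ1
  have c1 := card_erase_add_one hαΔ
  have c2' : Δ'.card + 1 = _ := card_erase_add_one (mem_Fx.1 hβ1).1
  have ho' : Orb H' Δ' := orb2_of_tr3 hi h3 hαΔ hβΔ d1
  have hp' : Pro H' K := (hp.st hαF).st hβF
  have hc' := card_Fx_add_Sp K Δ'
  have hne' : (Sp K Δ').Nonempty := card_pos.1 (by omega)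
  by_cases hφ : 2 ≤ (Δ'.filter (fun z => ∀ h ∈ H', h • γ = γ → IsFx K (h • z))).card
  · have hb := block IH (by omega) hp' ho' hne' hγ' hφ
    set Φ := Δ'.filter (fun z => ∀ h ∈ H', h • γ = γ → IsFx K (h • z)) with hΦ
    have hΦ2 : Φ.card = 2 := by omega
    have hγΦ : γ ∈ Φ := mem_filter.2 ⟨(mem_Fx.1 hγ').1, fun h _ e => by rw [e]; exact hγF⟩
    have e1 : (Φ.erase γ).card = 1 := by rw [card_erase_of_mem hγΦ, hΦ2]
    obtain ⟨δ, hδ⟩ := card_eq_one.1 e1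
    have hδ1 : δ ∈ Φ.erase γ := by rw [hδ]; exact mem_singleton_self _
    obtain ⟨d6, hδΦ⟩ := mem_erase.1 hδ1
    obtain ⟨hδΔ', hδ2⟩ := mem_filter.1 hδΦ
    obtain ⟨d5, hδ3⟩ := mem_erase.1 hδΔ'
    obtain ⟨d4, hδΔ⟩ := mem_erase.1 hδ3
    refine final_min hp hi h3 hne hs (fun g hg hm => sqs hi h3 hαΔ hβΔ hγΔ hδΔ d1 d2 d3 d4 d5 d6
      ?_ ?_ hg hm)
    · intro h hh e1 e2 e3
      have hh' : h ∈ H' := ⟨⟨hh, e1⟩, e2⟩
      have : h • δ ∈ Φ.erase γ := by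
        refine mem_erase.2 ⟨fun hc => d6 ((smul_left_cancel_iff h).1 (hc.trans e3.symm)),
          mem_filter.2 ⟨ho'.inv h hh' δ hδΔ', fun x hx ex => ?_⟩⟩
        rw [← mul_smul]
        exact hδ2 _ (H'.mul_mem hx hh') (by rw [mul_smul, e3, ex])
      rw [hδ] at this
      exact mem_singleton.1 this
    · intro z hz hfz
      by_contra hc
      push Not at hc
      obtain ⟨z1, z2, z3, z4⟩ := hc
      have : z ∈ Φ.erase γ := by
        refine mem_erase.2 ⟨z3, mem_filter.2 ⟨mem_erase.2 ⟨z2, mem_erase.2 ⟨z1, hz⟩⟩, fun x hx ex => ?_⟩⟩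
        rw [hfz x hx.1.1 hx.1.2 hx.2 ex]
        exact fun k hk => hfz k (hp.le hk) (hαF k hk) (hβF k hk) (hγF k hk)
      rw [hδ] at this
      exact z4 (mem_singleton.1 this)
  have hg := good_of IH (by omega) hp' ho'.inv hγ' (not_le.1 hφ)
  set X := Δ'.erase γ with hX
  have hiX : Inv (St H' γ) X := ho'.inv.erase γ
  have f3 : (Fx K X).card + 1 = _ := Fx_erase K hγ'
  have c3' : X.card + 1 = _ := card_erase_add_one (mem_Fx.1 hγ').1
  have hδX : X.card = 2 * (Fx K X).card + 3 := by omega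
  by_cases hall : ∀ a ∈ X, (orb (St H' γ) X a).card = 2 * (Fx K (orb (St H' γ) X a)).card + 1
  · exact c3 hp' ho' hγ' (by omega) (fun a ha => ⟨hall a ha, (hg a ha).2 (hall a ha).symm⟩)
  push Not at hall
  obtain ⟨a, ha, hna⟩ := hall
  have oa := orb_Orb hiX a
  have sa := orb_subset (St H' γ) X a
  have g1 := Fx_sdiff K sa
  have g2 := card_sdiff_add_card_eq_card sa
  have g3 := (hg a ha).1
  rcases (X \ orb (St H' γ) X a).eq_empty_or_nonempty with he | ⟨b, hb⟩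
  · have := Orb.of_sdiff hiX he
    exact final4 hp hi (tr4_of hi h3 hαΔ hβΔ hγΔ d1 d2 d3 (by rw [← hH', ← hΔ', ← hX, this]; exact oa))
      hne hs
  · set Y := X \ orb (St H' γ) X a with hY
    have hiY : Inv (St H' γ) Y := hiX.sdiff oa.inv
    have hgY : Good (St H' γ) K Y := hg.sdiff oa.inv
    have ob := orb_Orb hiY b
    have sb := orb_subset (St H' γ) Y b
    have g4 := Fx_sdiff K sb
    have g5 := card_sdiff_add_card_eq_card sb
    have g6 := hgY b hb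
    have g7 := peel _ _ rfl (hiY.sdiff ob.inv) (hgY.sdiff ob.inv)
    have he : Y \ orb (St H' γ) Y b = ∅ := by
      by_contra hc
      have := g7.2 (nonempty_iff_ne_empty.2 hc)
      omega
    have eY := Orb.of_sdiff hiY he
    have g8 : 2 * (Fx K (orb (St H' γ) Y b)).card + 1 = (orb (St H' γ) Y b).card := by omega
    have g9 := g6.2 g8
    rw [← eY] at g8 g9 ob
    refine c2 (Γ₁ := Y) (Γ₂ := orb (St H' γ) X a) hp hi h3 hs hα hβ hγ d1 d2 d3
      (sdiff_union_of_subset sa).symm sdiff_disjoint ob oa g9.2 g8.symm g9.1 ?_ ⟨a, self_mem_orb ha⟩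
    exact ⟨(Fx K (orb (St H' γ) X a)).card + 1, by omega⟩

theorem claim (G : Type) [Group G] [Finite G] (K : Subgroup G) (n : ℕ) : Claim G K n := by
  induction n using Nat.strong_induction_on with
  | _ n IH =>
    intro Ω _ H Δ hn hp ho hne
    have hc := card_Fx_add_Sp K Δ
    have h2 := two_le_Sp hp.le ho.inv hne
    rcases (Fx K Δ).eq_empty_or_nonempty with he | ⟨α, hα⟩
    · rw [he, card_empty] at hc ⊢
      exact ⟨by omega, fun e => by omega⟩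
    by_cases hφ : 2 ≤ (Δ.filter (fun β => ∀ h ∈ H, h • α = α → IsFx K (h • β))).card
    · have hb := block IH hn.le hp ho hne hα hφ
      exact ⟨by omega, fun e => by omega⟩
    have hg := good_of IH hn.le hp ho.inv hα (not_le.1 hφ)
    have hαΔ := (mem_Fx.1 hα).1
    set X := Δ.erase α with hX
    have hiX : Inv (St H α) X := ho.inv.erase α
    have f1 : (Fx K X).card + 1 = _ := Fx_erase K hα
    have c1 : X.card + 1 = _ := card_erase_add_one hαΔ
    have hf := card_pos.2 ⟨α, hα⟩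
    obtain ⟨a, ha⟩ : X.Nonempty := card_pos.1 (by omega)
    have oa := orb_Orb hiX a
    have sa := orb_subset (St H α) X a
    have g1 := Fx_sdiff K sa
    have g2 := card_sdiff_add_card_eq_card sa
    have g3 := hg a ha
    rcases (X \ orb (St H α) X a).eq_empty_or_nonempty with he | ⟨b, hb⟩
    · have eX := Orb.of_sdiff hiX he
      rw [← eX] at g3 oa
      refine ⟨?_, fun _ => tr2_of ho hαΔ oa⟩
      by_contra hlt
      exact zero IH hn.le hp ho.inv (tr3_of ho hαΔ (g3.2 (by omega)).2) hne (by omega)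
    · set Y := X \ orb (St H α) X a with hY
      have hiY : Inv (St H α) Y := hiX.sdiff oa.inv
      have hgY : Good (St H α) K Y := hg.sdiff oa.inv
      have ob := orb_Orb hiY b
      have sb := orb_subset (St H α) Y b
      have g4 := Fx_sdiff K sb
      have g5 := card_sdiff_add_card_eq_card sb
      have g6 := hgY b hb
      have g7 := peel _ _ rfl (hiY.sdiff ob.inv) (hgY.sdiff ob.inv)
      refine ⟨by omega, fun e => ?_⟩
      exfalso
      have he : Y \ orb (St H α) Y b = ∅ := by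
        by_contra hc
        have := g7.2 (nonempty_iff_ne_empty.2 hc)
        omega
      have eY := Orb.of_sdiff hiY he
      have g8 : 2 * (Fx K (orb (St H α) Y b)).card + 1 = (orb (St H α) Y b).card := by omega
      have g9 := g6.2 g8
      have g10 : 2 * (Fx K (orb (St H α) X a)).card + 1 = (orb (St H α) X a).card := by omega
      have g11 := g3.2 g10
      rw [← eY] at g8 g9 ob
      exact rank3 (Γ₁ := Y) (Γ₂ := orb (St H α) X a) ho hαΔ (sdiff_union_of_subset sa).symm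
        sdiff_disjoint ob oa g9.2 g11.2 ⟨_, g8.symm⟩ ⟨_, g10.symm⟩ g9.1 g11.1

end Cfsg.Agent.Pron
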